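import Cfsg.Agent.SP.NegS.Reg
import Cfsg.Agent.SP.NegS.Gen2

/-! # Searches for elements preserving lists of points of a graph

`valid2`, `slp`: chains given by Schreier trees.  `PresL`: lists of points preserved by an element.
`chkR`, `runR`: the elements `y` such that `u y u⁻¹` and `v y v⁻¹` preserve two lists. -/

set_option autoImplicit false

namespace Cfsg.Agent.SP.NegS.Eng

open Subgroup Cfsg.Agent.SP Cfsg.Agent.SP.NegS

/-- no repetition, tested with a mask -/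
def ndm : ℕ → List ℕ → Bool
  | _, [] => true
  | m, a :: l => !Nat.testBit m a && ndm (m ||| 2 ^ a) l

theorem ndm_realised : True := by have := @ndm.eq_def; trivial

theorem ndm_spec : ∀ (l : List ℕ) (m : ℕ), ndm m l = true → l.Nodup ∧ ∀ a ∈ l, m.testBit a = false
  | [], _, _ => ⟨List.nodup_nil, fun _ h => absurd h List.not_mem_nil⟩
  | a :: l, m, h => by
    rw [ndm, Bool.and_eq_true, Bool.not_eq_true'] at h
    obtain ⟨h1, h2⟩ := ndm_spec l _ h.2
    refine ⟨List.nodup_cons.2 ⟨fun ha => by simpa using h2 a ha, h1⟩, fun b hb => ?_⟩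
    rcases List.mem_cons.1 hb with rfl | hb
    · exact h.1
    · have := h2 b hb
      rw [Nat.testBit_or, Bool.or_eq_false_iff] at this
      exact this.1

/-- the shape of a chain -/
def valid2 (app : ℕ → ℕ → ℕ) (n : ℕ) : List (ℕ × List ℕ) → Bool
  | [] => true
  | l :: L => Nat.blt l.1 n && (ndm 0 (l.2.map fun u => app u l.1) &&
      ((L.all fun m => m.2.all fun u => Nat.beq (app u l.1) l.1) && valid2 app n L))

theorem valid2_realised : True := by have := @valid2.eq_def; trivial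

/-- straight line program: `c ∘ P = a ∘ b` with `a b c` known -/
def slp (app : ℕ → ℕ → ℕ) (n d : ℕ) : List ℕ → List ℕ → List ℕ → Bool
  | _, [], _ => true
  | _, _ :: _, [] => false
  | env, P :: Ps, e :: es =>
    allB (fun i => Nat.blt (app P i) n && Nat.beq (app (env.getD (e / 1048576) d) (app P i))
      (app (env.getD (e % 1024) d) (app (env.getD (e / 1024 % 1024) d) i))) n &&
      slp app n d (P :: env) Ps es

theorem slp_realised : True := by have := @slp.eq_def; trivial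

variable {G : Type*} [Group G] {M : NA G}

theorem le_ncard_dec2 [Finite G] : ∀ L : List (ℕ × List ℕ), valid2 M.app M.n L = true →
    (∀ l ∈ L, ∀ u ∈ l.2, ∃ a, M.Rep u a) →
    (L.map fun l => l.2.length).prod ≤ {g | M.Dec L g}.ncard
  | [], _, _ => by
    have : {g | M.Dec [] g} = {1} := rfl
    rw [this]; simp
  | l :: L, hv, hL => by
    rw [valid2, Bool.and_eq_true, Bool.and_eq_true, Bool.and_eq_true, Nat.blt_eq] at hv
    obtain ⟨hb, h1, h2, h3⟩ := hv
    have ih := le_ncard_dec2 L h3 fun m hm => hL m (List.mem_cons_of_mem _ hm)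
    have hfix : ∀ h, M.Dec L h → M.act h l.1 = l.1 := fun h hh => fix_of_dec hb L h (fun m hm u hu =>
      Nat.eq_of_beq_eq_true (List.all_eq_true.1 (List.all_eq_true.1 h2 m hm) u hu)) hh
    have hnd := (ndm_spec _ _ h1).1
    choose! a ha using hL l List.mem_cons_self
    have hinj : Set.InjOn (fun p : ℕ × G => a p.1 * p.2) ((l.2.toFinset : Set ℕ) ×ˢ {g | M.Dec L g}) := by
      rintro ⟨u, h⟩ ⟨hu, hh⟩ ⟨u', h'⟩ ⟨hu', hh'⟩ e
      have hu1 : u ∈ l.2 := by simpa using hu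
      have hu2 : u' ∈ l.2 := by simpa using hu'
      have e' : a u * h = a u' * h' := e
      have e1 := congrArg (fun g => M.act g l.1) e'
      simp only [M.mul _ _ _ hb] at e1
      rw [hfix h hh, hfix h' hh', ← ha u hu1 _ hb, ← ha u' hu2 _ hb] at e1
      have e2 : u = u' := List.inj_on_of_nodup_map hnd hu1 hu2 e1
      subst e2
      rw [mul_left_cancel e']
    rw [List.map_cons, List.prod_cons]
    calc l.2.length * (L.map fun l => l.2.length).prod
        ≤ ((l.2.toFinset : Set ℕ) ×ˢ {g | M.Dec L g}).ncard := by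
          rw [Set.ncard_prod, Set.ncard_coe_finset, List.toFinset_card_of_nodup hnd.of_map]
          exact Nat.mul_le_mul_left _ ih
      _ = _ := hinj.ncard_image.symm
      _ ≤ _ := by
          refine Set.ncard_le_ncard ?_
          rintro _ ⟨⟨u, h⟩, ⟨hu, hh⟩, rfl⟩
          have hu1 : u ∈ l.2 := by simpa using hu
          exact ⟨u, hu1, a u, h, ha u hu1, hh, hfix h hh, rfl⟩

theorem lt_of_valid2 {app : ℕ → ℕ → ℕ} {n : ℕ} : ∀ L : List (ℕ × List ℕ), valid2 app n L = true →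
    ∀ l ∈ L, l.1 < n
  | [], _, _, h => absurd h List.not_mem_nil
  | l :: L, hv, m, hm => by
    rw [valid2, Bool.and_eq_true, Bool.and_eq_true, Bool.and_eq_true, Nat.blt_eq] at hv
    rcases List.mem_cons.1 hm with rfl | hm
    · exact hv.1
    · exact lt_of_valid2 L hv.2.2.2 m hm

theorem complete_of_card2 [Finite G] {L : List (ℕ × List ℕ)} (hv : valid2 M.app M.n L = true)
    (hL : ∀ l ∈ L, ∀ u ∈ l.2, ∃ a, M.Rep u a)
    (hc : Nat.card G ≤ (L.map fun l => l.2.length).prod) : M.Complete L := by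
  refine ⟨lt_of_valid2 L hv, fun g => ?_⟩
  have h1 := hc.trans (le_ncard_dec2 L hv hL)
  have h2 : {g | M.Dec L g} = Set.univ :=
    Set.eq_of_subset_of_ncard_le (Set.subset_univ _) (by rwa [Set.ncard_univ])
  exact (h2.symm ▸ Set.mem_univ g : g ∈ {g | M.Dec L g})

theorem getD_rep {d : ℕ} (hd : ∃ g, M.Rep d g) {env : List ℕ} (he : ∀ Q ∈ env, ∃ g, M.Rep Q g)
    (k : ℕ) : ∃ g, M.Rep (env.getD k d) g := by
  by_cases hk : k < env.length
  · rw [List.getD_eq_getElem _ _ hk]; exact he _ (List.getElem_mem hk)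
  · rwa [List.getD_eq_default _ _ (not_lt.1 hk)]

theorem slp_spec {d : ℕ} (hd : ∃ g, M.Rep d g) : ∀ (Ps env es : List ℕ),
    (∀ Q ∈ env, ∃ g, M.Rep Q g) → slp M.app M.n d env Ps es = true → ∀ P ∈ Ps, ∃ g, M.Rep P g
  | [], _, _, _, _ => fun _ h => absurd h List.not_mem_nil
  | _ :: _, _, [], _, h => by simp [slp] at h
  | P :: Ps, env, e :: es, he, h => by
    rw [slp, Bool.and_eq_true] at h
    obtain ⟨a, ha⟩ := getD_rep hd he (e % 1024)
    obtain ⟨b, hb⟩ := getD_rep hd he (e / 1024 % 1024)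
    obtain ⟨c, hc⟩ := getD_rep hd he (e / 1048576)
    have hP : M.Rep P (c⁻¹ * (a * b)) := fun i hi => by
      have h1 := allB_iff.1 h.1 i hi
      rw [Bool.and_eq_true, Nat.blt_eq, Nat.beq_eq, hc _ h1.1, hb i hi, ha _ (M.lt _ _ hi)] at h1
      rw [M.mul _ _ _ hi, M.mul _ _ _ hi, ← h1.2, NA.act_inv c h1.1]
    intro Q hQ
    rcases List.mem_cons.1 hQ with rfl | hQ
    · exact ⟨_, hP⟩
    · refine slp_spec hd Ps (P :: env) es (fun R hR => ?_) h.2 Q hQ
      rcases List.mem_cons.1 hR with rfl | hR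
      exacts [⟨_, hP⟩, he R hR]

theorem enum_sub {app : ℕ → ℕ → ℕ} {pr : ℕ → ℕ → Bool} {fl : List ℕ → Bool} {S : ℕ → Prop}
    {x : List ℕ} : ∀ (L : List (ℕ × List ℕ)) (w : List ℕ) (acc : List (List ℕ)),
      (∀ l ∈ L, ∀ u ∈ l.2, S u) → (∀ u ∈ w, S u) → x ∈ enum app pr fl L w acc →
      x ∈ acc ∨ (fl x = true ∧ ∀ u ∈ x, S u)
  | [], w, acc, _, hw, h => by
    rw [enum] at h
    cases hf : fl w
    · rw [hf] at h; exact Or.inl h
    · rw [hf] at h
      rcases List.mem_cons.1 h with rfl | h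
      exacts [Or.inr ⟨hf, hw⟩, Or.inl h]
  | l :: L, w, acc, hL, hw, h => by
    rw [enum] at h
    have hl := hL l List.mem_cons_self
    generalize l.2 = U at hl h
    induction U with
    | nil => exact Or.inl h
    | cons u U ih =>
      rw [List.foldr_cons] at h
      have ih' := ih fun v hv => hl v (List.mem_cons_of_mem _ hv)
      cases hp : pr l.1 (apW app w (app u l.1))
      · rw [hp] at h; exact ih' h
      · rw [hp] at h
        rcases enum_sub L (u :: w) _ (fun m hm => hL m (List.mem_cons_of_mem _ hm)) (fun v hv => by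
          rcases List.mem_cons.1 hv with rfl | hv
          exacts [hl _ List.mem_cons_self, hw v hv]) h with h1 | h1
        exacts [ih' h1, Or.inr h1]

/-- membership test by sifting -/
def isIn (app : ℕ → ℕ → ℕ) (n : ℕ) (C : List (ℕ × List ℕ)) (P : ℕ) : Bool :=
  !(enum app (fun i j => Nat.beq (app P i) j) (fun w => agr app n w P) C [] []).isEmpty

theorem rep_of_isIn {C : List (ℕ × List ℕ)} (hL : ∀ l ∈ C, ∀ u ∈ l.2, ∃ a, M.Rep u a) {P : ℕ}
    (h : isIn M.app M.n C P = true) : ∃ g, M.Rep P g := by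
  rw [isIn, Bool.not_eq_true', List.isEmpty_eq_false_iff_exists_mem] at h
  obtain ⟨x, hx⟩ := h
  obtain ⟨h1, h2⟩ := (enum_sub (S := fun u => ∃ a, M.Rep u a) C [] [] hL
    (fun _ h => absurd h List.not_mem_nil) hx).resolve_left List.not_mem_nil
  obtain ⟨g, -, hg⟩ := ag_mem (H := ⊤) x fun u hu => let ⟨a, ha⟩ := h2 u hu; ⟨a, trivial, ha⟩
  exact ⟨g, rep_of_agr hg h1⟩

/-! ### tests on a base -/

/-- membership in a list -/
def memL (X : List ℕ) (i : ℕ) : Bool := X.any fun f => Nat.beq f i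

theorem memL_iff {X : List ℕ} {i : ℕ} : memL X i = true ↔ i ∈ X := by simp [memL]

/-- equality of two words on a list of points -/
def eqB (app : ℕ → ℕ → ℕ) (bs w v : List ℕ) : Bool :=
  bs.all fun b => Nat.beq (apW app w b) (apW app v b)

/-- `bs` is a base -/
def NA.IsBase (M : NA G) (bs : List ℕ) : Prop :=
  (∀ b ∈ bs, b < M.n) ∧ ∀ g, (∀ b ∈ bs, M.act g b = b) → g = 1

theorem isBase_of {C : List (ℕ × List ℕ)} (hC : M.Complete C) {bs : List ℕ}
    (h1 : (bs.all fun b => Nat.blt b M.n) = true)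
    (h : (enum M.app (fun i j => !memL bs i || Nat.beq i j) (fun _ => true) C [] []).all
      (fun w => weq M.app M.n w []) = true) : M.IsBase bs := by
  refine ⟨fun b hb => Nat.blt_eq.mp (List.all_eq_true.1 h1 b hb), fun g hg => ?_⟩
  obtain ⟨w, hw, hQ⟩ := run hC h (g := g) (fun i _ => by
    by_cases hi : i ∈ bs
    · rw [hg i hi, Nat.beq_refl, Bool.or_true]
    · rw [← memL_iff, Bool.not_eq_true] at hi
      rw [hi]; rfl) fun _ _ => rfl
  exact eq_of_weq hw NA.ag_nil hQ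

theorem eq_of_eqB {bs w v : List ℕ} (hb : M.IsBase bs) {g h : G} (hw : M.Ag w g) (hv : M.Ag v h)
    (e : eqB M.app bs w v = true) : g = h := by
  rw [← mul_left_cancel_iff (a := h⁻¹), inv_mul_cancel]
  refine hb.2 _ fun b hbs => ?_
  have h1 := hb.1 b hbs
  have h2 := Nat.eq_of_beq_eq_true (List.all_eq_true.1 e b hbs)
  rw [hw b h1, hv b h1] at h2
  rw [M.mul _ _ _ h1, h2, NA.act_inv h h1]

theorem eqB_of_eq {bs w v : List ℕ} (hb : M.IsBase bs) {g : G} (hw : M.Ag w g) (hv : M.Ag v g) :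
    eqB M.app bs w v = true := List.all_eq_true.2 fun b hbs => by
  rw [hw b (hb.1 b hbs), hv b (hb.1 b hbs)]; exact Nat.beq_refl _

theorem ne_of_eqB {bs w v : List ℕ} (hb : M.IsBase bs) {g h : G} (hw : M.Ag w g) (hv : M.Ag v h)
    (e : eqB M.app bs w v = false) : g ≠ h := by
  rintro rfl
  rw [eqB_of_eq hb hw hv] at e
  exact absurd e (by simp)

/-- `w ^ k = 1` -/
def pwB (app : ℕ → ℕ → ℕ) (bs : List ℕ) (k : ℕ) (w : List ℕ) : Bool :=
  eqB app bs (List.replicate k w).flatten []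

theorem pow_of_pwB {bs w : List ℕ} (hb : M.IsBase bs) {g : G} (hw : M.Ag w g) {k : ℕ}
    (e : pwB M.app bs k w = true) : g ^ k = 1 := eq_of_eqB hb (hw.pow k) NA.ag_nil e

theorem pwB_of_pow {bs w : List ℕ} (hb : M.IsBase bs) {g : G} (hw : M.Ag w g) {k : ℕ}
    (e : g ^ k = 1) : pwB M.app bs k w = true := eqB_of_eq hb (e ▸ hw.pow k) NA.ag_nil

/-! ### preserved lists -/

/-- `a` maps the list into itself -/
def NA.PresL (M : NA G) (X : List ℕ) (a : G) : Prop := ∀ f ∈ X, M.act a f ∈ X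

/-- a list of different points -/
def okL (n : ℕ) (X : List ℕ) : Bool := ndm 0 X && X.all fun f => Nat.blt f n

theorem okL_spec {n : ℕ} {X : List ℕ} (h : okL n X = true) : X.Nodup ∧ ∀ f ∈ X, f < n := by
  rw [okL, Bool.and_eq_true] at h
  exact ⟨(ndm_spec _ _ h.1).1, fun f hf => Nat.blt_eq.mp (List.all_eq_true.1 h.2 f hf)⟩

theorem NA.PresL.perm {X : List ℕ} {a : G} (h : M.PresL X a) (hX : okL M.n X = true) :
    (X.map (M.act a)).Perm X := by
  obtain ⟨h1, h2⟩ := okL_spec hX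
  refine (List.subperm_of_subset (h1.map_on fun x hx y hy e => NA.inj a (h2 x hx) (h2 y hy) e)
    fun x hx => ?_).perm_of_length_le (by simp)
  obtain ⟨f, hf, rfl⟩ := List.mem_map.1 hx
  exact h f hf

theorem NA.PresL.mem_iff {X : List ℕ} {a : G} (h : M.PresL X a) (hX : okL M.n X = true) {i : ℕ}
    (hi : i < M.n) : M.act a i ∈ X ↔ i ∈ X := by
  refine ⟨fun e => ?_, h i⟩
  obtain ⟨f, hf, e'⟩ := List.mem_map.1 ((h.perm hX).mem_iff.2 e)
  rwa [← NA.inj a ((okL_spec hX).2 f hf) hi e']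

/-- the stabiliser of a list -/
def NA.stabL (M : NA G) (X : List ℕ) (hX : okL M.n X = true) : Subgroup G where
  carrier := {a | M.PresL X a}
  mul_mem' {a b} ha hb f hf := by rw [M.mul _ _ _ ((okL_spec hX).2 f hf)]; exact ha _ (hb f hf)
  one_mem' f hf := by rwa [M.one f ((okL_spec hX).2 f hf)]
  inv_mem' {a} ha f hf := by
    have h1 := (okL_spec hX).2 f hf
    rw [← NA.PresL.mem_iff ha hX (M.lt _ _ h1), NA.act_inv' a h1]; exact hf

theorem presL_nil (a : G) : M.PresL [] a := fun _ h => absurd h List.not_mem_nil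

/-- the word maps `X` onto `X'` -/
def maps (app : ℕ → ℕ → ℕ) (w X X' : List ℕ) : Bool :=
  (X.all fun f => memL X' (apW app w f)) && X'.all fun g => X.any fun f => Nat.beq (apW app w f) g

theorem pres_maps {w X X' : List ℕ} (h : maps M.app w X X' = true) (hX : ∀ f ∈ X, f < M.n) {g a : G}
    (hw : M.Ag w g) (ha : M.PresL X a) : M.PresL X' (g * a * g⁻¹) := by
  rw [maps, Bool.and_eq_true] at h
  intro f' hf'
  obtain ⟨f, hf, e⟩ := List.any_eq_true.1 (List.all_eq_true.1 h.2 f' hf')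
  have h1 := hX f hf
  have h2 := memL_iff.1 (List.all_eq_true.1 h.1 _ (ha f hf))
  rw [hw _ (M.lt _ _ h1)] at h2
  rw [← Nat.eq_of_beq_eq_true e, hw f h1, M.mul _ _ _ (M.lt _ _ h1), NA.act_inv g h1, M.mul _ _ _ h1]
  exact h2

/-- `u g u⁻¹` preserves `X` -/
def presC (app : ℕ → ℕ → ℕ) (n : ℕ) (X : List ℕ) (U : ℕ) (w : List ℕ) : Bool :=
  allB (fun p => !memL X (app U p) || memL X (app U (apW app w p))) n

theorem pres_of_presC {X w : List ℕ} {U : ℕ} (h : presC M.app M.n X U w = true)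
    (hX : ∀ f ∈ X, f < M.n) {u g : G} (hu : M.Rep U u) (hw : M.Ag w g) :
    M.PresL X (u * g * u⁻¹) := by
  intro f hf
  have h1 := M.lt u⁻¹ f (hX f hf)
  have h2 := allB_iff.1 h _ h1
  rw [hu _ h1, NA.act_inv' u (hX f hf), memL_iff.2 hf, hw _ h1, hu _ (M.lt _ _ h1)] at h2
  rw [M.mul _ _ _ (hX f hf), M.mul _ _ _ h1]
  exact memL_iff.1 h2

/-- colour of a point with respect to a list -/
def cl (ad : ℕ → ℕ → Bool) (X : List ℕ) (i : ℕ) : ℕ :=
  cond (memL X i) 1 0 + 2 * X.countP (ad i)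

theorem cl_act {ad : ℕ → ℕ → Bool}
    (had : ∀ g i j, i < M.n → j < M.n → ad (M.act g i) (M.act g j) = ad i j) {X : List ℕ}
    (hX : okL M.n X = true) {a : G} (ha : M.PresL X a) {i : ℕ} (hi : i < M.n) :
    cl ad X (M.act a i) = cl ad X i := by
  have e1 : memL X (M.act a i) = memL X i := by
    rw [Bool.eq_iff_iff, memL_iff, memL_iff, ha.mem_iff hX hi]
  have e2 : X.countP (ad (M.act a i)) = X.countP (ad i) := by
    rw [← (ha.perm hX).countP_eq, List.countP_map]
    exact List.countP_congr fun f hf => by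
      rw [Function.comp, had a i f hi ((okL_spec hX).2 f hf)]
  rw [cl, cl, e1, e2]

/-- colour with respect to two lists -/
def kap (ad : ℕ → ℕ → Bool) (X Y : List ℕ) (i : ℕ) : ℕ := cl ad X i * 64 + cl ad Y i

/-- the search -/
def srch (app : ℕ → ℕ → ℕ) (C : List (ℕ × List ℕ)) (c : ℕ) (ps : List ℕ) : List (List ℕ) :=
  enum app (fun i j => Nat.beq (app c i) (app c j))
    (fun w => ps.all fun p => Nat.beq (app c p) (app c (apW app w p))) C [] []

/-- the data of a search -/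
def chkD (app : ℕ → ℕ → ℕ) (n : ℕ) (ad : ℕ → ℕ → Bool) (C : List (ℕ × List ℕ)) (X Y : List ℕ)
    (U V c : ℕ) (ps : List ℕ) : Bool :=
  okL n X && (okL n Y && (isIn app n C U && (isIn app n C V && ((ps.all fun p => Nat.blt p n) &&
    allB (fun i => Nat.beq (app c i)
      ((kap ad X Y (app U i) * 977 + kap ad X Y (app V i)) % 2039)) n))))

section

variable {ad : ℕ → ℕ → Bool} (had : ∀ g i j, i < M.n → j < M.n → ad (M.act g i) (M.act g j) = ad i j)
  {C : List (ℕ × List ℕ)} {X Y ps : List ℕ} {U V c : ℕ}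
  (h : chkD M.app M.n ad C X Y U V c ps = true)

include h in
theorem chkD_rep (hL : ∀ l ∈ C, ∀ u ∈ l.2, ∃ a, M.Rep u a) :
    (∃ u, M.Rep U u) ∧ ∃ v, M.Rep V v := by
  simp only [chkD, Bool.and_eq_true] at h
  exact ⟨rep_of_isIn hL h.2.2.1, rep_of_isIn hL h.2.2.2.1⟩

include had h in
theorem chkD_col {u v y : G} (hu : M.Rep U u) (hv : M.Rep V v) (h1 : M.PresL X (u * y * u⁻¹))
    (h2 : M.PresL Y (u * y * u⁻¹)) (h3 : M.PresL X (v * y * v⁻¹)) (h4 : M.PresL Y (v * y * v⁻¹)) :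
    (∀ i, i < M.n → Nat.beq (M.app c i) (M.app c (M.act y i)) = true) ∧
      ∀ w, M.Ag w y → (ps.all fun p => Nat.beq (M.app c p) (M.app c (apW M.app w p))) = true := by
  simp only [chkD, Bool.and_eq_true] at h
  obtain ⟨hX, hY, -, -, hps, hc⟩ := h
  have k : ∀ u : G, M.PresL X (u * y * u⁻¹) → M.PresL Y (u * y * u⁻¹) → ∀ i, i < M.n →
      kap ad X Y (M.act u (M.act y i)) = kap ad X Y (M.act u i) := by
    intro u h1 h2 i hi
    have hui := M.lt u i hi
    have e : M.act u (M.act y i) = M.act (u * y * u⁻¹) (M.act u i) := by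
      rw [← M.mul _ _ _ hi, ← M.mul _ _ _ hi]; congr 1; group
    rw [e, kap, kap, cl_act had hX h1 hui, cl_act had hY h2 hui]
  have hpr : ∀ i, i < M.n → Nat.beq (M.app c i) (M.app c (M.act y i)) = true := fun i hi => by
    have hyi := M.lt y i hi
    rw [Nat.eq_of_beq_eq_true (allB_iff.1 hc i hi), Nat.eq_of_beq_eq_true (allB_iff.1 hc _ hyi),
      hu i hi, hv i hi, hu _ hyi, hv _ hyi, k u h1 h2 i hi, k v h3 h4 i hi, Nat.beq_refl]
  refine ⟨hpr, fun w hw => List.all_eq_true.2 fun p hp => ?_⟩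
  have hp' : p < M.n := Nat.blt_eq.mp (List.all_eq_true.1 hps p hp)
  rw [hw p hp']; exact hpr p hp'

include had h in
theorem runR (hC : M.Complete C) {Q : List ℕ → Bool} (hQ : (srch M.app C c ps).all Q = true)
    {u v y : G} (hu : M.Rep U u) (hv : M.Rep V v) (h1 : M.PresL X (u * y * u⁻¹))
    (h2 : M.PresL Y (u * y * u⁻¹)) (h3 : M.PresL X (v * y * v⁻¹)) (h4 : M.PresL Y (v * y * v⁻¹)) :
    ∃ w, M.Ag w y ∧ Q w = true :=
  have := chkD_col had h hu hv h1 h2 h3 h4
  run hC hQ this.1 this.2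

end

/-- Symmetric form of `exists_pElem`. -/
theorem exists_pElem2 [Finite G] {A B : Subgroup G} (h : IsPair A B) {r : ℕ} (hr : r.Prime)
    (hd : r ∣ B.relIndex A) (u v : G) : ∃ y, u * y * u⁻¹ ∈ A ∧ v * y * v⁻¹ ∈ A ∧ u * y * u⁻¹ ∉ B ∧
      v * y * v⁻¹ ∉ B ∧ ∃ k, y ^ r ^ k = 1 := by
  obtain ⟨x, hx, hxt, hxB, hxtB, k, hk⟩ := h.exists_pElem hr hd (u * v⁻¹)
  have e1 : u * (u⁻¹ * x * u) * u⁻¹ = x := by group
  have e2 : v * (u⁻¹ * x * u) * v⁻¹ = (u * v⁻¹)⁻¹ * x * (u * v⁻¹) := by group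
  exact ⟨u⁻¹ * x * u, e1.symm ▸ hx, e2.symm ▸ hxt, e1.symm ▸ hxB, e2.symm ▸ hxtB, k, by
    rw [← conj_pow', hk]; simp⟩

/-- A search all of whose results have order dividing `m`. -/
theorem kill [Finite G] {ad : ℕ → ℕ → Bool}
    (had : ∀ g i j, i < M.n → j < M.n → ad (M.act g i) (M.act g j) = ad i j)
    {C : List (ℕ × List ℕ)} (hC : M.Complete C) (hL : ∀ l ∈ C, ∀ u ∈ l.2, ∃ a, M.Rep u a)
    {bs : List ℕ} (hb : M.IsBase bs) {X Y ps : List ℕ} {U V c m : ℕ}
    (h : chkD M.app M.n ad C X Y U V c ps = true)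
    (hQ : (srch M.app C c ps).all (pwB M.app bs m) = true) {A B : Subgroup G} (hp : IsPair A B)
    (hA : ∀ a ∈ A, M.PresL X a ∧ M.PresL Y a) {r : ℕ} (hr : r.Prime) (hd : r ∣ B.relIndex A) :
    r ∣ m := by
  obtain ⟨⟨u, hu⟩, v, hv⟩ := chkD_rep h hL
  obtain ⟨y, h1, h2, h3, -, k, hk⟩ := exists_pElem2 hp hr hd u v
  obtain ⟨w, hw, hQ⟩ := runR had h hC hQ hu hv (hA _ h1).1 (hA _ h1).2 (hA _ h2).1 (hA _ h2).2
  by_contra hn
  rw [eq_one_of_pow hk (pow_of_pwB hb hw hQ) ((Nat.Prime.coprime_iff_not_dvd hr).2 hn)] at h3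
  exact h3 (by simp)

end Cfsg.Agent.SP.NegS.Eng
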