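import Cfsg.Agent.SP.NegS.Eng2

/-! # Wide masks, the dihedral trick, small lemmas on normalisers -/

set_option autoImplicit false
set_option linter.style.haveILetI false

namespace Cfsg.Agent.SP.NegS.Eng

open Subgroup Cfsg.Agent.SP Cfsg.Agent.SP.NegS

/-- indicator function, one digit to the base `512` for each point -/
def W (p : ℕ → Bool) : ℕ → ℕ
  | 0 => 0
  | n + 1 => cond (p n) (W p n ||| 2 ^ (9 * n)) (W p n)

theorem W_realised : True := by have := @W.eq_def; trivial

theorem W_bit (p : ℕ → Bool) : ∀ n j, (W p n).testBit j = (decide (j % 9 = 0 ∧ j / 9 < n) && p (j / 9))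
  | 0, j => by simp [W]
  | n + 1, j => by
    rw [W]
    by_cases h : j = 9 * n
    · subst h
      cases hp : p n <;> simp [W_bit p n, hp]
    · have e : (2 ^ (9 * n)).testBit j = false := Nat.testBit_two_pow_of_ne (Ne.symm h)
      have e2 : decide (j % 9 = 0 ∧ j / 9 < n + 1) = decide (j % 9 = 0 ∧ j / 9 < n) :=
        decide_eq_decide.2 (by omega)
      cases p n <;> simp only [cond_true, cond_false, Nat.testBit_or, e, Bool.or_false, e2, W_bit p n]

theorem W_lt (p : ℕ → Bool) (n : ℕ) : W p n < 2 ^ (9 * n) :=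
  Nat.lt_pow_two_of_testBit _ fun j hj => by
    rw [W_bit, decide_eq_false (by omega), Bool.false_and]

theorem W_mod (p : ℕ → Bool) : ∀ n, W p n % 511 = cnt p n % 511
  | 0 => rfl
  | n + 1 => by
    rw [W, cnt]
    cases p n
    · exact W_mod p n
    · have h1 := Nat.two_pow_add_eq_or_of_lt (W_lt p n) 1
      have h2 : 2 ^ (9 * n) % 511 = 1 := by
        rw [pow_mul, Nat.pow_mod]; norm_num
      have h3 := W_mod p n
      rw [mul_one, Nat.or_comm] at h1
      rw [cond_true, cond_true, ← h1]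
      omega

/-- indicator function, one bit for each point -/
def V (p : ℕ → Bool) : ℕ → ℕ
  | 0 => 0
  | n + 1 => cond (p n) (V p n ||| 2 ^ n) (V p n)

theorem V_realised : True := by have := @V.eq_def; trivial

theorem V_bit (p : ℕ → Bool) : ∀ n j, (V p n).testBit j = (decide (j < n) && p j)
  | 0, j => by simp [V]
  | n + 1, j => by
    rw [V]
    by_cases h : j = n
    · subst h
      cases hp : p j <;> simp [V_bit p j, hp]
    · have e : (2 ^ n).testBit j = false := Nat.testBit_two_pow_of_ne (Ne.symm h)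
      have e2 : decide (j < n + 1) = decide (j < n) := decide_eq_decide.2 (by omega)
      cases p n <;> simp only [cond_true, cond_false, Nat.testBit_or, e, Bool.or_false, e2, V_bit p n]

theorem V_congr {p q : ℕ → Bool} {n : ℕ} (h : ∀ i, i < n → p i = q i) : V p n = V q n :=
  Nat.eq_of_testBit_eq fun j => by
    rw [V_bit, V_bit]
    by_cases e : j < n
    · rw [h _ e]
    · simp [e]

theorem V_or (p q : ℕ → Bool) (n : ℕ) : V p n ||| V q n = V (fun i => p i || q i) n :=
  Nat.eq_of_testBit_eq fun j => by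
    rw [Nat.testBit_or, V_bit, V_bit, V_bit, Bool.and_or_distrib_left]

/-- number of common points of two interleaved blocks -/
def blk (one st a b : ℕ) : ℕ :=
  Nat.mod (Nat.land (Nat.land (Nat.shiftRight st a) (Nat.shiftRight st b)) one) 511

theorem blk_V (p : ℕ → Bool) {n a b : ℕ} (hn : n < 511) (ha : a < 9) (hb : b < 9) :
    blk (W (fun _ => true) n) (V p (9 * n)) a b = cnt (fun i => p (9 * i + a) && p (9 * i + b)) n := by
  have : (V p (9 * n) >>> a) &&& (V p (9 * n) >>> b) &&& W (fun _ => true) n =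
      W (fun i => p (9 * i + a) && p (9 * i + b)) n := Nat.eq_of_testBit_eq fun j => by
    rw [Nat.testBit_and, Nat.testBit_and, Nat.testBit_shiftRight, Nat.testBit_shiftRight,
      W_bit, W_bit, V_bit, V_bit]
    by_cases e : j % 9 = 0 ∧ j / 9 < n
    · rw [decide_eq_true e, decide_eq_true (by omega : a + j < 9 * n),
        decide_eq_true (by omega : b + j < 9 * n), show 9 * (j / 9) + a = a + j by omega,
        show 9 * (j / 9) + b = b + j by omega]
      simp
    · rw [decide_eq_false e]; simp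
  show ((V p (9 * n) >>> a) &&& (V p (9 * n) >>> b) &&& W (fun _ => true) n) % 511 = _
  rw [this, W_mod, Nat.mod_eq_of_lt ((cnt_le_n _ _).trans_lt hn)]

theorem nb {a b : ℕ} (h : a ≠ b) : Nat.beq a b = false :=
  Bool.eq_false_iff.2 fun e => h (Nat.eq_of_beq_eq_true e)

/-- evaluate the number first -/
def forceB (x : ℕ) (k : ℕ → Bool) : Bool := Nat.rec (k 0) (fun n _ => k (n + 1)) x

theorem forceB_eq (x : ℕ) (k : ℕ → Bool) : forceB x k = k x := by cases x <;> rfl

/-- at most one class of each pair -/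
def dfs (ms : List ℕ) (leaf : ℕ → Bool) : ℕ → ℕ → Bool
  | 0, st => leaf st
  | j + 1, st => dfs ms leaf j st && (forceB (st ||| ms.getD (2 * j) 0) (dfs ms leaf j) &&
      forceB (st ||| ms.getD (2 * j + 1) 0) (dfs ms leaf j))

theorem dfs_realised : True := by have := @dfs.eq_def; trivial

theorem dfs_spec {ms : List ℕ} {leaf : ℕ → Bool} {F : ℕ → ℕ} {N : ℕ} {γ : ℕ → Bool} :
    ∀ (j st : ℕ), (∀ c, c < 2 * j → ms.getD c 0 = V (fun i => Nat.beq (F i) c) N) →
      (∀ k, k < j → γ (2 * k) = false ∨ γ (2 * k + 1) = false) →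
      st = V (fun i => γ (F i) && decide (2 * j ≤ F i)) N → dfs ms leaf j st = true →
      leaf (V (fun i => γ (F i)) N) = true
  | 0, st, _, _, e, h => by
    rw [dfs, e] at h
    simpa using h
  | j + 1, st, hm, hγ, e, h => by
    rw [dfs, forceB_eq, forceB_eq, Bool.and_eq_true, Bool.and_eq_true] at h
    have hm' : ∀ c, c < 2 * j → ms.getD c 0 = V (fun i => Nat.beq (F i) c) N :=
      fun c hc => hm c (by omega)
    have hγ' : ∀ k, k < j → γ (2 * k) = false ∨ γ (2 * k + 1) = false := fun k hk => hγ k (by omega)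
    have key : ∀ x : ℕ, x = 2 * j ∨ x = 2 * j + 1 ∨ (decide (2 * j ≤ x) = decide (2 * (j + 1) ≤ x) ∧
        Nat.beq x (2 * j) = false ∧ Nat.beq x (2 * j + 1) = false) := fun x => by
      simp only [decide_eq_decide, ← Bool.not_eq_true, Nat.beq_eq]; omega
    cases h0 : γ (2 * j) <;> cases h1 : γ (2 * j + 1)
    · refine dfs_spec j _ hm' hγ' (e.trans (V_congr fun i _ => ?_)) h.1
      rcases key (F i) with k | k | k
      · rw [k, h0]; rfl
      · rw [k, h1]; rfl
      · rw [k.1]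
    · refine dfs_spec j _ hm' hγ' ?_ h.2.2
      rw [e, hm _ (by omega), V_or]
      refine V_congr fun i _ => ?_
      rcases key (F i) with k | k | k
      · rw [k, h0, nb (by omega)]; rfl
      · rw [k, h1]; simp
      · rw [k.1, k.2.2, Bool.or_false]
    · refine dfs_spec j _ hm' hγ' ?_ h.2.1
      rw [e, hm _ (by omega), V_or]
      refine V_congr fun i _ => ?_
      rcases key (F i) with k | k | k
      · rw [k, h0]; simp
      · rw [k, h1, nb (by omega)]; rfl
      · rw [k.1, k.2.1, Bool.or_false]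
    · rcases hγ j (by omega) with k | k <;> simp_all

variable {G : Type*} [Group G]

/-- Three reflections of a dihedral group of order `2 p`. -/
theorem refl_eq [Finite G] {A B : Subgroup G} (h2 : B.relIndex A = 2) (hBA : B ≤ A) {g y s a b : G}
    {p : ℕ} (hp : p.Prime) (hg : orderOf g = p) (ha : a ∈ zpowers g) (hb : b ∈ zpowers g)
    (h1 : s * (a * y) * s⁻¹ ∈ A ∧ s * (a * y) * s⁻¹ ∉ B)
    (h3 : s * (b * y) * s⁻¹ ∈ A ∧ s * (b * y) * s⁻¹ ∉ B)
    (h4 : ¬ (s * y * s⁻¹ ∈ A ∧ s * y * s⁻¹ ∉ B)) : a = b := by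
  by_contra hne
  have h5 := mul_mem_of_two h2 h1.1 (A.inv_mem h3.1) h1.2 fun e => h3.2 (by simpa using B.inv_mem e)
  rw [show s * (a * y) * s⁻¹ * (s * (b * y) * s⁻¹)⁻¹ = s * (a * b⁻¹) * s⁻¹ by group] at h5
  have hle : zpowers (a * b⁻¹) ≤ zpowers g := zpowers_le.2 (mul_mem ha (inv_mem hb))
  have hd : orderOf (a * b⁻¹) ∣ p := hg ▸ orderOf_dvd_of_mem_zpowers (mul_mem ha (inv_mem hb))
  have ho : orderOf (a * b⁻¹) = p := ((Nat.dvd_prime hp).1 hd).resolve_left fun e =>
    hne (mul_inv_eq_one.1 (orderOf_eq_one_iff.1 e))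
  have he := eq_of_le_of_card_ge hle (by rw [Nat.card_zpowers, Nat.card_zpowers, ho, hg])
  obtain ⟨k, hk⟩ := he.ge ha
  have h6 : s * a * s⁻¹ ∈ B := by
    rw [← hk]; simp only; rw [← conj_zpow]; exact B.zpow_mem h5 k
  have e : s * (a * y) * s⁻¹ = s * a * s⁻¹ * (s * y * s⁻¹) := by group
  rw [e] at h1
  exact h4 ⟨(A.mul_mem_cancel_left (hBA h6)).1 h1.1, fun e => h1.2 (B.mul_mem h6 e)⟩

/-- **The dihedral trick.** -/
theorem dihedral [Finite G] {A B H : Subgroup G} (h : IsPair A B) (h2 : B.relIndex A = 2) (hAH : A ≤ H)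
    {u v g y c d : G} (hg : orderOf g = 5) (hy : y * g * y⁻¹ = g⁻¹) (hu : u * g * u⁻¹ ∈ H)
    (hc : u * c * u⁻¹ ∈ H) (hd : v * d * v⁻¹ ∈ H) (hyy : y * y = 1) (rc : y * c * y * c = c * c * y)
    (rd : y * d * y * d = d * d * y)
    (hK : ∀ w, u * w * u⁻¹ ∈ H → v * w * v⁻¹ ∈ H → w ^ 5 = 1 ∨ ∃ a ∈ zpowers g, w = a * y) : False := by
  have yi : y⁻¹ = y := inv_eq_of_mul_eq_one_left hyy
  have key : ∀ s ∈ H, ∀ t ∈ H, ∃ a ∈ zpowers g,
      (s * u * (a * y) * (s * u)⁻¹ ∈ A ∧ s * u * (a * y) * (s * u)⁻¹ ∉ B) ∧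
      (t * v * (a * y) * (t * v)⁻¹ ∈ A ∧ t * v * (a * y) * (t * v)⁻¹ ∉ B) := by
    intro s hs t ht
    obtain ⟨w, h1, h3, h4, h5, k, hk⟩ := exists_pElem2 h Nat.prime_two (h2 ▸ dvd_rfl) (s * u) (t * v)
    have m : ∀ {s u : G}, s ∈ H → s * u * w * (s * u)⁻¹ ∈ A → u * w * u⁻¹ ∈ H := fun {s u} hs h1 => by
      have := H.mul_mem (H.mul_mem (H.inv_mem hs) (hAH h1)) hs
      rwa [show s⁻¹ * (s * u * w * (s * u)⁻¹) * s = u * w * u⁻¹ by group] at this
    rcases hK w (m hs h1) (m ht h3) with e | ⟨a, ha, rfl⟩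
    · rw [eq_one_of_pow hk e (by norm_num)] at h4
      exact absurd (by simp) h4
    · exact ⟨a, ha, ⟨h1, h4⟩, h3, h5⟩
  have side : ∀ {u c : G}, u * c * u⁻¹ ∈ H → y * c * y * c = c * c * y →
      ∃ s ∈ H, ¬ (s * u * y * (s * u)⁻¹ ∈ A ∧ s * u * y * (s * u)⁻¹ ∉ B) := by
    intro u c hc rc
    by_contra hn
    push Not at hn
    have k1 := hn 1 H.one_mem
    have k2 := hn _ hc
    refine (hn _ (H.mul_mem hc hc)).2 ?_
    have := mul_mem_of_two h2 k1.1 k2.1 k1.2 k2.2
    convert this using 1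
    calc _ = u * (c * c * y) * c⁻¹ * c⁻¹ * u⁻¹ := by group
      _ = _ := by rw [← rc]; group
  obtain ⟨s, hs, hs'⟩ := side hc rc
  obtain ⟨t, ht, ht'⟩ := side hd rd
  obtain ⟨a, ha, a1, a2⟩ := key s hs t ht
  obtain ⟨b, hb, b1, b2⟩ := key _ (H.mul_mem hs hu) t ht
  have e1 := refl_eq h2 h.le (by norm_num) hg ha hb a2 b2 ht'
  subst e1
  have c1 : g * a = a * g := by obtain ⟨k, rfl⟩ := ha; exact ((Commute.refl g).zpow_right k).eq
  have e2 : s * (u * g * u⁻¹) * u * (a * y) * (s * (u * g * u⁻¹) * u)⁻¹ =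
      s * u * (g * g * a * y) * (s * u)⁻¹ := by
    have : y * g⁻¹ = g * y := by rw [← hy, yi, ← mul_assoc, ← mul_assoc, hyy, one_mul]
    calc _ = s * u * (g * a * (y * g⁻¹)) * (s * u)⁻¹ := by group
      _ = _ := by rw [this, mul_assoc g g, c1, ← mul_assoc (a * g), mul_assoc a g g, ← mul_assoc g a g, c1, mul_assoc a g g]
  rw [e2] at b1
  have e3 := refl_eq h2 h.le (by norm_num) hg ha
    (mul_mem (mul_mem (mem_zpowers g) (mem_zpowers g)) ha) a1 b1 hs'
  have e4 : g ^ 2 = 1 := by rw [pow_two]; exact (mul_eq_right.1 e3.symm)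
  exact absurd (hg ▸ orderOf_dvd_of_pow_eq_one e4) (by norm_num)

/-- The automorphism group of a group of order `p` has order `p - 1`. -/
theorem pow_cent [Finite G] {a x : G} {p : ℕ} (hp : p.Prime) (ha : orderOf a = p)
    (hx : x ∈ normalizer ((zpowers a : Subgroup G) : Set G)) :
    x ^ (p - 1) ∈ centralizer ({a} : Set G) := by
  have h1 : Nat.card (MulAut (zpowers a)) = p - 1 := by
    rw [IsCyclic.card_mulAut, Nat.card_zpowers, ha, Nat.totient_prime hp]
  have h2 : (⟨x, hx⟩ : normalizer ((zpowers a : Subgroup G) : Set G)) ^ (p - 1) ∈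
      (zpowers a).normalizerMonoidHom.ker := by
    rw [MonoidHom.mem_ker, map_pow, ← h1, pow_card_eq_one']
  rw [normalizerMonoidHom_ker, cent_zpowers] at h2
  exact h2

/-- An element of order prime to `p - 1` which normalises a group of order `p` centralises it. -/
theorem cent_of_coprime [Finite G] {a x : G} {p m : ℕ} (hp : p.Prime) (ha : orderOf a = p)
    (hx : x ∈ normalizer ((zpowers a : Subgroup G) : Set G)) (hm : x ^ m = 1)
    (hc : (p - 1).Coprime m) : x ∈ centralizer ({a} : Set G) := by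
  have h1 := pow_cent hp ha hx
  obtain ⟨k, hk⟩ := exists_pow_eq_self_of_coprime (x := x) (n := p - 1)
    (hc.coprime_dvd_right (orderOf_dvd_of_pow_eq_one hm))
  exact hk ▸ pow_mem h1 k

theorem pow_index_cent [Finite G] {P : Set G} {x : G} {k : ℕ} (hx : x ∈ normalizer P)
    (hk : Nat.card (centralizer P) * k = Nat.card (normalizer P)) : x ^ k ∈ centralizer P := by
  have h1 := card_mul_relIndex (centralizer_le_normalizer P)
  have h2 : (centralizer P).relIndex (normalizer P) = k :=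
    Nat.eq_of_mul_eq_mul_left Nat.card_pos (h1.trans hk.symm)
  have := ((centralizer P).subgroupOf (normalizer P)).pow_index_mem ⟨x, hx⟩
  rw [← h2]; exact this

/-- An invariant Sylow subgroup. -/
theorem exists_inv_sylow [Finite G] {H S : Subgroup G} (hSH : S ≤ H)
    (hn : H ≤ normalizer (S : Set G)) {p q : ℕ} (hq : q.Prime) (hp : p.Prime)
    (h2 : q ∣ S.relIndex H) : ∃ P : Subgroup G, P ≤ S ∧ Nat.card P = p ^ (Nat.card S).factorization p ∧
      ∃ y, orderOf y = q ∧ y ∈ normalizer (P : Set G) := by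
  obtain ⟨P, hPS, hP, hk⟩ := exists_sylow_sub S hp
  have h1 := frattini_card hp hPS hSH hn hP hk
  obtain ⟨y, hy, ho, -, -⟩ := exists_sub hq (h1 ▸ h2.mul_left _)
  exact ⟨P, hPS, hP, y, ho, hy.2⟩

/-- Elements of order prime to `p` commuting with an element of order `p`. -/
theorem mul_ncard_le [Finite G] {X Y : Set G} {a : G} {p m : ℕ} (ha : orderOf a = p)
    (hm : p.Coprime m) (hX : ∀ x ∈ X, x * a ∈ X)
    (hY : ∀ x ∈ Y, x ∈ X ∧ x ^ m = 1 ∧ x ∈ centralizer ({a} : Set G)) : p * Y.ncard ≤ X.ncard := by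
  have hXk : ∀ k : ℕ, ∀ x ∈ X, x * a ^ k ∈ X := fun k => by
    induction k with
    | zero => simp
    | succ k ih => intro x hx; rw [pow_succ, ← mul_assoc]; exact hX _ (ih x hx)
  have hinj : Set.InjOn (fun q : ℕ × G => q.2 * a ^ q.1) ((Finset.range p : Set ℕ) ×ˢ Y) := by
    rintro ⟨i, x⟩ ⟨hi, hx⟩ ⟨j, y⟩ ⟨hj, hy⟩ e
    have e' : x * a ^ i = y * a ^ j := e
    have cx : Commute x a := mem_centralizer_singleton_iff.1 (hY x hx).2.2
    have cy : Commute y a := mem_centralizer_singleton_iff.1 (hY y hy).2.2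
    have e2 := congrArg (· ^ m) e'
    simp only [(cx.pow_right i).mul_pow, (cy.pow_right j).mul_pow, (hY x hx).2.1, (hY y hy).2.1,
      one_mul, ← pow_mul] at e2
    rw [pow_eq_pow_iff_modEq, ha] at e2
    have e3 : i = j := Nat.ModEq.eq_of_lt_of_lt (Nat.ModEq.cancel_right_of_coprime hm e2)
      (by simpa using hi) (by simpa using hj)
    subst e3
    rw [mul_right_cancel e']
  calc p * Y.ncard = ((Finset.range p : Set ℕ) ×ˢ Y).ncard := by
        rw [Set.ncard_prod, Set.ncard_coe_finset, Finset.card_range]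
    _ = _ := hinj.ncard_image.symm
    _ ≤ _ := Set.ncard_le_ncard (by
        rintro _ ⟨⟨i, x⟩, ⟨-, hx⟩, rfl⟩
        exact hXk i x (hY x hx).1)

/-- The centraliser of an involution, two products with centralisers of coprime orders. -/
theorem false_of_cent [Finite G] {A B : Subgroup G} (h : IsPair A B) {z s t : G}
    (hA : A ≤ centralizer ({z} : Set G))
    (hc : (Nat.card (centralizer ({z * (s * z * s⁻¹)} : Set G))).Coprime
      (Nat.card (centralizer ({z * (t * z * t⁻¹)} : Set G)))) : False := by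
  obtain ⟨r, hr, hd⟩ := h.exists_prime
  have key : ∀ s : G, r ∣ Nat.card (centralizer ({z * (s * z * s⁻¹)} : Set G)) := fun s => by
    obtain ⟨x, hx, hxs, ho⟩ := h.exists_order hr hd s
    refine ho ▸ orderOf_dvd_natCard _ (mem_centralizer_singleton_iff.2 ?_)
    have c1 : Commute x z := mem_centralizer_singleton_iff.1 (hA hx)
    have c2 : s⁻¹ * x * s * z = z * (s⁻¹ * x * s) := mem_centralizer_singleton_iff.1 (hA hxs)
    refine c1.mul_right ?_
    show x * (s * z * s⁻¹) = s * z * s⁻¹ * x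
    calc _ = s * (s⁻¹ * x * s * z) * s⁻¹ := by group
      _ = _ := by rw [c2]; group
  exact hr.one_lt.ne' (Nat.eq_one_of_dvd_coprimes hc (key s) (key t))

variable {M : NA G}

/-- the points of `φ` adjacent to all other points of `φ` -/
def zc (ad : ℕ → ℕ → Bool) (n : ℕ) (φ : ℕ → Bool) (i : ℕ) : Bool :=
  φ i && allB (fun j => !φ j || (Nat.beq j i || ad i j)) n

theorem zc_iff {ad : ℕ → ℕ → Bool} {n : ℕ} {φ : ℕ → Bool} {i : ℕ} : zc ad n φ i = true ↔
    φ i = true ∧ ∀ j, j < n → φ j = true → j = i ∨ ad i j = true := by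
  rw [zc, Bool.and_eq_true, allB_iff]
  refine and_congr_right fun _ => forall_congr' fun j => forall_congr' fun _ => ?_
  cases φ j <;> simp

theorem zc_act {ad : ℕ → ℕ → Bool}
    (had : ∀ g i j, i < M.n → j < M.n → ad (M.act g i) (M.act g j) = ad i j) {φ ψ : ℕ → Bool} {t : G}
    (h : ∀ i, i < M.n → ψ (M.act t i) = φ i) {i : ℕ} (hi : i < M.n) (hz : zc ad M.n φ i = true) :
    zc ad M.n ψ (M.act t i) = true := by
  rw [zc_iff] at hz ⊢
  refine ⟨(h i hi).trans hz.1, fun j hj e => ?_⟩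
  have h1 := M.lt t⁻¹ j hj
  have h2 := h _ h1
  rw [NA.act_inv' t hj] at h2
  rcases hz.2 _ h1 (h2 ▸ e) with k | k
  · left; rw [← k, NA.act_inv' t hj]
  · right; rwa [← had t _ _ hi h1, NA.act_inv' t hj] at k

theorem fix_conj {g t : G} {i : ℕ} (hi : i < M.n) :
    M.act (t * g * t⁻¹) (M.act t i) = M.act t i ↔ M.act g i = i := by
  rw [M.mul _ _ _ (M.lt _ _ hi), NA.act_inv t hi, M.mul _ _ _ hi]
  exact ⟨fun e => NA.inj t (M.lt _ _ hi) hi e, fun e => by rw [e]⟩

/-- the fixed points of a subgroup -/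
noncomputable def NA.fx (M : NA G) (N : Subgroup G) (i : ℕ) : Bool :=
  open Classical in decide (∀ n ∈ N, M.act n i = i)

theorem fx_iff {N : Subgroup G} {i : ℕ} : M.fx N i = true ↔ ∀ n ∈ N, M.act n i = i := by
  simp [NA.fx]

theorem fx_act {A N : Subgroup G} (h : A ≤ normalizer (N : Set G)) {a : G} (ha : a ∈ A) {i : ℕ}
    (hi : i < M.n) : M.fx N (M.act a i) = M.fx N i := by
  rw [Bool.eq_iff_iff, fx_iff, fx_iff]
  refine ⟨fun e n hn => (fix_conj hi).1 (e _ (conj_mem_of_le h ha hn)), fun e n hn => ?_⟩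
  have := (fix_conj (t := a) hi).2 (e _ (conj_mem_of_le' h ha hn))
  rwa [show a * (a⁻¹ * n * a) * a⁻¹ = n by group] at this

theorem presL_of {X : List ℕ} {φ : ℕ → Bool} (hX : ∀ f ∈ X, f < M.n)
    (h : ∀ i, i < M.n → (φ i = true ↔ i ∈ X)) {a : G} (ha : ∀ i, i < M.n → φ (M.act a i) = φ i) :
    M.PresL X a := fun f hf =>
  (h _ (M.lt _ _ (hX f hf))).1 ((ha f (hX f hf)).trans ((h f (hX f hf)).2 hf))

end Cfsg.Agent.SP.NegS.Eng
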