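import Cfsg.Agent.SP.NegS.M22F
import Cfsg.Agent.H715.Fpr.MathData

/-! # S5755: the Mathieu group `M22` has no pair -/

set_option autoImplicit false
set_option linter.style.haveILetI false

namespace Cfsg.Agent.SP.NegS.M22

open Subgroup Cfsg.Agent.SP Cfsg.Agent.SP.NegS Cfsg.Agent.SP.NegS.Eng
open Cfsg.Agent.SporadicA.GolayPerm Cfsg.Agent.H921.M22.Facts
open Cfsg.Agent.H715.Fpr.MathData (cn22_5 cn22_7 cn22_11 simple22)

theorem prime_cases {r : ℕ} (hr : r.Prime) (h : r ∣ 443520) :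
    r = 2 ∨ r = 3 ∨ r = 5 ∨ r = 7 ∨ r = 11 := by
  have h1 : r ∈ Nat.primeFactors 443520 := Nat.mem_primeFactors.2 ⟨hr, h, by norm_num⟩
  have h2 : Nat.primeFactors 443520 = {2, 3, 5, 7, 11} := by decide +kernel
  simpa [h2] using h1

theorem cent_q {q : ℕ} (hq : q = 5 ∨ q = 7 ∨ q = 11) (y : T) (hy : orderOf y = q) :
    Nat.card (centralizer ({y} : Set T)) = q := by
  have hz : Nat.card (zpowers y) = q := by rw [Nat.card_zpowers, hy]
  rw [← cent_zpowers]
  rcases hq with rfl | rfl | rfl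
  exacts [(cn22_5 hz).1, (cn22_7 hz).1, (cn22_11 hz).1]

theorem not_sq {q : ℕ} (hq : q = 5 ∨ q = 7 ∨ q = 11) (S : Subgroup T) : ¬ q ^ 2 ∣ Nat.card S := fun h => by
  have := h.trans (card_dvd S)
  rcases hq with rfl | rfl | rfl <;> norm_num at this

theorem not_sqT {q : ℕ} (hq : q = 5 ∨ q = 7 ∨ q = 11) : ¬ q ^ 2 ∣ Nat.card T := by
  rw [cardT]; rcases hq with rfl | rfl | rfl <;> norm_num

variable {A B : Subgroup T}

theorem lower (h : IsPair A B) {r : ℕ} (hr : r.Prime) (hd : r ∣ B.relIndex A) :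
    (r = 2 ∧ 34 ≤ (outElems A B r).ncard) ∨ 157 ≤ (outElems A B r).ncard := by
  have k : ∀ q, q.Prime → q = 5 ∨ q = 7 ∨ q = 11 → ∀ x : T, x ≠ 1 → ∀ k, x ^ q ^ k = 1 →
      Nat.card (centralizer ({x} : Set T)) ≤ q :=
    fun q hq h x hx k hk => (cent_q h x (ord_of_sq hq (not_sqT h) hk hx)).le
  rcases prime_cases hr ((hd.trans (relIndex_dvd h.le)).trans (card_dvd A)) with
    rfl | rfl | rfl | rfl | rfl
  · have := count_c h hr hd fun x hx k hk => cent2 hx hk
    rw [cardT] at this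
    left; refine ⟨rfl, ?_⟩; by_contra hn; nlinarith
  · have := count_c h hr hd fun x hx k hk => cent3 hx hk
    rw [cardT] at this
    right; by_contra hn; nlinarith
  · have := count_c h hr hd (k 5 hr (by simp))
    rw [cardT] at this
    right; by_contra hn; nlinarith
  · have := count_c h hr hd (k 7 hr (by simp))
    rw [cardT] at this
    right; by_contra hn; nlinarith
  · have := count_c h hr hd (k 11 hr (by simp))
    rw [cardT] at this
    right; by_contra hn; nlinarith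

theorem odd_ge (h : IsPair A B) {r : ℕ} (hr : r.Prime) (h2 : r ≠ 2) (hd : r ∣ B.relIndex A) :
    157 + Nat.card B ≤ Nat.card A := by
  have h1 := (lower h hr hd).resolve_left fun e => h2 e.1
  have h3 := ncard_add_le h.le (out_sub (A := A) (B := B) (r := r))
  omega

theorem card_ge (h : IsMaxPair A B) : 68 ≤ Nat.card A := by
  rcases two_or_odd h with h2 | ⟨r, hr, h2, hd⟩
  · have h1 := lower h.pair Nat.prime_two (h2 ▸ dvd_rfl)
    have h3 := ncard_le_of_two h.pair.le h2 (out_sub (r := 2))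
    omega
  · have := odd_ge h.pair hr h2 hd; omega

/-- The order of a normal `q'`-subgroup is a power of two. -/
theorem two_power {H S : Subgroup T} (hSH : S ≤ H) (hn : H ≤ normalizer (S : Set T)) {q : ℕ}
    (hq : q = 5 ∨ q = 7 ∨ q = 11) (hqH : q ∣ Nat.card H) (hqS : ¬ q ∣ Nat.card S)
    (h11 : ¬ 11 ∣ Nat.card S) : ∃ k ≤ 7, Nat.card S = 2 ^ k ∧ 2 ^ k ≡ 1 [MOD q] := by
  have hqp : q.Prime := by rcases hq with rfl | rfl | rfl <;> norm_num
  have h0 : Nat.card S ≠ 0 := Nat.card_pos.ne'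
  have key : ∀ {p : ℕ}, p.Prime → p ∣ Nat.card S → p = 2 := by
    intro p hp hd
    have hpq : p ≠ q := by rintro rfl; exact hqS hd
    have h1 := sylow_cong hSH hn hqp hp hpq hqH hqS (cent_q hq)
    have h2 : p ^ (Nat.card S).factorization p ∣ 443520 := (Nat.ordProj_dvd _ _).trans (card_dvd S)
    have h3 := hp.factorization_pos_of_dvd h0 hd
    generalize (Nat.card S).factorization p = k at h1 h2 h3
    rcases prime_cases hp (hd.trans (card_dvd S)) with rfl | rfl | rfl | rfl | rfl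
    · rfl
    all_goals
      exfalso
      have h4 : k ≤ 2 := by
        by_contra hlt
        exact absurd ((pow_dvd_pow _ (by omega : 3 ≤ k)).trans h2) (by norm_num)
    · rcases hq with rfl | rfl | rfl <;> interval_cases k <;> exact absurd h1 (by decide)
    · rcases hq with rfl | rfl | rfl <;> interval_cases k <;> exact absurd h1 (by decide)
    · rcases hq with rfl | rfl | rfl <;> interval_cases k <;> exact absurd h1 (by decide)
    · exact h11 hd
  have e := Nat.eq_prime_pow_of_unique_prime_dvd h0 key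
  generalize (Nat.card S).primeFactorsList.length = k at e
  refine ⟨k, ?_, e, ?_⟩
  · by_contra hlt
    exact absurd ((pow_dvd_pow 2 (by omega : 8 ≤ k)).trans (e ▸ card_dvd S)) (by norm_num)
  · have h1 := sylow_cong hSH hn hqp Nat.prime_two (by rcases hq with rfl | rfl | rfl <;> norm_num)
      hqH hqS (cent_q hq)
    rwa [e, Nat.prime_two.factorization_pow, Finsupp.single_eq_same] at h1

/-- Frattini for a prime dividing `|B|`. -/
theorem frat (h : IsPair A B) {q : ℕ} (hq : q = 5 ∨ q = 7 ∨ q = 11) {g : T} (hg : g ∈ B)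
    (ho : orderOf g = q) : ∃ m n, m * B.relIndex A = n ∧ q ∣ m ∧
      m = Nat.card (B ⊓ normalizer ((zpowers g : Subgroup T) : Set T) : Subgroup T) ∧
      n = Nat.card (A ⊓ normalizer ((zpowers g : Subgroup T) : Set T) : Subgroup T) ∧
      n ∣ Nat.card (normalizer ((zpowers g : Subgroup T) : Set T)) := by
  have hqp : q.Prime := by rcases hq with rfl | rfl | rfl <;> norm_num
  have hc : Nat.card (zpowers g) = q := by rw [Nat.card_zpowers, ho]
  exact ⟨_, _, frattini_card (k := 1) hqp (zpowers_le.2 hg) h.le (le_normalizer_B h)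
    (by rw [hc, pow_one]) (not_sq hq B), hc ▸ card_dvd_of_le (le_inf (zpowers_le.2 hg) le_normalizer),
    rfl, rfl, card_dvd_of_le inf_le_right⟩

theorem no11 (h : IsMaxPair A B) : ¬ 11 ∣ Nat.card A := by
  haveI := simple22
  intro hd
  have S11 : ∀ H S : Subgroup T, S ≤ H → H ≤ normalizer (S : Set T) → 11 ∣ Nat.card H →
      ¬ 11 ∣ Nat.card S → Nat.card S = 1 := by
    intro H S h1 h2 h3 h4
    obtain ⟨k, hk, e, h5⟩ := two_power h1 h2 (q := 11) (by simp) h3 h4 h4
    interval_cases k <;> first | exact e | exact absurd h5 (by decide)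
  by_cases hB : 11 ∣ Nat.card B
  · obtain ⟨g, hg, ho, -, hc⟩ := exists_sub (by norm_num) hB
    obtain ⟨m, n, h1, h2, h3, -, h5⟩ := frat h.pair (by simp) hg ho
    rw [(cn22_11 hc).2] at h5
    have hne := h.pair.relIndex_ne_one
    obtain ⟨m', rfl⟩ := h2
    have h6 : m' * B.relIndex A ∣ 5 := Nat.dvd_of_mul_dvd_mul_left (by norm_num : 0 < 11)
      (by rw [← mul_assoc, h1]; exact h5)
    have h7 : B.relIndex A = 5 :=
      ((Nat.dvd_prime (by norm_num)).1 (Dvd.dvd.trans (Dvd.intro_left _ rfl) h6)).resolve_left hne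
    rw [h7] at h6
    have h8 : m' = 1 := Nat.dvd_one.1 (Nat.dvd_of_mul_dvd_mul_right (by norm_num : 0 < 5) h6)
    obtain ⟨K, hKB, hK, hBK, hK11⟩ := exists_compl (T := T) (by norm_num) hg ho (not_sq (by simp) B)
      (by rw [← h3, h8])
    have h9 := S11 B K hKB hBK hB hK11
    have h10 := card_mul_relIndex h.pair.le
    have := card_ge h
    rw [h7] at h10
    omega
  · exact B_ne_bot h.pair (card_eq_one.1 (S11 A B h.pair.le (le_normalizer_B h.pair) hd hB))

theorem rx5 : MA.Rep x5 (mk x5) := R (by decide +kernel)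
theorem ru5 : MA.Rep u5 (mk u5) := R (by decide +kernel)
theorem rx7 : MA.Rep x7 (mk x7) := R (by decide +kernel)

theorem ord_x5 : orderOf (mk x5) = 5 := by
  have h := c_x5
  simp only [Bool.and_eq_true] at h
  haveI : Fact (Nat.Prime 5) := ⟨by norm_num⟩
  exact orderOf_eq_prime (eq_one_of_isId (rx5.pow 5) h.1) (ne_one_of rx5.ag h.2.1)

theorem ord_x7 : orderOf (mk x7) = 7 := by
  have h := c_x7
  simp only [Bool.and_eq_true] at h
  haveI : Fact (Nat.Prime 7) := ⟨by norm_num⟩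
  exact orderOf_eq_prime (eq_one_of_isId (rx7.pow 7) h.1) (ne_one_of rx7.ag h.2)

theorem fix5 {y : T} (hy : orderOf y = 5) : MA.nfix y ≤ 4 := by
  obtain ⟨g, hg⟩ := conj_mem_zpowers (by norm_num) (not_sqT (by simp)) ord_x5 hy
  refine (nfix_le hg).trans ?_
  rw [nfix_rep rx5]; exact c_fix.2.1.le

theorem fix7 {y : T} (hy : orderOf y = 7) : MA.nfix y ≤ 3 := by
  obtain ⟨g, hg⟩ := conj_mem_zpowers (by norm_num) (not_sqT (by simp)) ord_x7 hy
  refine (nfix_le hg).trans ?_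
  rw [nfix_rep rx7]; exact c_fix.2.2.le

theorem le_nfix (y : T) (l : List ℕ) (hl : l.Nodup) (h : ∀ i ∈ l, i < 24 ∧ MA.act y i = i) :
    l.length ≤ MA.nfix y := by
  rw [← List.toFinset_card_of_nodup hl]
  exact le_cnt _ fun i hi => ⟨(h i (List.mem_toFinset.1 hi)).1, by
    rw [(h i (List.mem_toFinset.1 hi)).2]; exact Nat.beq_refl _⟩

theorem orbit_0 {a : ℕ} (ha : a < 24) (h0 : a ≠ 0) (h23 : a ≠ 23) {p : ℕ → Bool}
    (hp : ∀ i, p i = true ↔ ∃ g ∈ A, MA.act g a = i) : p 0 = false ∧ p 23 = false ∧ p a = true := by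
  refine ⟨Bool.eq_false_iff.2 fun e => ?_, Bool.eq_false_iff.2 fun e => ?_,
    (hp a).2 ⟨1, A.one_mem, MA.one a ha⟩⟩
  · obtain ⟨g, -, e⟩ := (hp 0).1 e
    exact h0 (NA.inj (M := MA) g ha (by norm_num) (e.trans (act0 g).symm))
  · obtain ⟨g, -, e⟩ := (hp 23).1 e
    exact h23 (NA.inj (M := MA) g ha (by norm_num) (e.trans (act23 g).symm))

/-- An invariant region and its translate. -/
theorem regions {p : ℕ → Bool} (hp : ∀ g ∈ A, ∀ i, i < 24 → p (MA.act g i) = p i) {s y : T}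
    (hy : y ∈ A) (hys : s⁻¹⁻¹ * y * s⁻¹ ∈ A) {r : ℕ} (hr : r.Prime) (ho : orderOf y = r)
    (f : Bool → Bool → Bool) (h : cnt (fun i => f (p i) (p (MA.act s i))) 24 % r ≠ 0) :
    ∃ i, i < 24 ∧ f (p i) (p (MA.act s i)) = true ∧ MA.act y i = i := by
  refine exists_fix (M := MA) (k := 1) hr (by rw [pow_one, ← ho, pow_orderOf_eq_one])
    (p := fun i => f (p i) (p (MA.act s i))) (fun i hi hf => ?_) h
  have e : MA.act s (MA.act y i) = MA.act (s⁻¹⁻¹ * y * s⁻¹) (MA.act s i) := by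
    rw [← MA.mul _ _ _ hi, ← MA.mul _ _ _ hi]; congr 1; group
  rwa [hp y hy i hi, e, hp _ hys _ (MA.lt _ _ hi)]

theorem region_congr {p : ℕ → Bool} {k : ℕ → ℕ} {β s : ℕ} {σ : T} (hs : MA.Rep s σ)
    (hβ : ∀ i, i < 24 → p i = β.testBit (k i)) (f : Bool → Bool → Bool) :
    cnt (fun i => f (β.testBit (k i)) (β.testBit (k (papp s i)))) 24 =
      cnt (fun i => f (p i) (p (MA.act σ i))) 24 :=
  cnt_congr fun i hi => by
    have e : papp s i = MA.act σ i := hs i hi
    rw [hβ i hi, hβ _ (MA.lt _ _ hi), e]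

theorem seven_index (h : IsPair A B) (h11 : ¬ 11 ∣ Nat.card A) (hx : mk x7 ∈ A) :
    ¬ 7 ∣ B.relIndex A := by
  intro hd
  obtain ⟨p, hp, hc⟩ := exists_orbit (M := MA) A (a := 10) (by norm_num)
  have hinv : ∀ g ∈ A, ∀ i, i < 24 → p (MA.act g i) = p i := fun g hg =>
    orbit_inv (M := MA) (by norm_num) hp hg
  obtain ⟨β, hβ, hb⟩ := exists_code (M := MA) c_cyc7 rx7 (hinv _ hx)
  obtain ⟨p0, p23, p10⟩ := orbit_0 (by norm_num) (by norm_num) (by norm_num) hp
  have h1 := allB_iff.1 c_s7 β hβ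
  have hsz : sz k7 β = cnt p 24 := cnt_congr fun i hi => (hb i hi).symm
  have b0 := hb 0 (by norm_num)
  have b23 := hb 23 (by norm_num)
  have b10 := hb 10 (by norm_num)
  rw [c_k7.1, p0] at b0
  rw [c_k7.2.1, p23] at b23
  rw [c_k7.2.2, p10] at b10
  simp only [← b0, ← b23, ← b10, Bool.false_or, Bool.not_true, Bool.or_eq_true, Nat.beq_eq,
    List.any_eq_true, Bool.and_eq_true, Bool.not_eq_true', hsz] at h1
  rcases h1 with h1 | ⟨s, hs, h2, h3⟩
  · exact h11 ((Nat.dvd_of_mod_eq_zero h1).trans (Dvd.intro _ hc))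
  obtain ⟨σ, rσ⟩ := RL (L := s7) (by decide +kernel) s hs
  obtain ⟨y, hy, hys, ho⟩ := h.exists_order (by norm_num) hd σ⁻¹
  rw [region_congr rσ hb fun a b => a && !b] at h2
  rw [region_congr rσ hb fun a b => !a && b] at h3
  obtain ⟨i, hi, hi1, hi2⟩ := regions hinv hy hys (by norm_num) ho (fun a b => a && !b)
    (Nat.ne_of_beq_eq_false h2)
  obtain ⟨j, hj, hj1, hj2⟩ := regions hinv hy hys (by norm_num) ho (fun a b => !a && b)
    (Nat.ne_of_beq_eq_false h3)
  simp only [Bool.and_eq_true, Bool.not_eq_true'] at hi1 hj1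
  have := le_nfix y [0, 23, i, j] (by
    have e1 : i ≠ 0 := by rintro rfl; simp [p0] at hi1
    have e2 : i ≠ 23 := by rintro rfl; simp [p23] at hi1
    have e3 : j ≠ 0 := by rintro rfl; exact absurd ((congrArg p (act0 σ)).symm.trans hj1.2) (by simp [p0])
    have e4 : j ≠ 23 := by rintro rfl; exact absurd ((congrArg p (act23 σ)).symm.trans hj1.2) (by simp [p23])
    have e5 : i ≠ j := by rintro rfl; rw [hi1.1] at hj1; simp at hj1
    simp [e1.symm, e2.symm, e3.symm, e4.symm, e5]) (by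
    simp only [List.mem_cons, List.not_mem_nil, or_false]
    rintro _ (rfl | rfl | rfl | rfl)
    exacts [⟨by norm_num, act0 y⟩, ⟨by norm_num, act23 y⟩, ⟨hi, hi2⟩, ⟨hj, hj2⟩])
  have := fix7 ho
  simp at *; omega

/-- A `2`-group normalised by an element of order seven. -/
theorem card_le_24 {K : Subgroup T} {k : ℕ} (hK : Nat.card K = 2 ^ k) {x : T} (hx : orderOf x = 7)
    (hn : x ∈ normalizer (K : Set T)) : Nat.card K ≤ 24 := by
  classical
  have hx7 : x ^ 7 ^ 1 = 1 := by rw [pow_one, ← hx, pow_orderOf_eq_one]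
  have out : ∀ (g : T) (i : ℕ), i < 24 → i ≠ 0 → i ≠ 23 → MA.act g i ≠ 0 ∧ MA.act g i ≠ 23 :=
    fun g i hi h0 h23 => ⟨fun e => h0 (NA.inj (M := MA) g hi (by norm_num) (e.trans (act0 g).symm)),
      fun e => h23 (NA.inj (M := MA) g hi (by norm_num) (e.trans (act23 g).symm))⟩
  obtain ⟨f, hf, hf1, hf2⟩ := exists_fix (M := MA) (by norm_num) hx7
    (p := fun i => decide (i ≠ 0 ∧ i ≠ 23)) (fun i hi h => by
      rw [decide_eq_true_eq] at h ⊢; exact out x i hi h.1 h.2) (by decide)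
  rw [decide_eq_true_eq] at hf1
  obtain ⟨p, -, hc⟩ := exists_orbit (M := MA) K hf
  suffices hD : K ⊓ MA.stab f hf = ⊥ by
    rw [hD, card_bot, mul_one] at hc
    rw [← hc]; exact cnt_le_n _ _
  by_contra hD
  set D := K ⊓ MA.stab f hf with hDdef
  have hDp : IsPGroup 2 D := (IsPGroup.of_card hK).to_le inf_le_left
  let q : ℕ → Bool := fun i => decide ((i ≠ 0 ∧ i ≠ 23 ∧ i ≠ f) ∧ ∀ d ∈ D, MA.act d i = i)
  have h1 := cnt_modEq (M := MA) Nat.prime_two hDp (p := fun i => decide (i ≠ 0 ∧ i ≠ 23 ∧ i ≠ f))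
    (q := q) (fun d hd i hi h => by
      rw [decide_eq_true_eq] at h ⊢
      exact ⟨(out d i hi h.1 h.2.1).1, (out d i hi h.1 h.2.1).2,
        fun e => h.2.2 (NA.inj (M := MA) d hi hf (e.trans hd.2.symm))⟩) (fun i hi => by simp [q])
  have h2 : ∀ f, f < 24 → f ≠ 0 → f ≠ 23 →
      cnt (fun i => decide (i ≠ 0 ∧ i ≠ 23 ∧ i ≠ f)) 24 = 21 := by decide
  have h3 := cnt_modEq_elt (M := MA) (by norm_num) hx7 (p := q) fun i hi h => by
    simp only [q, decide_eq_true_eq] at h ⊢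
    refine ⟨⟨(out x i hi h.1.1 h.1.2.1).1, (out x i hi h.1.1 h.1.2.1).2,
      fun e => h.1.2.2 (NA.inj (M := MA) x hi hf (e.trans hf2.symm))⟩, fun d hd => ?_⟩
    have hd' : x⁻¹ * d * x ∈ D := ⟨(mem_normalizer_iff''.1 hn d).1 hd.1,
      (MA.stab f hf).mul_mem ((MA.stab f hf).mul_mem ((MA.stab f hf).inv_mem hf2) hd.2) hf2⟩
    have := congrArg (MA.act x) (h.2 _ hd')
    rwa [← MA.mul _ _ _ hi, show x * (x⁻¹ * d * x) = d * x by group, MA.mul _ _ _ hi] at this
  have h4 : cnt (fun i => q i && Nat.beq (MA.act x i) i) MA.n = 0 := by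
    by_contra hne
    obtain ⟨i, hi, h⟩ := exists_of_cnt hne
    simp only [q, Bool.and_eq_true, decide_eq_true_eq, Nat.beq_eq] at h
    have := le_nfix x [0, 23, f, i] (by
      simp [hf1.1.symm, hf1.2.symm, h.1.1.1.symm, h.1.1.2.1.symm, h.1.1.2.2.symm]) (by
      simp only [List.mem_cons, List.not_mem_nil, or_false]
      rintro _ (rfl | rfl | rfl | rfl)
      exacts [⟨by norm_num, act0 x⟩, ⟨by norm_num, act23 x⟩, ⟨hf, hf2⟩, ⟨hi, h.2⟩])
    have := fix7 hx
    simp at *; omega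
  rw [show MA.n = 24 from rfl, h2 f hf hf1.1 hf1.2] at h1
  rw [h4, show MA.n = 24 from rfl] at h3
  have h5 : 7 ≤ cnt q 24 := by unfold Nat.ModEq at h1 h3; omega
  obtain ⟨d, hd, hd1⟩ := exists_ne_one hD
  obtain ⟨m, hm⟩ := hDp ⟨d, hd⟩
  obtain ⟨j, hj⟩ := exists_pow_order Nat.prime_two (x := d) (k := m) (congrArg Subtype.val hm) hd1
  have hw : d ^ j ∈ D := pow_mem hd j
  have h6 := fix2 (u := d ^ j) (by rw [← pow_two, ← hj, pow_orderOf_eq_one])
    (fun e => by rw [e, orderOf_one] at hj; omega)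
  generalize d ^ j = w at *
  have h7 := cnt_split (fun i => Nat.beq (MA.act w i) i) q 24
  have h8 : cnt (fun i => Nat.beq (MA.act w i) i && q i) 24 = cnt q 24 := cnt_congr fun i hi => by
    cases hq : q i
    · simp
    · simp only [q, decide_eq_true_eq] at hq
      have e : MA.act w i = i := hq.2 w hw
      rw [e]; simp
  have h9 := le_cnt (p := fun i => Nat.beq (MA.act w i) i && !q i) (n := 24) {0, 23} (by
    intro i hi
    simp only [Finset.mem_insert, Finset.mem_singleton] at hi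
    rcases hi with rfl | rfl
    · rw [act0]; simp [q]
    · rw [act23]; simp [q])
  have h10 : MA.nfix w = cnt (fun i => Nat.beq (MA.act w i) i) 24 := rfl
  rw [Finset.card_pair (by norm_num)] at h9
  omega

theorem no7 (h : IsMaxPair A B) : ¬ 7 ∣ Nat.card A := by
  intro hd
  obtain ⟨g, hg⟩ := exists_conj_mem (T := T) (by norm_num) (not_sqT (by simp)) ord_x7 hd
  have h' := h.conj g
  generalize A.map (MulAut.conj g).toMonoidHom = A at hg h'
  generalize B.map (MulAut.conj g).toMonoidHom = B at h'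
  have h11 := no11 h'
  have h7 := seven_index h'.pair h11 hg
  have hB : mk x7 ∈ B := mem_of_coprime h'.pair hg (by
    rw [ord_x7]; exact ((Nat.Prime.coprime_iff_not_dvd (by norm_num)).2 h7).symm)
  obtain ⟨m, n, h1, h2, h3, -, h5⟩ := frat h'.pair (by simp) hB ord_x7
  rw [(cn22_7 (by rw [Nat.card_zpowers, ord_x7])).2] at h5
  have hne := h'.pair.relIndex_ne_one
  obtain ⟨m', rfl⟩ := h2
  have h6 : m' * B.relIndex A ∣ 3 := Nat.dvd_of_mul_dvd_mul_left (by norm_num : 0 < 7)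
    (by rw [← mul_assoc, h1]; exact h5)
  have h7 : B.relIndex A = 3 :=
    ((Nat.dvd_prime (by norm_num)).1 (Dvd.dvd.trans (Dvd.intro_left _ rfl) h6)).resolve_left hne
  rw [h7] at h6
  have h8 : m' = 1 := Nat.dvd_one.1 (Nat.dvd_of_mul_dvd_mul_right (by norm_num : 0 < 3) h6)
  obtain ⟨K, hKB, hK, hBK, hK7⟩ := exists_compl (T := T) (by norm_num) hB ord_x7 (not_sq (by simp) B)
    (by rw [← h3, h8])
  obtain ⟨k, hk, e, h9⟩ := two_power hKB hBK (q := 7) (by simp) (hK ▸ Dvd.intro_left _ rfl) hK7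
    fun hd => h11 (hd.trans (card_dvd_of_le (hKB.trans h'.pair.le)))
  have h10 := card_le_24 e ord_x7 (hBK hB)
  have h12 := odd_ge h'.pair Nat.prime_three (by norm_num) (h7 ▸ dvd_rfl)
  have h13 := card_mul_relIndex h'.pair.le
  rw [h7] at h13
  rw [e] at h10 hK
  interval_cases k <;> first | exact absurd h9 (by decide) | omega

theorem five_region (h : IsPair A B) (hd : 5 ∣ B.relIndex A) (hx : mk x5 ∈ A) {p : ℕ → Bool}
    (hinv : ∀ g ∈ A, ∀ i, i < 24 → p (MA.act g i) = p i) (p0 : p 0 = false) (p23 : p 23 = false)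
    (pa : (p 6 || p 18) = true) (c1 : cnt p 24 ≠ 1) (c7 : ¬ 7 ∣ cnt p 24) (c11 : ¬ 11 ∣ cnt p 24) :
    False := by
  obtain ⟨β, hβ, hb⟩ := exists_code (M := MA) c_cyc5 rx5 (hinv _ hx)
  have h1 := allB_iff.1 c_s5 β hβ
  have hsz : sz k5 β = cnt p 24 := cnt_congr fun i hi => (hb i hi).symm
  have b0 := hb 0 (by norm_num)
  have b23 := hb 23 (by norm_num)
  rw [hb 6 (by norm_num), hb 18 (by norm_num), c_k5.2.2.1, c_k5.2.2.2] at pa
  rw [c_k5.1, p0] at b0
  rw [c_k5.2.1, p23] at b23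
  simp only [← b0, ← b23, pa, Bool.false_or, Bool.not_true, Bool.or_eq_true, Nat.beq_eq,
    List.any_eq_true, Bool.and_eq_true, Bool.not_eq_true', hsz] at h1
  rcases h1 with h1 | h1 | h1 | ⟨s, hs, h2, h3, h4⟩
  · exact c1 h1
  · exact c7 (Nat.dvd_of_mod_eq_zero h1)
  · exact c11 (Nat.dvd_of_mod_eq_zero h1)
  obtain ⟨σ, rσ⟩ := RL (L := s5) (by decide +kernel) s hs
  obtain ⟨y, hy, hys, ho⟩ := h.exists_order (by norm_num) hd σ⁻¹
  rw [region_congr rσ hb fun a b => a && b] at h2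
  rw [region_congr rσ hb fun a b => a && !b] at h3
  rw [region_congr rσ hb fun a b => !a && b] at h4
  obtain ⟨l, hl, hl1, hl2⟩ := regions hinv hy hys (by norm_num) ho (fun a b => a && b)
    (Nat.ne_of_beq_eq_false h2)
  obtain ⟨i, hi, hi1, hi2⟩ := regions hinv hy hys (by norm_num) ho (fun a b => a && !b)
    (Nat.ne_of_beq_eq_false h3)
  obtain ⟨j, hj, hj1, hj2⟩ := regions hinv hy hys (by norm_num) ho (fun a b => !a && b)
    (Nat.ne_of_beq_eq_false h4)
  simp only [Bool.and_eq_true, Bool.not_eq_true'] at hi1 hj1 hl1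
  have := le_nfix y [0, 23, i, j, l] (by
    have e1 : i ≠ 0 := by rintro rfl; simp [p0] at hi1
    have e2 : i ≠ 23 := by rintro rfl; simp [p23] at hi1
    have e3 : j ≠ 0 := by rintro rfl; exact absurd ((congrArg p (act0 σ)).symm.trans hj1.2) (by simp [p0])
    have e4 : j ≠ 23 := by rintro rfl; exact absurd ((congrArg p (act23 σ)).symm.trans hj1.2) (by simp [p23])
    have e5 : i ≠ j := by rintro rfl; rw [hi1.1] at hj1; simp at hj1
    have e6 : l ≠ 0 := by rintro rfl; simp [p0] at hl1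
    have e7 : l ≠ 23 := by rintro rfl; simp [p23] at hl1
    have e8 : i ≠ l := by rintro rfl; rw [hi1.2] at hl1; simp at hl1
    have e9 : j ≠ l := by rintro rfl; rw [hj1.1] at hl1; simp at hl1
    simp [e1.symm, e2.symm, e3.symm, e4.symm, e5, e6.symm, e7.symm, e8, e9]) (by
    simp only [List.mem_cons, List.not_mem_nil, or_false]
    rintro _ (rfl | rfl | rfl | rfl | rfl)
    exacts [⟨by norm_num, act0 y⟩, ⟨by norm_num, act23 y⟩, ⟨hi, hi2⟩, ⟨hj, hj2⟩, ⟨hl, hl2⟩])
  have := fix5 ho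
  simp at *; omega

theorem fixes_of_cnt {a : ℕ} (ha : a < 24) {p : ℕ → Bool}
    (hp : ∀ i, p i = true ↔ ∃ g ∈ A, MA.act g a = i) (h1 : cnt p 24 = 1) :
    ∀ g ∈ A, MA.act g a = a := by
  intro g hg
  by_contra hne
  have := le_cnt (p := p) (n := 24) {MA.act g a, a} (by
    intro i hi
    simp only [Finset.mem_insert, Finset.mem_singleton] at hi
    rcases hi with rfl | rfl
    · exact ⟨MA.lt _ _ ha, (hp _).2 ⟨g, hg, rfl⟩⟩
    · exact ⟨ha, (hp _).2 ⟨1, A.one_mem, MA.one _ ha⟩⟩)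
  rw [Finset.card_pair hne] at this
  omega

theorem five_index (h : IsMaxPair A B) (hx : mk x5 ∈ A) : ¬ 5 ∣ B.relIndex A := by
  intro hd
  have key : ∀ a, a = 6 ∨ a = 18 → ∀ g ∈ A, MA.act g a = a := by
    intro a ha
    have ha' : a < 24 := by omega
    obtain ⟨p, hp, hc⟩ := exists_orbit (M := MA) A ha'
    obtain ⟨p0, p23, pa⟩ := orbit_0 ha' (by omega) (by omega) hp
    refine fixes_of_cnt ha' hp ?_
    by_contra hne
    exact five_region h.pair hd hx (fun g hg => orbit_inv (M := MA) ha' hp hg) p0 p23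
      (by rcases ha with rfl | rfl <;> simp [pa]) hne
      (fun e => no7 h (e.trans (Dvd.intro _ hc))) fun e => no11 h (e.trans (Dvd.intro _ hc))
  refine five_region h.pair hd hx (p := fun i => decide (i = 6 ∨ i = 18)) (fun g hg i hi => ?_)
    (by decide) (by decide) (by decide) (by decide) (by decide) (by decide)
  have k : ∀ a, a = 6 ∨ a = 18 → (MA.act g i = a ↔ i = a) := fun a ha =>
    ⟨fun e => NA.inj (M := MA) g hi (by omega : a < 24) (e.trans (key a ha g hg).symm),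
      fun e => e ▸ key i (e ▸ ha) g hg⟩
  rw [decide_eq_decide, k 6 (by simp), k 18 (by simp)]

/-- `N_A(P) = 5:4`, `N_B(P) = 5:2`. -/
theorem five_swap (h : IsMaxPair A B) (h2 : B.relIndex A = 2) (hx : mk x5 ∈ B)
    (hN : normalizer ((zpowers (mk x5) : Subgroup T) : Set T) ≤ A)
    (h10 : Nat.card (B ⊓ normalizer ((zpowers (mk x5) : Subgroup T) : Set T) : Subgroup T) = 10) :
    False := by
  have hc := c_x5
  simp only [Bool.and_eq_true] at hc
  have hcz : Nat.card (zpowers (mk x5)) = 5 := by rw [Nat.card_zpowers, ord_x5]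
  set x := mk x5 with hxdef
  set u := mk u5 with hudef
  have hux : u * x * u⁻¹ = x ^ 2 := mul_inv_eq_iff_eq_mul.2
    (eq_of_weq (ru5.ag2 rx5) ((rx5.pow 2).cons ru5) hc.2.2.1)
  have huN : u ∈ normalizer ((zpowers x : Subgroup T) : Set T) := mem_normalizer_fintype (by
    rintro _ ⟨n, rfl⟩
    simp only
    rw [← conj_zpow, hux]
    exact zpow_mem (pow_mem (mem_zpowers x) 2) n)
  have hu4 : orderOf u = 2 ^ (1 + 1) := orderOf_eq_prime_pow (ne_one_of (ru5.pow 2) hc.2.2.2.2)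
    (eq_one_of_isId (ru5.pow 4) hc.2.2.2.1)
  have huA := hN huN
  have huB : u ∉ B := fun hb => by
    have := orderOf_dvd_natCard (B ⊓ normalizer ((zpowers x : Subgroup T) : Set T)) ⟨hb, huN⟩
    rw [hu4, h10] at this
    norm_num at this
  have ua : MA.act u 6 = 18 := (ru5 6 (by norm_num)).symm.trans c_u5.1
  have ub : MA.act u 18 = 6 := (ru5 18 (by norm_num)).symm.trans c_u5.2.1
  have xa : MA.act x 6 = 6 := (rx5 6 (by norm_num)).symm.trans c_u5.2.2.1
  have xb : MA.act x 18 = 18 := (rx5 18 (by norm_num)).symm.trans c_u5.2.2.2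
  have l6 : 6 < MA.n := by norm_num
  have l18 : 18 < MA.n := by norm_num
  -- the two fixed points lie in different orbits of `B`
  have hdis : ∀ β ∈ B, MA.act β 6 ≠ 18 := by
    intro β hβ e
    have hle : (zpowers x).map (MulAut.conj β⁻¹).toMonoidHom ≤ B ⊓ MA.stab 6 l6 := by
      rintro _ ⟨y, hy, rfl⟩
      refine ⟨B.mul_mem (B.mul_mem (B.inv_mem hβ) (zpowers_le.2 hx hy)) (B.inv_mem (B.inv_mem hβ)), ?_⟩
      show MA.act (β⁻¹ * y * β⁻¹⁻¹) 6 = 6
      have e2 : MA.act y 18 = 18 := (zpowers_le (H := MA.stab 18 l18)).2 xb hy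
      rw [inv_inv, MA.mul _ _ _ l6, e, MA.mul _ _ _ l18, e2, ← e, NA.act_inv β l6]
    obtain ⟨s, hs, hs'⟩ := sylow_conj (S := B ⊓ MA.stab 6 l6) (P := zpowers x) (k := 1)
      (by norm_num : Nat.Prime 5) (zpowers_le.2 ⟨hx, xa⟩) hle (by rw [hcz, pow_one])
      (by rw [card_map_conj, hcz, pow_one]) (not_sq (by simp) _)
    have hn : s * β⁻¹ ∈ normalizer ((zpowers x : Subgroup T) : Set T) := mem_normalizer_fintype (by
      intro y hy
      have := (hs' _).1 (⟨y, hy, rfl⟩ : β⁻¹ * y * β⁻¹⁻¹ ∈ (zpowers x).map (MulAut.conj β⁻¹).toMonoidHom)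
      simpa [mul_assoc] using this)
    have hN0 : normalizer ((zpowers x : Subgroup T) : Set T) ⊓ MA.stab 6 l6 ≤ B := by
      set N0 := normalizer ((zpowers x : Subgroup T) : Set T) ⊓ MA.stab 6 l6 with hN0
      have d1 : Nat.card N0 ∣ 20 := (cn22_5 hcz).2 ▸ card_dvd_of_le inf_le_left
      have d2 : Nat.card N0 ≠ 20 := fun e20 => by
        have := eq_of_le_of_card_ge (inf_le_left : N0 ≤ _) (by rw [e20, (cn22_5 hcz).2])
        have h3 : MA.act u 6 = 6 := (this.ge huN).2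
        omega
      have d3 : 5 ∣ Nat.card (N0 ⊓ B : Subgroup T) :=
        ord_x5 ▸ orderOf_dvd_natCard _ ⟨⟨le_normalizer (mem_zpowers x), xa⟩, hx⟩
      have d4 : 2 ∣ Nat.card (N0 ⊓ B : Subgroup T) := by
        have : orderOf (u * u) = 2 := by
          rw [← pow_two, orderOf_pow' _ two_ne_zero, hu4]; norm_num
        exact this ▸ orderOf_dvd_natCard _ ⟨⟨mul_mem huN huN, by
          show MA.act (u * u) 6 = 6
          rw [MA.mul _ _ _ l6, ua, ub]⟩, sq_mem_of_two h2 huA⟩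
      have d5 := Nat.card_pos (α := (N0 ⊓ B : Subgroup T))
      have d6 := Nat.le_of_dvd (by norm_num) d1
      have d7 : Nat.card N0 ≤ 10 := by
        generalize Nat.card N0 = m at *
        interval_cases m <;> omega
      exact inf_eq_left.1 (eq_of_le_of_card_ge inf_le_left (by omega))
    have : s * β⁻¹ * u ∈ B := hN0 ⟨mul_mem hn huN, by
      show MA.act (s * β⁻¹ * u) 6 = 6
      rw [MA.mul _ _ _ l6, ua, MA.mul _ _ _ l18, ← e, NA.act_inv β l6]; exact hs.2⟩
    exact huB ((B.mul_mem_cancel_left (B.mul_mem hs.1 (B.inv_mem hβ))).1 this)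
  obtain ⟨p, hp, hcp⟩ := exists_orbit (M := MA) B l6
  obtain ⟨q, hq, -⟩ := exists_orbit (M := MA) B l18
  obtain ⟨p0, p23, pa⟩ := orbit_0 l6 (by norm_num) (by norm_num) hp
  obtain ⟨q0, q23, qb⟩ := orbit_0 l18 (by norm_num) (by norm_num) hq
  obtain ⟨β, hβ, hb⟩ := exists_code (M := MA) c_cyc5 rx5 (orbit_inv l6 hp hx)
  obtain ⟨γ, hγ, hg⟩ := exists_code (M := MA) c_cyc5 rx5 (orbit_inv l18 hq hx)
  have h1 := allB_iff.1 c_sP β hβ
  have hsz : sz k5 β = cnt p 24 := cnt_congr fun i hi => (hb i hi).symm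
  have b0 := hb 0 (by norm_num)
  have b23 := hb 23 (by norm_num)
  have ba := hb 6 (by norm_num)
  have g0 := hg 0 (by norm_num)
  have g23 := hg 23 (by norm_num)
  have gb := hg 18 (by norm_num)
  rw [c_k5.1, p0] at b0
  rw [c_k5.2.1, p23] at b23
  rw [c_k5.2.2.1, pa] at ba
  rw [c_k5.1, q0] at g0
  rw [c_k5.2.1, q23] at g23
  rw [c_k5.2.2.2, qb] at gb
  simp only [← b0, ← b23, ← ba, Bool.false_or, Bool.not_true, Bool.or_eq_true, Nat.beq_eq, hsz] at h1
  rcases h1 with h1 | h1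
  · exact no11 h (((Nat.dvd_of_mod_eq_zero h1).trans (Dvd.intro _ hcp)).trans
      (card_dvd_of_le h.pair.le))
  have h3 := allB_iff.1 h1 γ hγ
  have h4 : cnt (fun i => β.testBit (k5 i) && γ.testBit (k5 i)) 24 = 0 := by
    by_contra hne
    obtain ⟨i, hi, h5⟩ := exists_of_cnt hne
    rw [← hb i hi, ← hg i hi, Bool.and_eq_true, hp, hq] at h5
    obtain ⟨⟨b1, hb1, e1⟩, b2, hb2, e2⟩ := h5
    exact hdis _ (B.mul_mem (B.inv_mem hb2) hb1) (by
      rw [MA.mul _ _ _ l6, e1, ← e2, NA.act_inv b2 l18])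
  simp only [← g0, ← g23, ← gb, h4, Nat.beq_refl, Bool.false_or, Bool.not_true, List.any_eq_true,
    Bool.not_eq_true'] at h3
  obtain ⟨s, hs, h5⟩ := h3
  obtain ⟨σ, rσ⟩ := RL (L := sP) (by decide +kernel) s hs
  rw [region_congr rσ hb fun a b => a && b, region_congr rσ hg fun a b => a && b] at h5
  obtain ⟨y, hy, hys, hyB, hysB, -⟩ := h.pair.exists_pElem Nat.prime_two (h2 ▸ dvd_rfl) σ⁻¹
  have swap : ∀ {a b : ℕ} {p q : ℕ → Bool}, a < 24 → MA.act u a = b →
      (∀ i, p i = true ↔ ∃ g ∈ B, MA.act g a = i) → (∀ i, q i = true ↔ ∃ g ∈ B, MA.act g b = i) →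
      cnt (fun i => p i && p (MA.act σ i)) 24 ≤ cnt (fun i => q i && q (MA.act σ i)) 24 := by
    intro a b p q ha hab hp hq
    have k : ∀ y ∈ A, y ∉ B → ∀ i, p i = true → q (MA.act y i) = true := by
      intro y hy hyB i hi
      obtain ⟨g, hg, rfl⟩ := (hp i).1 hi
      refine (hq _).2 ⟨y * g * y⁻¹ * (y * u⁻¹), B.mul_mem (h.pair.conj_mem hy hg)
        (mul_mem_of_two h2 hy (A.inv_mem huA) hyB fun e => huB (by simpa using e)), ?_⟩
      rw [← hab, ← MA.mul _ _ _ ha, ← MA.mul _ _ _ ha]; congr 1; group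
    refine cnt_le (M := MA) y fun i hi hf => ?_
    rw [Bool.and_eq_true] at hf ⊢
    have e : MA.act σ (MA.act y i) = MA.act (σ⁻¹⁻¹ * y * σ⁻¹) (MA.act σ i) := by
      rw [← MA.mul _ _ _ hi, ← MA.mul _ _ _ hi]; congr 1; group
    exact ⟨k y hy hyB i hf.1, e ▸ k _ hys hysB _ hf.2⟩
  exact Nat.ne_of_beq_eq_false h5 (le_antisymm (swap l6 ua hp hq) (swap l18 ub hq hp))

theorem no5 (h : IsMaxPair A B) : ¬ 5 ∣ Nat.card A := by
  classical
  intro hd
  obtain ⟨g, hg⟩ := exists_conj_mem (T := T) (by norm_num) (not_sqT (by simp)) ord_x5 hd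
  have h' := h.conj g
  generalize A.map (MulAut.conj g).toMonoidHom = A at hg h'
  generalize B.map (MulAut.conj g).toMonoidHom = B at h'
  have h5 := five_index h' hg
  have hB : mk x5 ∈ B := mem_of_coprime h'.pair hg (by
    rw [ord_x5]; exact ((Nat.Prime.coprime_iff_not_dvd (by norm_num)).2 h5).symm)
  obtain ⟨m, n, h1, h2, h3, h4, h6⟩ := frat h'.pair (by simp) hB ord_x5
  have hN : Nat.card (normalizer ((zpowers (mk x5) : Subgroup T) : Set T)) = 20 :=
    (cn22_5 (by rw [Nat.card_zpowers, ord_x5] : Nat.card (zpowers (mk x5)) = 5)).2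
  rw [hN] at h6
  obtain ⟨m', rfl⟩ := h2
  have h7 : m' * B.relIndex A ∣ 2 ^ 2 := Nat.dvd_of_mul_dvd_mul_left (by norm_num : 0 < 5)
    (by rw [← mul_assoc, h1]; exact h6)
  have h8 : B.relIndex A = 2 := (two_or_odd h').resolve_right fun ⟨r, hr, hr2, hd⟩ =>
    hr2 ((Nat.prime_dvd_prime_iff_eq hr Nat.prime_two).1
      (hr.dvd_of_dvd_pow (hd.trans (Dvd.dvd.trans (Dvd.intro_left _ rfl) h7))))
  rw [h8] at h7 h1
  have h9 : m' ∣ 2 := Nat.dvd_of_mul_dvd_mul_right (by norm_num : 0 < 2) h7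
  rcases (Nat.dvd_prime Nat.prime_two).1 h9 with rfl | rfl
  · obtain ⟨K, hKB, hK, hBK, hK5⟩ := exists_compl (T := T) (by norm_num) hB ord_x5 (not_sq (by simp) B) h3.symm
    obtain ⟨k, hk, e, h10⟩ := two_power hKB hBK (q := 5) (by simp) (hK ▸ Dvd.intro_left _ rfl) hK5
      fun hd => no11 h' (hd.trans (card_dvd_of_le (hKB.trans h'.pair.le)))
    have h11 : Nat.card B ≤ 80 := by
      rw [e] at hK
      interval_cases k <;> first | exact absurd h10 (by decide) | omega
    have h12 := card_mul_relIndex h'.pair.le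
    have h13 := ncard_le_of_two h'.pair.le h8 (Y := {x | x ∈ A ∧ x ∉ B}) fun x hx => hx
    rw [h8] at h12
    have := h'.pair.count_out Nat.prime_two (h8 ▸ dvd_rfl) (fun x => decide (x * x = 1))
      (fun x _ t => decide_eq_decide.2 (by
        rw [show t⁻¹ * x * t * (t⁻¹ * x * t) = t⁻¹ * (x * x) * t⁻¹⁻¹ by group]
        exact ⟨fun e => by_contra fun hne => conj_ne_one hne e, fun e => by rw [e]; simp⟩))
      (fun b => cond b 20 80) (fun b => cond b 384 32) (fun b => ?_) fun x hx => ?_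
    · rw [cardT] at this; simp at this
    · cases b
      · have := ncard_le_of_two h'.pair.le h8
          (Y := {x ∈ outElems A B 2 | decide (x * x = 1) = false}) fun x hx => out_sub x hx.1
        simp only [cond_false]; omega
      · have := invol_count (X := {x | x ∈ A ∧ x ∉ B})
          (I := {x ∈ outElems A B 2 | decide (x * x = 1) = true}) (by norm_num) ord_x5
          (fun x hx => ⟨A.mul_mem hx.1 hg, fun hb => hx.2 (by
            simpa using B.mul_mem hb (B.inv_mem hB))⟩)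
          fun x hx => ⟨out_sub x hx.1, of_decide_eq_true hx.2⟩
        rw [cent_q (by simp) _ ord_x5] at this
        simp only [cond_true]; omega
    · obtain ⟨-, hxB, k, hk⟩ := hx
      by_cases e : x * x = 1
      · simpa [e] using cent2 (x := x) (fun e => hxB (e ▸ B.one_mem)) hk
      · simpa [e] using cent4 e hk
  · exact five_swap h' h8 hB (inf_eq_right.1 (eq_of_le_of_card_ge inf_le_right (by omega))) h3.symm

theorem main (hb : H940.Eng.Base) : ¬ Pair Spor.M22 := by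
  haveI := simple22
  rintro ⟨A, B₀, h₀⟩
  obtain ⟨B, -, h⟩ := h₀.exists_max
  have hA : Nat.card A ∣ 1152 := by
    have h1 : Nat.card A ∣ 1152 * (5 * (7 * 11)) := card_dvd A
    refine Nat.Coprime.dvd_of_dvd_mul_right ?_ h1
    refine Nat.Coprime.mul_right ?_ (Nat.Coprime.mul_right ?_ ?_)
    · exact ((Nat.Prime.coprime_iff_not_dvd (by norm_num)).2 (no5 h)).symm
    · exact ((Nat.Prime.coprime_iff_not_dvd (by norm_num)).2 (no7 h)).symm
    · exact ((Nat.Prime.coprime_iff_not_dvd (by norm_num)).2 (no11 h)).symm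
  obtain ⟨N, hNB, hN0, hAN, -, hN⟩ := exists_minN h.pair.le (le_normalizer_B h.pair) (B_ne_bot h.pair)
  have hNd : Nat.card N ∣ 1152 := (card_dvd_of_le (hNB.trans h.pair.le)).trans hA
  rcases hN with ⟨p, hp⟩ | ⟨S, hSN, hSs, hna, -⟩
  · by_cases h2 : p = 2
    · subst h2; exact two_local h hA hNB hN0 hAN hp
    haveI := Fact.mk hp.1
    obtain ⟨k, hk⟩ := IsPGroup.iff_card.1 hp.isPGroup
    have hk0 : k ≠ 0 := by rintro rfl; exact hN0 (card_eq_one.1 hk)
    have h3 : p = 3 := by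
      have h4 : p ∣ 2 ^ 7 * 3 ^ 2 := (dvd_pow_self p hk0).trans (hk ▸ hNd)
      rcases hp.1.dvd_mul.1 h4 with h5 | h5
      · exact absurd ((Nat.prime_dvd_prime_iff_eq hp.1 Nat.prime_two).1 (hp.1.dvd_of_dvd_pow h5)) h2
      · exact (Nat.prime_dvd_prime_iff_eq hp.1 Nat.prime_three).1 (hp.1.dvd_of_dvd_pow h5)
    subst h3
    rcases k with _ | _ | _ | k
    · exact hk0 rfl
    · exact bad3 hk A B h fun a ha => nrm_diff hAN ha
    · exact bad9 hk A B h fun a ha => nrm_diff hAN ha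
    · exact absurd ((pow_dvd_pow 3 (by omega : 3 ≤ k + 1 + 1 + 1)).trans (hk ▸ hNd)) (by norm_num)
  · have ho := H940.Eng.D.ords_m22 hb S hSs hna (card_dvd S)
    have h1 := (card_dvd_of_le hSN).trans hNd
    simp only [H940.Eng.D.o_m22, List.mem_cons, List.not_mem_nil, or_false] at ho
    rcases ho with e | e | e | e | e | e | e | e | e <;> rw [e] at h1 <;> norm_num at h1

end Cfsg.Agent.SP.NegS.M22
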