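import Cfsg.Agent.SP.NegS.McL2
import Cfsg.Agent.H940.EngData
import Cfsg.Agent.S1001

/-! # S5755: the McLaughlin group has no pair -/

set_option autoImplicit false
set_option linter.style.haveILetI false

namespace Cfsg.Agent.SP.NegS.McL

open Subgroup Cfsg.Agent.SP Cfsg.Agent.SP.NegS Cfsg.Agent.SP.NegS.Eng

variable {A B S : Subgroup T}

theorem frS [IsSimpleGroup S] (hSA : S ≤ A) (hAS : A ≤ normalizer (S : Set T)) {p : ℕ} (hp : p.Prime)
    {y : T} (hy : y ∈ S) (ho : orderOf y = p) (h2 : ¬ p ^ 2 ∣ Nat.card S) (hne : Nat.card S ≠ p) :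
    Nat.card (S ⊓ normalizer ((zpowers y : Subgroup T) : Set T) : Subgroup T) * S.relIndex A =
      Nat.card (A ⊓ normalizer ((zpowers y : Subgroup T) : Set T) : Subgroup T) ∧
    zpowers y ≤ S ⊓ normalizer ((zpowers y : Subgroup T) : Set T) ∧
    ∃ s ∈ S ⊓ normalizer ((zpowers y : Subgroup T) : Set T), s ∉ centralizer ({y} : Set T) := by
  have hc : Nat.card (zpowers y) = p ^ 1 := by rw [Nat.card_zpowers, ho, pow_one]
  obtain ⟨s, hs, hn, x, hx, e⟩ := burnside_simple hp (zpowers_le.2 hy) hc h2 one_ne_zero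
    (by rwa [pow_one])
  refine ⟨frattini_card hp (zpowers_le.2 hy) hSA hAS hc h2, le_inf (zpowers_le.2 hy) le_normalizer,
    s, ⟨hs, hn⟩, fun h => e ?_⟩
  rw [← cent_zpowers] at h
  exact mem_centralizer_iff.1 h x hx

theorem simple11 [IsSimpleGroup S] (h : IsPair A B) (hSB : S ≤ B) (hAS : A ≤ normalizer (S : Set T))
    (hd : 11 ∣ Nat.card S) (hne : Nat.card S ≠ 11) : False := by
  obtain ⟨y, hy, ho, -, hc⟩ := exists_sub (by norm_num) hd
  obtain ⟨h1, h2, s, hs, hsc⟩ := frS (hSB.trans h.le) hAS (by norm_num) hy ho (not_sq (by simp) S) hne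
  have h3 : Nat.card (A ⊓ normalizer ((zpowers y : Subgroup T) : Set T) : Subgroup T) ∣ 55 :=
    norm11 ho ▸ card_dvd_of_le inf_le_right
  obtain ⟨m, hm⟩ := card_dvd_of_le h2
  rw [hc] at hm
  rw [← h1, hm, mul_assoc] at h3
  have h4 : m * S.relIndex A ∣ 5 := Nat.dvd_of_mul_dvd_mul_left (by norm_num : 0 < 11) h3
  rcases (Nat.dvd_prime Nat.prime_five).1 (Dvd.dvd.trans (Dvd.intro _ rfl) h4) with rfl | rfl
  · obtain ⟨k, rfl⟩ := (eq_of_le_of_card_ge h2 (by rw [hm, hc])).ge hs
    exact hsc (zpow_mem (mem_centralizer_singleton_iff.2 rfl) k)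
  · exact h.relIndex_ne_one (Nat.dvd_one.1 ((relIndex_dvd_of_le_left A hSB).trans
      (Nat.dvd_of_mul_dvd_mul_left (by norm_num : 0 < 5) h4)))

theorem simple7 [IsSimpleGroup S] (h : IsPair A B) (hSB : S ≤ B) (hAS : A ≤ normalizer (S : Set T))
    (hd : 7 ∣ Nat.card S) (hne : Nat.card S ≠ 7) : False := by
  obtain ⟨y, hy, ho, -, hc⟩ := exists_sub (by norm_num) hd
  obtain ⟨h1, h2, s, hs, hsc⟩ := frS (hSB.trans h.le) hAS (by norm_num) hy ho (not_sq (by simp) S) hne
  have h3 : Nat.card (A ⊓ normalizer ((zpowers y : Subgroup T) : Set T) : Subgroup T) ∣ 42 :=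
    norm7 ho ▸ card_dvd_of_le inf_le_right
  have h4 : 3 ∣ Nat.card (S ⊓ normalizer ((zpowers y : Subgroup T) : Set T) : Subgroup T) := by
    by_contra hn
    have h5 := pow_index_cent (k := 3) hs.2 (by rw [cent_zpowers, cent7 ho, norm7 ho])
    obtain ⟨k, hk⟩ := exists_pow_eq_self_of_coprime (x := s) (n := 3)
      (((Nat.Prime.coprime_iff_not_dvd Nat.prime_three).2 hn).coprime_dvd_right
        (orderOf_dvd_natCard _ hs))
    rw [cent_zpowers] at h5
    exact hsc (hk ▸ pow_mem h5 k)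
  obtain ⟨m, hm⟩ := Nat.Coprime.mul_dvd_of_dvd_of_dvd (by norm_num) h4 (hc ▸ card_dvd_of_le h2)
  rw [← h1, hm, mul_assoc] at h3
  have h5 : m * S.relIndex A ∣ 2 := Nat.dvd_of_mul_dvd_mul_left (by norm_num : 0 < 3 * 7) h3
  have h6 := ((Nat.dvd_prime Nat.prime_two).1 (((relIndex_dvd_of_le_left A hSB).trans
    (Dvd.intro_left _ rfl)).trans h5)).resolve_left h.relIndex_ne_one
  exact no7 h h6 (hd.trans (card_dvd_of_le (hSB.trans h.le)))

theorem simple5 [IsSimpleGroup S] (h : IsPair A B) (hSB : S ≤ B) (hAS : A ≤ normalizer (S : Set T))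
    (hS : Nat.card S = 60 ∨ Nat.card S = 360 ∨ Nat.card S = 25920) : False := by
  obtain ⟨y, hy, ho, -, hc⟩ := exists_sub (S := S) Nat.prime_five (by omega)
  have hSA := hSB.trans h.le
  have n25 : ¬ 5 ^ 2 ∣ Nat.card S := by omega
  obtain ⟨h1, h2, s, hs, hsc⟩ := frS hSA hAS Nat.prime_five hy ho n25 (by omega)
  have hC : ∀ g ∈ S, g ∈ centralizer ({y} : Set T) → g ^ 5 = 1 := by
    intro g hg hgc
    have o : orderOf (⟨y, hy⟩ : S) = 5 := (orderOf_coe _).symm.trans ho
    have e : centralizer ({⟨y, hy⟩} : Set S) = zpowers ⟨y, hy⟩ := by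
      rcases hS with e | e | e
      exacts [S1001.result 5 1 2 Nat.prime_five e _ o, S1001.result 5 2 3 Nat.prime_five e _ o,
        S1001.result 5 4 6 Nat.prime_five e _ o]
    have h3 : (⟨g, hg⟩ : S) ∈ zpowers ⟨y, hy⟩ := e ▸ mem_centralizer_singleton_iff.2
      (Subtype.ext (mem_centralizer_singleton_iff.1 hgc))
    have h4 : (⟨g, hg⟩ : S) ^ 5 = 1 := orderOf_dvd_iff_pow_eq_one.1 (o ▸ orderOf_dvd_of_mem_zpowers h3)
    exact congrArg Subtype.val h4
  have h4 : s ^ 4 ∈ centralizer ({y} : Set T) := pow_cent Nat.prime_five ho hs.2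
  obtain ⟨j, hj⟩ := exists_pow_order Nat.prime_two (x := s ^ 5) (k := 2) (by
    rw [← pow_mul, mul_comm, pow_mul]; exact hC _ (pow_mem hs.1 4) h4) fun e => hsc (by
      have := inv_mem h4
      rwa [← one_mul (s ^ 4)⁻¹, ← e, pow_succ', mul_inv_cancel_right] at this)
  have ht : (s ^ 5) ^ j ∈ S ⊓ normalizer ((zpowers y : Subgroup T) : Set T) := pow_mem (pow_mem hs 5) j
  generalize (s ^ 5) ^ j = t at hj ht
  have h25 := (cent5 ho).resolve_left fun e => by
    have := hC t ht.1 (mem_centralizer_singleton_iff.2 ((fiveA ho e.1).2 t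
      (by rw [← pow_two, ← hj, pow_orderOf_eq_one]) ht.2))
    exact absurd (hj ▸ orderOf_dvd_of_pow_eq_one this) (by norm_num)
  have h5 : ¬ 5 ∣ S.relIndex A := fun hd => by
    obtain ⟨P, -, hP, x, hx, hn⟩ := exists_inv_sylow hSA hAS Nat.prime_five Nat.prime_two hd
    have h6 := card_cent_modEq (N := P) (x := x) (k := 1) Nat.prime_five
      (by rw [pow_one, ← hx, pow_orderOf_eq_one]) hn
    have h7 : Nat.card (P ⊓ centralizer ({x} : Set T) : Subgroup T) ∣ 750 :=
      (card_dvd_of_le inf_le_right).trans (by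
        rcases cent5 hx with e | e
        · rw [e.1]
        · rw [e]; norm_num)
    have h8 : Nat.card P = 4 ∨ Nat.card P = 8 ∨ Nat.card P = 64 := by
      rcases hS with e | e | e <;> rw [hP, e] <;> decide +kernel
    have h9 : Nat.card (P ⊓ centralizer ({x} : Set T) : Subgroup T) ∣ Nat.gcd 64 750 :=
      Nat.dvd_gcd ((card_dvd_of_le inf_le_left).trans
        (by rcases h8 with e | e | e <;> rw [e] <;> norm_num)) h7
    have := (Nat.dvd_prime Nat.prime_two).1 h9
    unfold Nat.ModEq at h6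
    omega
  have h6 := card_le_one (A := A ⊓ normalizer ((zpowers y : Subgroup T) : Set T)) inf_le_right
    (mem_zpowers y) fun e => by rw [e, orderOf_one] at ho; omega
  have h7 : Nat.card (A ⊓ normalizer ((zpowers y : Subgroup T) : Set T) ⊓ centralizer ({y} : Set T) :
      Subgroup T) ≤ 5 := by
    obtain ⟨k, hk, e⟩ := (Nat.dvd_prime_pow Nat.prime_five).1 ((card_dvd_of_le (inf_le_right :
      A ⊓ normalizer ((zpowers y : Subgroup T) : Set T) ⊓ centralizer ({y} : Set T) ≤ _)).trans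
        (by rw [h25]; norm_num : _ ∣ 5 ^ 2))
    have h8 := card_dvd_of_le (inf_le_left :
      A ⊓ normalizer ((zpowers y : Subgroup T) : Set T) ⊓ centralizer ({y} : Set T) ≤ _)
    rw [e, ← h1] at h8
    rw [e]
    interval_cases k
    · norm_num
    · norm_num
    · exact (n25 (((((Nat.Prime.coprime_iff_not_dvd Nat.prime_five).2 h5).pow_left 2).dvd_of_dvd_mul_right
        h8).trans (card_dvd_of_le inf_le_left))).elim
  obtain ⟨m, hm⟩ := Nat.Coprime.mul_dvd_of_dvd_of_dvd (by norm_num)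
    (hj ▸ orderOf_dvd_natCard _ ht) (hc ▸ card_dvd_of_le h2)
  obtain ⟨n, hn1, hn2⟩ := sylow_count (k := 1) Nat.prime_five (zpowers_le.2 hy) (by rw [hc, pow_one]) n25
  obtain ⟨i, hi⟩ := relIndex_dvd_of_le_left A hSB
  have h8 := card_mul_relIndex h.le
  have h9 := card_mul_relIndex hSA
  have h10 := h.relIndex_ne_one
  have h11 : m * (B.relIndex A * i) ≤ 2 := by rw [← hi]; rw [hc, ← h1, hm, mul_assoc] at h6; omega
  have p0 : 0 < m * (B.relIndex A * i) := by
    have := Nat.card_pos (α := (A ⊓ normalizer ((zpowers y : Subgroup T) : Set T) : Subgroup T))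
    rw [← hi]; rw [← h1, hm, mul_assoc] at this; omega
  have p1 : 0 < m := Nat.pos_of_mul_pos_right p0
  have p2 : 0 < B.relIndex A * i := Nat.pos_of_mul_pos_left p0
  have p3 : 0 < i := Nat.pos_of_mul_pos_left p2
  have p4 : 0 < B.relIndex A := Nat.pos_of_mul_pos_right p2
  have e2 : B.relIndex A = 2 := by
    have := (Nat.le_mul_of_pos_right _ p3).trans ((Nat.le_mul_of_pos_left _ p1).trans h11)
    omega
  rw [e2] at h11 h8 hi
  have e3 : m = 1 := by nlinarith
  have e4 : i = 1 := by nlinarith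
  subst e3 e4
  rw [hm] at hn2
  rw [hi] at h9
  have := two_count' h e2 (hSB hy) (a := 92) (b := 360) Nat.prime_five ho (by omega)
    (by rw [h25]; norm_num)
  omega

theorem main (hb : H940.Eng.Base) : ¬ Pair Spor.McL := by
  haveI := simpleT
  intro h0
  obtain ⟨e⟩ := H359.CT.McL.iso_K0
  obtain ⟨A, B₀, h₀⟩ : Pair T := h0.of_equiv e.symm
  obtain ⟨B, -, h⟩ := h₀.exists_max
  obtain ⟨N, hNB, hN0, hAN, -, hN⟩ := exists_minN h.pair.le (le_normalizer_B h.pair) (B_ne_bot h.pair)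
  rcases hN with ⟨p, hp⟩ | ⟨S, hSN, hSs, hna, hS⟩
  · haveI := Fact.mk hp.1
    obtain ⟨y, hy, h1⟩ := exists_ne_one hN0
    have ho : orderOf y = p := orderOf_eq_prime (hp.2.2 y hy) h1
    rcases prime_cases hp.1 ((ho ▸ orderOf_dvd_natCard N hy).trans (card_dvd N)) with
      rfl | rfl | rfl | rfl | rfl
    exacts [two_local h hN0 hAN hp, three_local h hN0 hAN hp, five_local h hNB hN0 hAN hp,
      big_local h.pair hN0 hAN (by simp) hp, big_local h.pair hN0 hAN (by simp) hp]
  have ho : Nat.card S ∈ [60, 168, 360, 504, 660, 2520, 6048, 7920, 20160, 25920, 95040, 126000, 181440,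
      443520, 604800, 1814400, 3265920, 19958400, 898128000] :=
    H940.Eng.D.ords_mcl hb S hSs hna (card_dvd S)
  simp only [List.mem_cons, List.not_mem_nil, or_false] at ho
  rcases hS with rfl | ⟨S', -, ⟨a, -, rfl⟩, -, hc⟩
  · by_cases h11 : 11 ∣ Nat.card S
    · exact simple11 h.pair hNB hAN h11 (by omega)
    by_cases h7 : 7 ∣ Nat.card S
    · exact simple7 h.pair hNB hAN h7 (by omega)
    exact simple5 h.pair hNB hAN (by omega)
  · have key : ∀ y ∈ S, 4 ∣ Nat.card (centralizer ({y} : Set T)) := fun y hy =>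
      ((by omega : 4 ∣ Nat.card S).trans (card_map_conj S a).symm.dvd).trans (card_dvd_of_le
        fun x hx => mem_centralizer_singleton_iff.2 (hc y hy x hx).eq.symm)
    by_cases h7 : 7 ∣ Nat.card S
    · obtain ⟨y, hy, h1, -⟩ := exists_sub (by norm_num) h7
      exact absurd (cent7 h1 ▸ key y hy) (by norm_num)
    · obtain ⟨y, hy, h1, -⟩ := exists_sub (S := S) Nat.prime_five (by omega)
      have := key y hy
      have := cent5 h1
      omega

end Cfsg.Agent.SP.NegS.McL
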