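import Cfsg.Agent.SP.NegS.McL7

/-! # S5755, the row of `McL`: the primes `2` and `3` -/

set_option autoImplicit false
set_option linter.style.haveILetI false

namespace Cfsg.Agent.SP.NegS.McL

open Subgroup Cfsg.Agent.SP Cfsg.Agent.SP.NegS Cfsg.Agent.SP.NegS.Eng
open Cfsg.Agent.H359.CT.McL Cfsg.Agent.H41.McLTwo.Ords
open Cfsg.Agent.SporadicA.PermTab (lk)

variable {A B : Subgroup T}

theorem killM {X Y ps : List ℕ} {U V c m : ℕ} (k : chkM X Y U V c ps m = true) (h : IsPair A B)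
    (hA : ∀ a ∈ A, MA.PresL X a ∧ MA.PresL Y a) {r : ℕ} (hr : r.Prime) (hd : r ∣ B.relIndex A) :
    r ∣ m := by
  rw [chkM, Bool.and_eq_true] at k
  exact kill (M := MA) had complete rep_chain base k.1 k.2 h hA hr hd

theorem kill1 {X Y ps : List ℕ} {U V c : ℕ} (k : chkM X Y U V c ps 1 = true) (h : IsPair A B)
    (hA : ∀ a ∈ A, MA.PresL X a ∧ MA.PresL Y a) : False :=
  let ⟨_, hr, hd⟩ := h.exists_prime
  hr.one_lt.ne' (Nat.dvd_one.1 (killM k h hA hr hd))

theorem odd_false {r k : ℕ} (hr : r.Prime) (h2 : r ≠ 2) (h : r ∣ 2 ^ k) : False :=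
  h2 ((Nat.prime_dvd_prime_iff_eq hr Nat.prime_two).1 (hr.dvd_of_dvd_pow h))

theorem forall_conj {g : T} {p : T → Prop} (h : ∀ a ∈ A, p (g * a * g⁻¹)) :
    ∀ a ∈ A.map (MulAut.conj g).toMonoidHom, p a := by
  rintro _ ⟨a, ha, rfl⟩; exact h a ha

/-! ### the prime three -/

theorem edge (h : IsMaxPair A B) (hA : ∀ a ∈ A, MA.PresL [0, 6] a) : False := by
  rcases two_or_odd h with h2 | ⟨r, hr, h2, hd⟩
  swap
  · exact odd_false (k := 3) hr h2 (killM kE h.pair (fun a ha => ⟨hA a ha, presL_nil a⟩) hr hd)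
  have hc := cD
  simp only [Bool.and_eq_true, Bool.not_eq_true'] at hc
  obtain ⟨c1, c2, c3, c4, c5, c6, c7, c8, c9⟩ := hc
  have rg : MA.Rep dg (mk dg) := RI List.mem_cons_self
  have ry : MA.Rep dy (mk dy) := RI (by simp only [List.mem_cons, true_or, or_true])
  have rc : MA.Rep dcu (mk dcu) := RI (by simp only [List.mem_cons, true_or, or_true])
  have rd : MA.Rep dcv (mk dcv) := RI (by simp only [List.mem_cons, true_or, or_true])
  generalize mk dg = g at rg
  generalize mk dy = y at ry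
  generalize mk dcu = c at rc
  generalize mk dcv = d at rd
  obtain ⟨⟨u, hu⟩, v, hv⟩ := chkD_rep (M := MA) dD rep_chain
  have hX : ∀ f ∈ [0, 6], f < MA.n := by decide
  haveI : Fact (Nat.Prime 5) := ⟨Nat.prime_five⟩
  have e4 : g * y * g = y := eq_of_eqB base ((rg.ag2 ry).cons rg) ry.ag c4
  have e3 : y * y = 1 := (pow_two _).symm.trans (pow_of_pwB base ry.ag c3)
  refine dihedral (H := MA.stabL [0, 6] (by decide)) (u := u) (v := v) (g := g) (y := y) (c := c)
    (d := d) h.pair h2 hA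
    (orderOf_eq_prime (pow_of_pwB base rg.ag c1) (ne_of_eqB base rg.ag NA.ag_nil c2)) ?_
    (pres_of_presC (M := MA) c7 hX hu rg.ag) (pres_of_presC (M := MA) c8 hX hu rc.ag)
    (pres_of_presC (M := MA) c9 hX hv rd.ag) e3
    (eq_of_eqB base (((ry.ag2 rc).cons ry).cons rc) ((rc.ag2 rc).cons ry) c5)
    (eq_of_eqB base (((ry.ag2 rd).cons ry).cons rd) ((rd.ag2 rd).cons ry) c6) fun w h1 h3 => ?_
  · calc _ = g⁻¹ * (g * y * g) * y⁻¹ := by group
      _ = _ := by rw [e4]; group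
  obtain ⟨x, hx, hQ⟩ := runR (M := MA) had dD complete qD hu hv h1 (presL_nil _) h3 (presL_nil _)
  rw [Bool.or_eq_true, List.any_eq_true] at hQ
  rcases hQ with hQ | ⟨k, -, hQ⟩
  · exact Or.inl (pow_of_pwB base hx hQ)
  · exact Or.inr ⟨g ^ k, pow_mem (mem_zpowers g) k, eq_of_eqB base hx ((rg.pow k).cons ry) hQ⟩

theorem clique (h : IsPair A B) (hA : ∀ a ∈ A, MA.PresL K0L a) : False := by
  obtain ⟨r, hr, hd⟩ := h.exists_prime
  exact hr.one_lt.ne' (Nat.eq_one_of_dvd_coprimes (by norm_num)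
    (killM kK h (fun a ha => ⟨hA a ha, presL_nil a⟩) hr hd)
    (killM kL h (fun a ha => ⟨hA a ha, presL_nil a⟩) hr hd))

theorem mem_K {x y z i : ℕ} (hx : x ∈ K0L) (hy : y ∈ K0L) (hz : z ∈ K0L) (h1 : x ≠ y) (h2 : x ≠ z)
    (h3 : y ≠ z) (hi : i < 275) (a1 : bB x i = true) (a2 : bB y i = true) (a3 : bB z i = true) :
    i ∈ K0L := by
  have := List.all_eq_true.1 (List.all_eq_true.1 (List.all_eq_true.1 cK x hx) y hy) z hz
  rw [nb h1, nb h2, nb h3, Bool.false_or, Bool.false_or, Bool.false_or] at this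
  have := allB_iff.1 this i hi
  rw [a1, a2, a3] at this
  exact memL_iff.1 this

/-- An invariant clique with at least two points. -/
theorem inv_clique (h : IsMaxPair A B) {ψ : ℕ → Bool}
    (hA : ∀ a ∈ A, ∀ i, i < 275 → ψ i = true → ψ (MA.act a i) = true)
    (hψ : ∀ i j, i < 275 → j < 275 → ψ i = true → ψ j = true → j = i ∨ bB i j = true)
    (h2 : 2 ≤ cnt ψ 275) : False := by
  classical
  obtain ⟨p, hp, q, hq, hpq⟩ := Finset.one_lt_card.1 (cnt_eq ψ 275 ▸ h2)
  rw [Finset.mem_filter, Finset.mem_range] at hp hq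
  have apq := (hψ p q hp.1 hq.1 hp.2 hq.2).resolve_left hpq.symm
  have tr : ∀ g : T, ∀ a ∈ A.map (MulAut.conj g⁻¹).toMonoidHom, ∀ i, i < 275 →
      ψ (MA.act g i) = true → ψ (MA.act g (MA.act a i)) = true := fun g =>
    forall_conj fun a ha i hi e => by
      have := hA a ha _ (MA.lt g i hi) e
      rw [← MA.mul _ _ _ hi] at this ⊢
      rwa [show g * (g⁻¹ * a * g⁻¹⁻¹) = a * g by group]
  by_cases h3 : ∃ r, r < 275 ∧ ψ r = true ∧ r ≠ p ∧ r ≠ q
  · obtain ⟨r, hr, hr', rp, rq⟩ := h3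
    obtain ⟨g, g1, g2, g3⟩ := tri_tr hp.1 hq.1 hr apq ((hψ p r hp.1 hr hp.2 hr').resolve_left rp)
      ((hψ q r hq.1 hr hq.2 hr').resolve_left rq)
    have adj : ∀ i j, i < 275 → j < 275 → ψ (MA.act g i) = true → ψ (MA.act g j) = true →
        j = i ∨ bB i j = true := fun i j hi hj e1 e2 =>
      (hψ _ _ (MA.lt g i hi) (MA.lt g j hj) e1 e2).imp (NA.inj (M := MA) g hj hi)
        fun e => (had g i j hi hj).symm.trans e
    have p0 : ψ (MA.act g 0) = true := g1 ▸ hp.2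
    have p1 : ψ (MA.act g 6) = true := g2 ▸ hq.2
    have p2 : ψ (MA.act g 126) = true := g3 ▸ hr'
    have inK : ∀ i, i < 275 → ψ (MA.act g i) = true → i ∈ K0L := fun i hi e => by
      rcases adj 0 i (by norm_num) hi p0 e with rfl | a1
      · decide
      rcases adj 6 i (by norm_num) hi p1 e with rfl | a2
      · decide
      rcases adj 126 i (by norm_num) hi p2 e with rfl | a3
      · decide
      exact mem_K (by decide) (by decide) (by decide) (by decide) (by decide) (by decide) hi a1 a2 a3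
    refine clique (h.conj g⁻¹).pair fun a ha f hf => ?_
    have k0 := inK _ (MA.lt a 0 (by norm_num)) (tr g a ha 0 (by norm_num) p0)
    have k1 := inK _ (MA.lt a 6 (by norm_num)) (tr g a ha 6 (by norm_num) p1)
    have k2 := inK _ (MA.lt a 126 (by norm_num)) (tr g a ha 126 (by norm_num) p2)
    have ne : ∀ {i j : ℕ}, i < 275 → j < 275 → i ≠ j → MA.act a i ≠ MA.act a j := fun hi hj e e' =>
      e (NA.inj (M := MA) a hi hj e')
    have other : ∀ f, f < 275 → bB 0 f = true → bB 6 f = true → bB 126 f = true → MA.act a f ∈ K0L :=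
      fun f hf a1 a2 a3 => mem_K k0 k1 k2 (ne (by norm_num) (by norm_num) (by norm_num))
        (ne (by norm_num) (by norm_num) (by norm_num)) (ne (by norm_num) (by norm_num) (by norm_num))
        (MA.lt a f hf) ((had a 0 f (by norm_num) hf).trans a1) ((had a 6 f (by norm_num) hf).trans a2)
        ((had a 126 f (by norm_num) hf).trans a3)
    simp only [K0L, List.mem_cons, List.not_mem_nil, or_false] at hf
    rcases hf with rfl | rfl | rfl | rfl | rfl
    · exact k0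
    · exact k1
    · exact k2
    · exact other _ (by norm_num) (by decide +kernel) (by decide +kernel) (by decide +kernel)
    · exact other _ (by norm_num) (by decide +kernel) (by decide +kernel) (by decide +kernel)
  · obtain ⟨g, g1, g2⟩ := edge_tr hp.1 hq.1 apq
    have inE : ∀ i, i < 275 → ψ (MA.act g i) = true → i ∈ [0, 6] := fun i hi e => by
      by_contra hn
      simp only [List.mem_cons, List.not_mem_nil, or_false, not_or] at hn
      exact h3 ⟨_, MA.lt g i hi, e, fun e => hn.1 (NA.inj (M := MA) g hi (by norm_num) (e.trans g1.symm)),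
        fun e => hn.2 (NA.inj (M := MA) g hi (by norm_num) (e.trans g2.symm))⟩
    refine edge (h.conj g⁻¹) fun a ha f hf => ?_
    simp only [List.mem_cons, List.not_mem_nil, or_false] at hf
    rcases hf with rfl | rfl
    · exact inE _ (MA.lt a 0 (by norm_num)) (tr g a ha 0 (by norm_num) (g1 ▸ hp.2))
    · exact inE _ (MA.lt a 6 (by norm_num)) (tr g a ha 6 (by norm_num) (g2 ▸ hq.2))

theorem zc_three {n : T} (hn : orderOf n = 3) :
    cnt (zc bB 275 fun i => Nat.beq (MA.act n i) i) 275 % 3 = 2 := by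
  obtain ⟨i, h1, -, -, t, ht⟩ := cls n
  have e : ∀ j, j < 275 → Nat.beq (MA.act n (MA.act t j)) (MA.act t j) = Nat.beq (lk (XT i) j) j := by
    intro j hj
    have e1 : lk (XT i) j = MA.act (gs i) j := rep_of_spec (gs_spec i) j hj
    rw [Bool.eq_iff_iff, Nat.beq_eq, Nat.beq_eq, e1]
    rcases ht with rfl | rfl
    · exact fix_conj (M := MA) hj
    · exact (fix_conj (M := MA) hj).trans (MA.stab j hj).inv_mem_iff
  have e2 : cnt (zc bB 275 fun i => Nat.beq (MA.act n i) i) 275 =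
      cnt (zc bB 275 fun j => Nat.beq (lk (XT i) j) j) 275 :=
    le_antisymm (cle t⁻¹ fun j hj => zc_act (M := MA) had (fun j hj => by
      rw [← e _ (MA.lt _ _ hj), NA.act_inv' (M := MA) t hj]) hj)
      (cle t fun j hj => zc_act (M := MA) had e hj)
  have : ∀ i : Fin 18, og i = 3 → i = 2 ∨ i = 3 := by decide
  rcases this i (h1 ▸ hn) with rfl | rfl
  · rw [e2, c3A]
  · rw [e2, c3B]

theorem three_local (h : IsMaxPair A B) {N : Subgroup T} (hN0 : N ≠ ⊥)
    (hAN : A ≤ normalizer (N : Set T)) (hp : ElemAb 3 N) : False := by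
  obtain ⟨n, hn, h1⟩ := exists_ne_one hN0
  have h3 := zc_three (orderOf_eq_prime (hp.2.2 n hn) h1)
  have h4 := cnt_modEq (M := MA) Nat.prime_three hp.isPGroup
    (p := zc bB 275 fun i => Nat.beq (MA.act n i) i)
    (q := fun i => zc bB 275 (fun i => Nat.beq (MA.act n i) i) i && MA.fx N i)
    (fun d hd i hi => zc_act (M := MA) had (fun j hj => by
      rw [Bool.eq_iff_iff, Nat.beq_eq, Nat.beq_eq, ← fix_conj (M := MA) (t := d) hj, hp.2.1 d hd n hn,
        mul_inv_cancel_right]) hi) fun i _ => by rw [Bool.and_eq_true, fx_iff]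
  refine inv_clique h (ψ := zc bB 275 (MA.fx N))
    (fun a ha i hi => zc_act (M := MA) had (fun j hj => fx_act hAN ha hj) hi)
    (fun i j _ hj e1 e2 => (zc_iff.1 e1).2 j hj (zc_iff.1 e2).1) ?_
  have h5 := cle 1 (p := fun i => zc bB 275 (fun i => Nat.beq (MA.act n i) i) i && MA.fx N i)
    (q := zc bB 275 (MA.fx N)) fun i hi e => by
      rw [Bool.and_eq_true, zc_iff] at e
      rw [MA.one i hi, zc_iff]
      exact ⟨e.2, fun j hj e' => e.1.2 j hj (Nat.beq_eq.mpr (fx_iff.1 e' n hn))⟩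
  have h6 : cnt (zc bB 275 fun i => Nat.beq (MA.act n i) i) 275 % 3 =
    cnt (fun i => zc bB 275 (fun i => Nat.beq (MA.act n i) i) i && MA.fx N i) 275 % 3 := h4
  omega

/-! ### the prime two -/

theorem seven_pts (h : IsMaxPair A B) {F : List ℕ} {x y : ℕ} (hs : subs F x y = true)
    (hF : okL 275 F = true) (h7 : F.length = 7) (rx : MA.Rep x (mk x)) (ry : MA.Rep y (mk y))
    (k4 : ∀ {A B : Subgroup T}, IsPair A B → (∀ a ∈ A, MA.PresL F a) →
      ∀ {r : ℕ}, r.Prime → r ∣ B.relIndex A → r ∣ 4)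
    (k1 : ∀ {A B : Subgroup T}, IsPair A B → ∀ j, 0 < j → j < 4 →
      (∀ a ∈ A, MA.PresL F a ∧ MA.PresL (F.take j) a) → False)
    (hA : ∀ a ∈ A, MA.PresL F a) : False := by
  rcases two_or_odd h with h2 | ⟨r, hr, h2, hd⟩
  swap
  · exact odd_false (k := 2) hr h2 (k4 h.pair hA hr hd)
  have lt := (okL_spec hF).2
  rw [subs, Bool.and_eq_true, Bool.and_eq_true] at hs
  have small : ∀ φ : ℕ → Bool, (∀ a ∈ A, ∀ i, i < 275 → φ (MA.act a i) = φ i) →
      (F.filter φ).length = 0 ∨ 4 ≤ (F.filter φ).length := by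
    intro φ hφ
    have h1 := List.all_eq_true.1 hs.2.2 _ (List.mem_sublists.2 (List.filter_sublist (p := φ)))
    rw [Bool.or_eq_true, Bool.or_eq_true, Nat.beq_eq, Nat.ble_eq, List.any_eq_true] at h1
    by_contra hn
    rw [not_or] at hn
    obtain ⟨a, -, h3⟩ := (h1.resolve_left hn.1).resolve_left hn.2
    obtain ⟨b, -, h3⟩ := List.any_eq_true.1 h3
    have sx : ∀ {x : ℕ}, MA.Rep x (mk x) → maps lk [x] F F = true → mk x ∈ MA.stabL F hF := by
      intro x rx hm f hf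
      rw [maps, Bool.and_eq_true] at hm
      exact rx.ag f (lt f hf) ▸ memL_iff.1 (List.all_eq_true.1 hm.1 f hf)
    have hg : mk y ^ b * mk x ^ a ∈ MA.stabL F hF :=
      mul_mem (pow_mem (sx ry hs.2.1) b) (pow_mem (sx rx hs.1) a)
    refine k1 (h.pair.conj (mk y ^ b * mk x ^ a)) _ (Nat.pos_of_ne_zero hn.1) (not_le.1 hn.2)
      (forall_conj fun c hc => ⟨?_, ?_⟩)
    · exact (MA.stabL F hF).mul_mem ((MA.stabL F hF).mul_mem hg (hA c hc)) ((MA.stabL F hF).inv_mem hg)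
    · refine pres_maps (M := MA) h3 (fun f hf => lt f (List.mem_filter.1 hf).1)
        ((ry.pow b).append (rx.pow a)) fun f hf => ?_
      rw [List.mem_filter] at hf ⊢
      exact ⟨hA c hc f hf.1, (hφ c hc f (lt f hf.1)).trans hf.2⟩
  obtain ⟨f, hf⟩ := List.exists_mem_of_length_pos (l := F) (by omega)
  obtain ⟨p, hp, hc⟩ := exists_orbit (M := MA) A (lt f hf)
  have hinv : ∀ a ∈ A, ∀ i, i < 275 → p (MA.act a i) = p i := fun a ha =>
    orbit_inv (M := MA) (lt f hf) hp ha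
  have h1 := small p hinv
  have h3 := small (fun i => !p i) fun a ha i hi => by rw [hinv a ha i hi]
  have h4 := List.length_eq_length_filter_add (l := F) p
  have h5 : 0 < (F.filter p).length := List.length_pos_of_mem (List.mem_filter.2
    ⟨hf, (hp f).2 ⟨1, A.one_mem, MA.one f (lt f hf)⟩⟩)
  have h6 : cnt p MA.n = (F.filter p).length := by
    rw [cnt_eq, ← List.toFinset_card_of_nodup ((okL_spec hF).1.filter p)]
    congr 1
    ext i
    rw [Finset.mem_filter, Finset.mem_range, List.mem_toFinset, List.mem_filter]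
    refine ⟨fun e => ⟨?_, e.2⟩, fun e => ⟨lt i e.1, e.2⟩⟩
    obtain ⟨a, ha, rfl⟩ := (hp i).1 e.2
    exact hA a ha f hf
  rw [h6, show (F.filter p).length = 7 by omega] at hc
  exact no7 h.pair h2 (Dvd.intro _ hc)

theorem rz0 : MA.Rep z0 (mk z0) := RI (by simp only [List.mem_cons, true_or, or_true])
theorem rz1 : MA.Rep z1 (mk z1) := RI (by simp only [List.mem_cons, true_or, or_true])

theorem fixs_iff {w X : List ℕ} {g : T} (hw : MA.Ag w g) (hX : ∀ f ∈ X, f < 275) :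
    fixs w X = true ↔ ∀ f ∈ X, MA.act g f = f := by
  rw [fixs, List.all_eq_true]
  exact forall₂_congr fun f hf => by rw [Nat.beq_eq, ← hw f (hX f hf)]

theorem movs_iff {w X : List ℕ} {g : T} (hw : MA.Ag w g) (hX : ∀ f ∈ X, f < 275) :
    movs w X = true ↔ ∀ f ∈ X, MA.act g f ≠ f := by
  rw [movs, List.all_eq_true]
  exact forall₂_congr fun f hf => by
    rw [Bool.not_eq_true', ← Bool.not_eq_true, Nat.beq_eq, ← hw f (hX f hf)]

theorem four_local (h : IsMaxPair A B) {N : Subgroup T} (hAN : A ≤ normalizer (N : Set T))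
    (hp : ElemAb 2 N) (h0 : mk z0 ∈ N) (h1 : mk z1 ∈ N) : False := by
  have hX : ∀ i, i < 275 → (i ∈ X0 ↔ MA.act (mk z0) i = i) ∧ (i ∈ X1 ↔ MA.act (mk z1) i = i) ∧
      (i ∈ F11 ↔ i ∈ X0 ∧ i ∈ X1) := fun i hi => by
    have := allB_iff.1 cX i hi
    have e0 : lk z0 i = MA.act (mk z0) i := rz0 i hi
    have e1 : lk z1 i = MA.act (mk z1) i := rz1 i hi
    rw [Bool.and_eq_true, Bool.and_eq_true, beq_iff_eq, beq_iff_eq, beq_iff_eq] at this
    refine ⟨?_, ?_, ?_⟩
    · rw [← memL_iff, this.1, Nat.beq_eq, e0]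
    · rw [← memL_iff, this.2.1, Nat.beq_eq, e1]
    · rw [← memL_iff, this.2.2, Bool.and_eq_true, memL_iff, memL_iff]
  have pres : ∀ {z : T} {X : List ℕ}, z ∈ N → (∀ f ∈ X, f < 275) →
      (∀ i, i < 275 → (i ∈ X ↔ MA.act z i = i)) → ∀ n ∈ N, MA.PresL X (1 * n * 1⁻¹) := by
    intro z X hz lt hX n hn f hf
    rw [one_mul, inv_one, mul_one, hX _ (MA.lt _ _ (lt f hf)), ← MA.mul _ _ _ (lt f hf),
      hp.2.1 z hz n hn, MA.mul _ _ _ (lt f hf), (hX f (lt f hf)).1 hf]
  have ty : ∀ n ∈ N, (∀ f ∈ F11, MA.act n f = f) ∨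
      ((∀ f ∈ Fa, MA.act n f = f) ∧ ∀ f ∈ B4, MA.act n f ≠ f) ∨
      ((∀ f ∈ Fb, MA.act n f = f) ∧ ∀ f ∈ A4, MA.act n f ≠ f) := by
    intro n hn
    have p0 := pres h0 (X := X0) (by decide) (fun i hi => (hX i hi).1) n hn
    have p1 := pres h1 (X := X1) (by decide) (fun i hi => (hX i hi).2.1) n hn
    obtain ⟨w, hw, hQ⟩ := runR (M := MA) had dC complete qC rid rid p0 p1 p0 p1
    have e : pwB lk bs 2 w = true := pwB_of_pow base hw (hp.2.2 n hn)
    rwa [e, Bool.not_true, Bool.false_or, Bool.or_eq_true, Bool.or_eq_true, Bool.and_eq_true,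
      Bool.and_eq_true, fixs_iff hw (by decide), fixs_iff hw (by decide), fixs_iff hw (by decide),
      movs_iff hw (by decide), movs_iff hw (by decide)] at hQ
  have sub : ∀ i, i < 275 → MA.fx N i = true → i ∈ F11 := fun i hi e =>
    (hX i hi).2.2.2 ⟨(hX i hi).1.2 (fx_iff.1 e _ h0), (hX i hi).2.1.2 (fx_iff.1 e _ h1)⟩
  have fin : ∀ {F D : List ℕ}, (∀ f ∈ F, f < 275) → (∀ f ∈ F11, f ∈ F ∨ f ∈ D) →
      (∀ n ∈ N, ∀ f ∈ F, MA.act n f = f) → (∃ n ∈ N, ∀ f ∈ D, MA.act n f ≠ f) → ∀ a ∈ A, MA.PresL F a := by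
    intro F D lt h3 h4 ⟨n, hn, h5⟩ a ha
    exact presL_of (M := MA) lt (fun i hi => ⟨fun e => (h3 i (sub i hi e)).resolve_right
      fun e' => h5 i e' (fx_iff.1 e n hn), fun e => fx_iff.2 fun m hm => h4 m hm i e⟩)
      fun i hi => fx_act hAN ha hi
  have both : ∀ m ∈ N, ∀ n ∈ N, ((∀ f ∈ Fa, MA.act m f = f) ∧ ∀ f ∈ B4, MA.act m f ≠ f) →
      ((∀ f ∈ Fb, MA.act n f = f) ∧ ∀ f ∈ A4, MA.act n f ≠ f) → False := by
    intro m hm n hn c1 c2
    have e0 : MA.act (n * m) 0 ≠ 0 := by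
      rw [MA.mul _ _ _ (by norm_num), c1.1 0 (by decide)]; exact c2.2 0 (by decide)
    have e6 : MA.act (n * m) 6 ≠ 6 := by
      rw [hp.2.1 n hn m hm, MA.mul _ _ _ (by norm_num), c2.1 6 (by decide)]; exact c1.2 6 (by decide)
    rcases ty _ (N.mul_mem hn hm) with c | c | c
    exacts [e0 (c 0 (by decide)), e0 (c.1 0 (by decide)), e6 (c.1 6 (by decide))]
  by_cases ca : ∃ n ∈ N, (∀ f ∈ Fa, MA.act n f = f) ∧ ∀ f ∈ B4, MA.act n f ≠ f
  · obtain ⟨m, hm, c1⟩ := ca
    refine seven_pts h cSa (by decide) rfl (RI (by simp only [List.mem_cons, true_or, or_true]))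
      (RI (by simp only [List.mem_cons, true_or, or_true]))
      (fun h hA _ hr hd => killM kFa h (fun a ha => ⟨hA a ha, presL_nil a⟩) hr hd) (fun h j j0 j4 hA => ?_)
      (fin (D := B4) (by decide) (by decide) (fun n hn => ?_) ⟨m, hm, c1.2⟩)
    · interval_cases j
      exacts [kill1 kHa1 h hA, kill1 kHa2 h hA, kill1 kHa3 h hA]
    · rcases ty n hn with c | c | c
      exacts [fun f hf => c f ((by decide : ∀ f ∈ Fa, f ∈ F11) f hf), c.1, (both m hm n hn c1 c).elim]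
  by_cases cb : ∃ n ∈ N, (∀ f ∈ Fb, MA.act n f = f) ∧ ∀ f ∈ A4, MA.act n f ≠ f
  · obtain ⟨m, hm, c1⟩ := cb
    refine seven_pts h cSb (by decide) rfl (RI (by simp only [List.mem_cons, true_or, or_true]))
      (RI (by simp only [List.mem_cons, true_or, or_true]))
      (fun h hA _ hr hd => killM kFb h (fun a ha => ⟨hA a ha, presL_nil a⟩) hr hd) (fun h j j0 j4 hA => ?_)
      (fin (D := A4) (by decide) (by decide) (fun n hn => ?_) ⟨m, hm, c1.2⟩)
    · interval_cases j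
      exacts [kill1 kHb1 h hA, kill1 kHb2 h hA, kill1 kHb3 h hA]
    · rcases ty n hn with c | c | c
      exacts [fun f hf => c f ((by decide : ∀ f ∈ Fb, f ∈ F11) f hf), (ca ⟨n, hn, c⟩).elim, c.1]
  refine kill1 kV h.pair fun a ha => ⟨fin (D := []) (by decide) (fun f hf => Or.inl hf) (fun n hn => ?_)
    ⟨1, N.one_mem, fun _ hf => absurd hf List.not_mem_nil⟩ a ha, presL_nil a⟩
  exact ((ty n hn).resolve_right fun c => c.elim (fun c => ca ⟨n, hn, c⟩) fun c => cb ⟨n, hn, c⟩)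

theorem two_local (h : IsMaxPair A B) {N : Subgroup T} (hN0 : N ≠ ⊥)
    (hAN : A ≤ normalizer (N : Set T)) (hp : ElemAb 2 N) : False := by
  have hc := cZ
  simp only [Bool.and_eq_true, Bool.not_eq_true', Nat.beq_eq] at hc
  obtain ⟨c1, c2, c3, c4, c5, c6, c7, c8, c9, c10, c11, c12, c13, c14, c15⟩ := hc
  have r5 : MA.Rep z5 (mk z5) := RI (by simp only [List.mem_cons, true_or, or_true])
  have r4 : MA.Rep z4 (mk z4) := RI (by simp only [List.mem_cons, true_or, or_true])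
  have sq : ∀ {P : ℕ} {g : T}, MA.Rep P g → pwB lk bs 2 [P] = true → g * g = 1 := fun r c =>
    (pow_two _).symm.trans (pow_of_pwB base r.ag c)
  have n1 : ∀ {P : ℕ} {g : T}, MA.Rep P g → eqB lk bs [P] [] = false → g ≠ 1 := fun r c =>
    ne_of_eqB base r.ag NA.ag_nil c
  obtain ⟨L⟩ := (TypeM.FactsMcL.facts iso_K0).2.2.2
  obtain ⟨L, hL⟩ := L.exists_rebase (sq rz0 c1) (n1 rz0 c2)
  obtain ⟨z, hz, hz1⟩ := exists_ne_one hN0
  have s2 : ∀ n ∈ N, n * n = 1 := fun n hn => (pow_two _).symm.trans (hp.2.2 n hn)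
  obtain ⟨g, hg⟩ := L.conj_of_involutions (s2 z hz) hz1 (sq rz0 c1) (n1 rz0 c2)
  have h' := h.conj g
  have hAN' := normalizer_conj hAN g
  have hp' := hp.conj g
  have h0 : mk z0 ∈ N.map (MulAut.conj g).toMonoidHom := ⟨z, hz, hg⟩
  generalize A.map (MulAut.conj g).toMonoidHom = A at h' hAN'
  generalize B.map (MulAut.conj g).toMonoidHom = B at h'
  generalize N.map (MulAut.conj g).toMonoidHom = N at hAN' hp' h0
  by_cases hu : ∃ u ∈ N, u ≠ 1 ∧ u ≠ mk z0
  · obtain ⟨u, hu, u1, u2⟩ := hu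
    obtain ⟨c, hc1, hc2⟩ := L.conj_in_centralizer (by norm_num) (r := u) (s := mk z1)
      (by rw [hL]; exact hp'.2.1 u hu _ h0)
      (by rw [hL]; exact eq_of_eqB base (rz1.ag2 rz0) (rz0.ag2 rz1) c6)
      ((pow_two _).symm.trans (hp'.2.2 u hu)) u1 (by rwa [hL]) (sq rz1 c3) (n1 rz1 c4)
      (by rw [hL]; exact ne_of_eqB base rz1.ag rz0.ag c5)
    rw [hL] at hc1
    exact four_local (h'.conj c) (normalizer_conj hAN' c) (hp'.conj c)
      ⟨_, h0, mul_inv_eq_iff_eq_mul.2 hc1⟩ ⟨u, hu, hc2⟩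
  obtain ⟨s, hs⟩ := L.conj_of_involutions (sq rz0 c1) (n1 rz0 c2) (sq r5 c7) (n1 r5 c8)
  obtain ⟨t, ht⟩ := L.conj_of_involutions (sq rz0 c1) (n1 rz0 c2) (sq r4 c9) (n1 r4 c10)
  refine false_of_cent h'.pair (z := mk z0) (s := s) (t := t) (fun a ha => ?_) ?_
  · refine mem_centralizer_singleton_iff.2 (mul_inv_eq_iff_eq_mul.1 ?_)
    by_contra hne
    exact hu ⟨_, conj_mem_of_le hAN' ha h0, conj_ne_one (n1 rz0 c2), hne⟩
  haveI : Fact (Nat.Prime 5) := ⟨Nat.prime_five⟩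
  have o5 : orderOf (mk z0 * mk z5) = 5 := orderOf_eq_prime (pow_of_pwB base (rz0.ag2 r5) c11)
    (ne_of_eqB base (rz0.ag2 r5) NA.ag_nil c12)
  have o4 : orderOf (mk z0 * mk z4) = 2 ^ (1 + 1) := orderOf_eq_prime_pow (fun e => by
    have : pwB lk bs 2 [z4, z0] = true := pwB_of_pow base (rz0.ag2 r4) e
    rw [c15] at this; exact absurd this (by decide)) (pow_of_pwB base (rz0.ag2 r4) c14)
  rw [hs, ht, cent4 o4, (cent5 o5).resolve_left fun e => ?_]
  · norm_num
  have := le_cnt (p := fun i => Nat.beq (MA.act (mk z0 * mk z5) i) i) (n := MA.n) {147} (by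
    intro i hi
    rw [Finset.mem_singleton.1 hi]
    exact ⟨by norm_num, Nat.beq_eq.mpr (((rz0.ag2 r5) 147 (by norm_num)).symm.trans c13)⟩)
  exact absurd (this.trans e.2.le) (by decide)

end Cfsg.Agent.SP.NegS.McL
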