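import Cfsg.Agent.H35.TI.McLCent
import Cfsg.Agent.H359.CT.McLClass

/-! # S5755, the row of `McL`: the centraliser of a central element of order five -/

set_option autoImplicit false

namespace Cfsg.Agent.SP.NegS.McL5

open Subgroup Cfsg.Agent.H35.TI Cfsg.Agent.H686.Odd.McL Cfsg.Agent.McLType.X275 Cfsg.Agent.McLType.Gens

theorem f1 {g : G1} (hg : g * c = c * g) (h : g ^ 5 = 1) :
    g ∈ zpowers c ∨ Nat.card (centralizer ({g} : Set G1)) = 25 := by
  by_cases e : g ∈ zpowers c
  · exact Or.inl e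
  · exact Or.inr ((card_cent_noncentral (mem_P5 hg (by
      rw [show 125 = 5 * 25 from rfl, pow_mul, h, one_pow])) e).trans card_a)

theorem P5_comm {g : G1} (hg : g ∈ P5) : g * c = c * g :=
  mem_centralizer_singleton_iff.1 (cent_c ▸ (le_sup_right : P5 ≤ _) hg)

theorem f2 {t : G1} (ht : t * t = 1) (hn : t ∈ normalizer ((zpowers c : Subgroup G1) : Set G1)) :
    t * c = c * t := by
  have ti : t⁻¹ = t := inv_eq_of_mul_eq_one_left ht
  have hP : ∀ g ∈ P5, t * g * t⁻¹ ∈ P5 := by
    intro g hg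
    obtain ⟨k, hk⟩ := (mem_normalizer_iff''.1 hn c).1 (mem_zpowers c)
    refine mem_P5 ?_ ?_
    · have h1 : Commute g (t⁻¹ * c * t) := by
        rw [← hk]; exact (show Commute g c from P5_comm hg).zpow_right k
      calc _ = t * (g * (t⁻¹ * c * t)) * t⁻¹ := by group
        _ = _ := by rw [h1.eq]; group
    · have h2 : g ^ 125 = 1 := by
        rw [← card_P5]; exact congrArg Subtype.val (pow_card_eq_one' (x := (⟨g, hg⟩ : P5)))
      rw [conj_pow, h2]; group
  let φ : P5 →* P5 :=
    { toFun := fun g => ⟨t * g * t⁻¹, hP g g.2⟩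
      map_one' := Subtype.ext (by simp)
      map_mul' := fun g h => Subtype.ext (by simp [mul_assoc]) }
  have hφ : Function.Involutive φ := fun g => Subtype.ext (by
    show t * (t * g * t⁻¹) * t⁻¹ = g
    calc _ = t * t * g * (t * t)⁻¹ := by group
      _ = _ := by rw [ht]; group)
  by_cases hf : MonoidHom.FixedPointFree φ
  · exfalso
    have : P5 ≤ centralizer ({a} : Set G1) := fun g hg => mem_centralizer_singleton_iff.2
      (congrArg Subtype.val (hf.commute_all_of_involutive hφ ⟨g, hg⟩ ⟨a, a_mem⟩))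
    have := card_dvd_of_le this
    rw [card_P5, card_a] at this
    norm_num at this
  · obtain ⟨g, hg⟩ := not_forall.1 hf
    obtain ⟨hg, hg1⟩ := Classical.not_imp.1 hg
    have h1 : t * g = g * t := mul_inv_eq_iff_eq_mul.1 (congrArg Subtype.val hg)
    by_cases e : (g : G1) ∈ zpowers c
    · have hd : orderOf (g : G1) ∣ 5 := order_c ▸ orderOf_dvd_of_mem_zpowers e
      have ho : orderOf (g : G1) = 5 := ((Nat.dvd_prime Nat.prime_five).1 hd).resolve_left fun h =>
        hg1 (Subtype.ext (orderOf_eq_one_iff.1 h))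
      have he := eq_of_le_of_card_ge (zpowers_le.2 e)
        (by rw [Nat.card_zpowers, Nat.card_zpowers, ho, order_c])
      obtain ⟨k, hk⟩ := he.ge (mem_zpowers c)
      rw [← hk]
      exact ((show Commute t g from h1).zpow_right k).eq
    · have h2 := orderOf_dvd_natCard _ (mem_centralizer_singleton_iff.2 h1)
      rw [card_cent_noncentral g.2 e, card_a] at h2
      have h3 : orderOf t ∣ 2 := orderOf_dvd_of_pow_eq_one (by rw [pow_two, ht])
      rw [orderOf_eq_one_iff.1 (Nat.eq_one_of_dvd_coprimes (by norm_num) h2 h3), one_mul, mul_one]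

open Cfsg.Agent.H359.CT.McL in
/-- A central element of order five in the permutation model. -/
theorem exists_c : ∃ y : ↥K0, orderOf y = 5 ∧ Nat.card (centralizer ({y} : Set ↥K0)) = 750 ∧
    (∀ g, g * y = y * g → g ^ 5 = 1 → g ∈ zpowers y ∨ Nat.card (centralizer ({g} : Set ↥K0)) = 25) ∧
    ∀ t, t * t = 1 → t ∈ normalizer ((zpowers y : Subgroup ↥K0) : Set ↥K0) → t * y = y * t := by
  have hc : ∀ g : G1, Nat.card (centralizer ({eK0 g} : Set ↥K0)) = Nat.card (centralizer ({g} : Set G1)) :=
    fun g => (Nat.card_congr (eK0.toEquiv.subtypeEquiv fun x => by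
      simp only [mem_centralizer_singleton_iff, MulEquiv.toEquiv_eq_coe, EquivLike.coe_coe, ← map_mul,
        EmbeddingLike.apply_eq_iff_eq])).symm
  have hz : ∀ g : G1, eK0 g ∈ zpowers (eK0 c) ↔ g ∈ zpowers c := fun g => by
    simp only [mem_zpowers_iff, ← map_zpow, EmbeddingLike.apply_eq_iff_eq]
  refine ⟨eK0 c, (eK0.orderOf_eq c).trans order_c, (hc c).trans card_c, fun g h1 h2 => ?_,
    fun t h1 h2 => ?_⟩
  · obtain ⟨g, rfl⟩ := eK0.surjective g
    rw [hz, hc]
    exact f1 (eK0.injective (by simpa using h1)) (eK0.injective (by simpa using h2))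
  · obtain ⟨t, rfl⟩ := eK0.surjective t
    rw [← map_mul, ← map_mul, f2 (eK0.injective (by simpa using h1)) (mem_normalizer_iff.2 fun g => by
      rw [← hz, ← hz, map_mul, map_mul, map_inv]
      exact mem_normalizer_iff.1 h2 _)]

end Cfsg.Agent.SP.NegS.McL5
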