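import Cfsg.Agent.SP.NegS.McLC
import Cfsg.Agent.SP.NegS.Eng3
import Cfsg.Agent.SP.NegS.McL5F
import Cfsg.Agent.H41.McLTwo.Ords
import Cfsg.Agent.TypeM.FactsMcL

/-! # S5755, the row of `McL`: classes, counting bounds, the primes `5`, `7`, `11` -/

set_option autoImplicit false
set_option linter.style.haveILetI false

namespace Cfsg.Agent.SP.NegS.McL

open Subgroup Cfsg.Agent.SP Cfsg.Agent.SP.NegS Cfsg.Agent.SP.NegS.Eng
open Cfsg.Agent.H359.CT Cfsg.Agent.H359.CT.McL Cfsg.Agent.H41.McLTwo.Ords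

theorem simpleT : IsSimpleGroup T := (TypeM.FactsMcL.facts iso_K0).2.1

theorem card_dvd (S : Subgroup T) : Nat.card S ∣ 898128000 := cardT ▸ card_subgroup_dvd_card S

theorem prime_cases {r : ℕ} (hr : r.Prime) (h : r ∣ 898128000) :
    r = 2 ∨ r = 3 ∨ r = 5 ∨ r = 7 ∨ r = 11 := by
  have h1 : r ∈ Nat.primeFactors 898128000 := Nat.mem_primeFactors.2 ⟨hr, h, by norm_num⟩
  have h2 : Nat.primeFactors 898128000 = {2, 3, 5, 7, 11} := by decide +kernel
  simpa [h2] using h1

theorem nfix_eq (g : T) : MA.nfix g = FP 1 (g : Equiv.Perm (Fin 275)) := by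
  delta NA.nfix FP
  rw [cnt_eq, pow_one]
  symm
  refine Finset.card_bij (fun i _ => (i : ℕ)) (fun i hi => ?_) (fun _ _ _ _ e => Fin.ext e) fun j hj => ?_
  · rw [Finset.mem_filter] at hi ⊢
    exact ⟨Finset.mem_range.2 i.2, by rw [act_eq, hi.2, Nat.beq_refl]⟩
  · rw [Finset.mem_filter, Finset.mem_range, Nat.beq_eq] at hj
    exact ⟨⟨j, hj.1⟩, Finset.mem_filter.2 ⟨Finset.mem_univ _,
      Fin.ext ((act_eq g ⟨j, hj.1⟩).symm.trans hj.2)⟩, rfl⟩

/-- The class of an element. -/
theorem cls (g : T) : ∃ i : Fin 18, orderOf g = og i ∧ Nat.card (centralizer ({g} : Set T)) = cs i ∧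
    MA.nfix g = (fpt.getD i []).getD 0 0 ∧ ∃ t, g = t * gs i * t⁻¹ ∨ g = t * (gs i)⁻¹ * t⁻¹ := by
  obtain ⟨j, hj⟩ := classes.1 g
  have h3 := FP_conj 1 (coe_conj hj)
  obtain ⟨t, rfl⟩ := isConj_iff.1 hj
  refine ⟨rc j, ?_, ?_, ?_, t, ?_⟩
  · have := orderOf_conj' t⁻¹ (xs j)
    rw [inv_inv] at this
    exact this.trans (order_xs j)
  · have := card_centralizer_conj t⁻¹ (xs j)
    rw [inv_inv] at this
    exact this.trans (classes.2 j)
  · rw [nfix_eq, ← h3]; exact FP_xs j 0
  · unfold xs; split_ifs <;> simp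

theorem ord_dvd {x : T} {r k a m : ℕ} (hk : x ^ r ^ k = 1) (e : 55440 = r ^ a * m) (hc : r.Coprime m) :
    orderOf x ∣ r ^ a := by
  obtain ⟨i, h1, -⟩ := cls x
  refine Nat.Coprime.dvd_of_dvd_mul_right ((hc.pow_left k).coprime_dvd_left
    (orderOf_dvd_of_pow_eq_one hk)) (e ▸ h1 ▸ og_dvd i)

theorem cent_le {x : T} {r k a m c : ℕ} (hk : x ^ r ^ k = 1) (e : 55440 = r ^ a * m) (hc : r.Coprime m)
    {d : ℕ} (hx : x ^ d ≠ 1) (h : ∀ i : Fin 18, og i ∣ r ^ a → og i ∣ d ∨ cs i ≤ c) :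
    Nat.card (centralizer ({x} : Set T)) ≤ c := by
  have h0 := ord_dvd hk e hc
  obtain ⟨i, h1, h2, -⟩ := cls x
  rw [h2]
  exact (h i (h1 ▸ h0)).resolve_left fun e => hx (orderOf_dvd_iff_pow_eq_one.1 (h1 ▸ e))

theorem cent_of_ord {x : T} {n : ℕ} (hx : orderOf x = n) {p : ℕ → ℕ → Prop}
    (h : ∀ i : Fin 18, og i = n → p (cs i) ((fpt.getD i []).getD 0 0)) :
    p (Nat.card (centralizer ({x} : Set T))) (MA.nfix x) := by
  obtain ⟨i, h1, h2, h3, -⟩ := cls x
  rw [h2, h3]; exact h i (h1 ▸ hx)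

theorem cent5 {x : T} (hx : orderOf x = 5) : (Nat.card (centralizer ({x} : Set T)) = 750 ∧ MA.nfix x = 0) ∨
    Nat.card (centralizer ({x} : Set T)) = 25 :=
  cent_of_ord hx (p := fun c f => (c = 750 ∧ f = 0) ∨ c = 25) (by decide)

theorem cent7 {x : T} (hx : orderOf x = 7) : Nat.card (centralizer ({x} : Set T)) = 14 :=
  cent_of_ord hx (p := fun c _ => c = 14) (by decide)

theorem cent4 {x : T} (hx : orderOf x = 4) : Nat.card (centralizer ({x} : Set T)) = 96 :=
  cent_of_ord hx (p := fun c _ => c = 96) (by decide)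

theorem norm7 {x : T} (hx : orderOf x = 7) :
    Nat.card (normalizer ((zpowers x : Subgroup T) : Set T)) = 42 :=
  (H904.McLCent.seven iso_K0 _ (by rw [Nat.card_zpowers, hx])).2

theorem norm11 {x : T} (hx : orderOf x = 11) :
    Nat.card (normalizer ((zpowers x : Subgroup T) : Set T)) = 55 :=
  (H904.McLCent.eleven iso_K0 _ (by rw [Nat.card_zpowers, hx])).2

theorem not_sq {q : ℕ} (hq : q = 7 ∨ q = 11) (S : Subgroup T) : ¬ q ^ 2 ∣ Nat.card S := fun h => by
  have := h.trans (card_dvd S)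
  rcases hq with rfl | rfl <;> norm_num at this

/-- the class `5A` -/
theorem fiveA {y : T} (hy : orderOf y = 5) (hc : Nat.card (centralizer ({y} : Set T)) = 750) :
    (∀ g, g * y = y * g → g ^ 5 = 1 → g ∈ zpowers y ∨ Nat.card (centralizer ({g} : Set T)) = 25) ∧
    ∀ t, t * t = 1 → t ∈ normalizer ((zpowers y : Subgroup T) : Set T) → t * y = y * t := by
  obtain ⟨c, c1, c2, c3, c4⟩ := McL5.exists_c
  have key : ∀ y : T, orderOf y = 5 → Nat.card (centralizer ({y} : Set T)) = 750 → IsConj (xs 5) y := by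
    intro y h1 h2
    obtain ⟨j, hj⟩ := classes.1 y
    obtain ⟨t, rfl⟩ := isConj_iff.1 hj
    have e1 := orderOf_conj' t⁻¹ (xs j)
    have e2 := card_centralizer_conj t⁻¹ (xs j)
    rw [inv_inv] at e1 e2
    rw [e1, order_xs] at h1
    rw [e2, classes.2] at h2
    have : ∀ j : Fin 24, cc j = 750 → j = 5 := by decide
    rwa [← this j h2]
  obtain ⟨s, rfl⟩ := isConj_iff.1 ((key c c1 c2).symm.trans (key y hy hc))
  have hz : ∀ g : T, g ∈ zpowers (s * c * s⁻¹) ↔ s⁻¹ * g * s ∈ zpowers c := fun g => by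
    simp only [mem_zpowers_iff, conj_zpow]
    exact exists_congr fun k => ⟨fun e => by rw [← e]; group, fun e => by rw [e]; group⟩
  refine ⟨fun g h1 h2 => ?_, fun t h1 h2 => ?_⟩
  · rw [hz, ← card_centralizer_conj s g]
    refine c3 _ ?_ (by rw [← conj_pow', h2]; group)
    calc _ = s⁻¹ * (g * (s * c * s⁻¹)) * s := by group
      _ = _ := by rw [h1]; group
  · have := c4 (s⁻¹ * t * s) (by
      calc _ = s⁻¹ * (t * t) * s := by group
        _ = _ := by rw [h1]; group) (mem_normalizer_iff.2 fun g => by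
      have := mem_normalizer_iff.1 h2 (s * g * s⁻¹)
      rw [hz, hz] at this
      convert this using 2 <;> group)
    calc _ = s * (s⁻¹ * t * s * c) * s⁻¹ := by group
      _ = _ := by rw [this]; group

variable {A B : Subgroup T}

theorem lower (h : IsPair A B) {r : ℕ} (hr : r.Prime) (hd : r ∣ B.relIndex A) :
    (r = 2 ∧ 150 ≤ (outElems A B r).ncard) ∨ (r = 3 ∧ 249 ≤ (outElems A B r).ncard) ∨
      (r = 5 ∧ 2189 ≤ (outElems A B r).ncard) ∨ 19620 ≤ (outElems A B r).ncard := by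
  rcases prime_cases hr ((hd.trans (relIndex_dvd h.le)).trans (card_dvd A)) with
    rfl | rfl | rfl | rfl | rfl
  · have := count_c h hr hd (c := 40320) fun x hx k hk => cent_le hk (a := 4) (m := 3465) (d := 1) rfl
      (by norm_num) (by rwa [pow_one]) (by decide)
    rw [cardT] at this
    left; refine ⟨rfl, ?_⟩; by_contra hn; nlinarith
  · have := count_c h hr hd (c := 29160) fun x hx k hk => cent_le hk (a := 2) (m := 6160) (d := 1) rfl
      (by norm_num) (by rwa [pow_one]) (by decide)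
    rw [cardT] at this
    right; left; refine ⟨rfl, ?_⟩; by_contra hn; nlinarith
  · have := count_c h hr hd (c := 750) fun x hx k hk => cent_le hk (a := 1) (m := 11088) (d := 1) rfl
      (by norm_num) (by rwa [pow_one]) (by decide)
    rw [cardT] at this
    right; right; left; refine ⟨rfl, ?_⟩; by_contra hn; nlinarith
  · have := count_c h hr hd (c := 14) fun x hx k hk => cent_le hk (a := 1) (m := 7920) (d := 1) rfl
      (by norm_num) (by rwa [pow_one]) (by decide)
    rw [cardT] at this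
    right; right; right; by_contra hn; nlinarith
  · have := count_c h hr hd (c := 11) fun x hx k hk => cent_le hk (a := 1) (m := 5040) (d := 1) rfl
      (by norm_num) (by rwa [pow_one]) (by decide)
    rw [cardT] at this
    right; right; right; by_contra hn; nlinarith

theorem card_ge (h : IsPair A B) : 150 ≤ Nat.card A := by
  obtain ⟨r, hr, hd⟩ := h.exists_prime
  have h1 := lower h hr hd
  have h3 := ncard_add_le h.le (out_sub (A := A) (B := B) (r := r))
  omega

/-- Index two: involutions and other `2`-elements outside `B`. -/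
theorem two_count (h : IsPair A B) (h2 : B.relIndex A = 2) {a b : ℕ}
    (ha : {x | (x ∈ A ∧ x ∉ B) ∧ x * x = 1}.ncard ≤ a) (hb : Nat.card B ≤ b) :
    898128000 ≤ a ^ 2 * 40320 + b ^ 2 * 96 := by
  classical
  have h12 := card_mul_relIndex h.le
  have := h.count_out Nat.prime_two (h2 ▸ dvd_rfl) (fun x => decide (x * x = 1))
    (fun x _ t => decide_eq_decide.2 (by
      rw [show t⁻¹ * x * t * (t⁻¹ * x * t) = t⁻¹ * (x * x) * t⁻¹⁻¹ by group]
      exact ⟨fun e => by_contra fun hne => conj_ne_one hne e, fun e => by rw [e]; simp⟩))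
    (fun c => cond c a b) (fun c => cond c 40320 96) (fun c => ?_) fun x hx => ?_
  · rw [cardT] at this; simpa using this
  · cases c
    · have := ncard_le_of_two h.le h2
        (Y := {x ∈ outElems A B 2 | decide (x * x = 1) = false}) fun x hx => out_sub x hx.1
      rw [h2] at h12
      simp only [cond_false]; omega
    · refine le_trans (Set.ncard_le_ncard fun x hx => ?_) ha
      exact ⟨out_sub x hx.1, of_decide_eq_true hx.2⟩
  · obtain ⟨-, hxB, k, hk⟩ := hx
    by_cases e : x * x = 1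
    · simpa [e] using cent_le hk (a := 4) (m := 3465) (d := 1) (c := 40320) rfl (by norm_num)
        (fun e => hxB (by rw [pow_one] at e; exact e ▸ B.one_mem)) (by decide)
    · simpa [e] using cent_le hk (a := 4) (m := 3465) (d := 2) (c := 96) rfl (by norm_num)
        (by rwa [pow_two]) (by decide)

theorem two_count' (h : IsPair A B) (h2 : B.relIndex A = 2) {g : T} (hg : g ∈ B) {p a b : ℕ}
    (hp : p.Prime) (ho : orderOf g = p) (hb : Nat.card B ≤ b)
    (ha : b + (p - 1) * Nat.card (centralizer ({g} : Set T)) < p * (a + 1)) :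
    898128000 ≤ a ^ 2 * 40320 + b ^ 2 * 96 := by
  refine two_count h h2 ?_ hb
  have h12 := card_mul_relIndex h.le
  have h13 := ncard_le_of_two h.le h2 (Y := {x | x ∈ A ∧ x ∉ B}) fun x hx => hx
  have := invol_count (X := {x | x ∈ A ∧ x ∉ B}) (I := {x | (x ∈ A ∧ x ∉ B) ∧ x * x = 1}) hp ho
    (fun x hx => ⟨A.mul_mem hx.1 (h.le hg), fun hb => hx.2 (by
      simpa using B.mul_mem hb (B.inv_mem hg))⟩) fun x hx => hx
  rw [h2] at h12
  exact Nat.lt_add_one_iff.1 (Nat.lt_of_mul_lt_mul_left (a := p) (by omega))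

/-- The normaliser of a group of type `5A`. -/
theorem norm5A (h : IsMaxPair A B) {y : T} (hy : orderOf y = 5) (hyB : y ∈ B)
    (hc : Nat.card (centralizer ({y} : Set T)) = 750)
    (hA : A ≤ normalizer ((zpowers y : Subgroup T) : Set T)) : False := by
  have hC : ∀ x ∈ (centralizer ({y} : Set T) : Set T), x * y ∈ (centralizer ({y} : Set T) : Set T) :=
    fun x hx => mul_mem hx (mem_centralizer_singleton_iff.2 rfl)
  have hcs : (centralizer ({y} : Set T) : Set T).ncard = 750 := hc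
  have h1 := card_le_one hA (mem_zpowers y) fun e => by rw [e, orderOf_one] at hy; omega
  have h0 : Nat.card (A ⊓ centralizer ({y} : Set T) : Subgroup T) ≤ 750 :=
    hc ▸ card_le_of_le inf_le_right
  rw [Nat.card_zpowers, hy] at h1
  have h12 := card_mul_relIndex h.pair.le
  rcases two_or_odd h with h2 | ⟨r, hr, h2, hd⟩
  · rw [h2] at h12
    have h3 := mul_ncard_le (X := {x | (x ∈ A ∧ x ∉ B) ∧ x ∈ centralizer ({y} : Set T)})
      (Y := {x | (x ∈ A ∧ x ∉ B) ∧ x * x = 1}) (m := 2) hy (by norm_num)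
      (fun x hx => ⟨⟨A.mul_mem hx.1.1 (h.pair.le hyB), fun hb => hx.1.2 (by
        simpa using B.mul_mem hb (B.inv_mem hyB))⟩, hC x hx.2⟩) fun x hx => by
      have := mem_centralizer_singleton_iff.2 ((fiveA hy hc).2 x hx.2 (hA hx.1.1))
      exact ⟨⟨hx.1, this⟩, by rw [pow_two]; exact hx.2, this⟩
    have h4 : 2 * {x | (x ∈ A ∧ x ∉ B) ∧ x ∈ centralizer ({y} : Set T)}.ncard ≤ 750 := by
      rcases Set.eq_empty_or_nonempty {x | (x ∈ A ∧ x ∉ B) ∧ x ∈ centralizer ({y} : Set T)} with e | ⟨z, hz⟩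
      · rw [e]; simp
      · have h5 := ncard_add_le (A := centralizer ({y} : Set T)) (B := B ⊓ centralizer ({y} : Set T))
          inf_le_right (Y := {x | (x ∈ A ∧ x ∉ B) ∧ x ∈ centralizer ({y} : Set T)})
          fun x hx => ⟨hx.2, fun e => hx.1.2 e.1⟩
        have h6 : {x | (x ∈ A ∧ x ∉ B) ∧ x ∈ centralizer ({y} : Set T)}.ncard ≤
            Nat.card (B ⊓ centralizer ({y} : Set T) : Subgroup T) :=
          Set.ncard_le_ncard_of_injOn (t := ((B ⊓ centralizer ({y} : Set T) : Subgroup T) : Set T))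
            (fun x => x * z) (fun x hx =>
              ⟨mul_mem_of_two h2 hx.1.1 hz.1.1 hx.1.2 hz.1.2, mul_mem hx.2 hz.2⟩)
            fun _ _ _ _ e => mul_right_cancel e
        omega
    have := two_count h.pair h2 (a := 75) (b := 1500) (by omega) (by omega)
    omega
  · have h3 := ncard_add_le h.pair.le (out_sub (A := A) (B := B) (r := r))
    have h4 : ∀ x ∈ outElems A B r, x ∈ centralizer ({y} : Set T) := fun x ⟨hx, _, k, hk⟩ =>
      cent_of_coprime Nat.prime_five hy (hA hx) hk (Nat.Coprime.pow 2 k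
        ((Nat.coprime_primes Nat.prime_two hr).2 h2.symm))
    rcases lower h.pair hr hd with h5 | ⟨rfl, h5⟩ | ⟨rfl, h5⟩ | h5
    · exact h2 h5.1
    · have := mul_ncard_le (Y := outElems A B 3) (m := 9) hy (by norm_num) hC fun x hx =>
        ⟨h4 x hx, orderOf_dvd_iff_pow_eq_one.1 (ord_dvd hx.2.2.choose_spec (a := 2) (m := 6160) rfl
          (by norm_num)), h4 x hx⟩
      omega
    · have := ncard_le_card_subgroup h4
      omega
    · omega

theorem exists_sylow_mem {y : T} {p k : ℕ} (hp : p.Prime) (hy : orderOf y = p)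
    (hk : (898128000 : ℕ).factorization p = k) : ∃ P : Subgroup T, y ∈ P ∧ Nat.card P = p ^ k := by
  haveI := Fact.mk hp
  obtain ⟨P, hP⟩ := (isPGroup_zpowers (r := p) (k := 1) (y := y)
    (by rw [pow_one, ← hy, pow_orderOf_eq_one])).exists_le_sylow
  exact ⟨P, hP (mem_zpowers y), by rw [P.card_eq_multiplicity, cardT, hk]⟩

theorem five_local (h : IsMaxPair A B) {N : Subgroup T} (hNB : N ≤ B) (hN0 : N ≠ ⊥)
    (hAN : A ≤ normalizer (N : Set T)) (hp : ElemAb 5 N) : False := by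
  haveI : Fact (Nat.Prime 5) := ⟨Nat.prime_five⟩
  have ho : ∀ y ∈ N, y ≠ 1 → orderOf y = 5 := fun y hy h1 => orderOf_eq_prime (hp.2.2 y hy) h1
  by_cases hc : ∃ y ∈ N, y ≠ 1 ∧ Nat.card (centralizer ({y} : Set T)) = 750
  · obtain ⟨y, hy, h1, hc⟩ := hc
    refine norm5A h (ho y hy h1) (hNB hy) hc fun a ha => mem_normalizer_fintype ?_
    rintro _ ⟨k, rfl⟩
    have h2 := conj_mem_of_le hAN ha hy
    have h3 := card_centralizer_conj a⁻¹ y
    rw [inv_inv, hc] at h3
    have h4 := ((fiveA (ho y hy h1) hc).1 _ (hp.2.1 _ h2 y hy) (hp.2.2 _ h2)).resolve_right (by omega)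
    simp only
    rw [← conj_zpow]; exact zpow_mem h4 k
  have h25 : ∀ y ∈ N, y ≠ 1 → Nat.card (centralizer ({y} : Set T)) = 25 := fun y hy h1 =>
    (cent5 (ho y hy h1)).resolve_left fun e => hc ⟨y, hy, h1, e.1⟩
  obtain ⟨y, hy, h1⟩ := exists_ne_one hN0
  have hle : N ≤ centralizer ({y} : Set T) := fun n hn =>
    mem_centralizer_singleton_iff.2 (hp.2.1 n hn y hy)
  have h2 := card_le_one hAN hy h1
  have h3 : Nat.card (A ⊓ centralizer ({y} : Set T) : Subgroup T) ≤ 25 :=
    h25 y hy h1 ▸ card_le_of_le inf_le_right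
  have h4 := card_ge h.pair
  have h5 : Nat.card N ∣ 5 ^ 2 := (card_dvd_of_le hle).trans (by rw [h25 y hy h1]; norm_num)
  obtain ⟨k, hk, e⟩ := (Nat.dvd_prime_pow Nat.prime_five).1 h5
  have h6 := Nat.mul_le_mul_left (Nat.card N - 1) h3
  interval_cases k
  · rw [e] at h2; omega
  · rw [e] at h2; omega
  have h7 := eq_of_le_of_card_ge hle (by rw [e, h25 y hy h1]; norm_num)
  obtain ⟨P, hP, hc⟩ := exists_sylow_mem (k := 3) Nat.prime_five (ho y hy h1) (by decide +kernel)
  obtain ⟨n, -, hn1, hn⟩ := exists_cent (D := P) (N := P) Nat.prime_five (IsPGroup.of_card hc)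
    le_normalizer (by rw [hc]; norm_num)
  have h8 := card_dvd_of_le hn
  rw [hc, h25 n (h7.ge (mem_centralizer_singleton_iff.2
    (mem_centralizer_singleton_iff.1 (hn hP)).symm)) hn1] at h8
  norm_num at h8

theorem big_local (h : IsPair A B) {N : Subgroup T} (hN0 : N ≠ ⊥)
    (hAN : A ≤ normalizer (N : Set T)) {p : ℕ} (hq : p = 7 ∨ p = 11) (hp : ElemAb p N) : False := by
  haveI := Fact.mk hp.1
  obtain ⟨y, hy, h1⟩ := exists_ne_one hN0
  have ho : orderOf y = p := orderOf_eq_prime (hp.2.2 y hy) h1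
  obtain ⟨k, hk⟩ := IsPGroup.iff_card.1 hp.isPGroup
  have h2 : k ≤ 1 := by
    by_contra hlt
    exact not_sq hq N (hk ▸ pow_dvd_pow p (by omega))
  have h3 := eq_of_le_of_card_ge (zpowers_le.2 hy) (by
    rw [Nat.card_zpowers, ho, hk]
    exact (Nat.pow_le_pow_right hp.1.pos h2).trans (pow_one p).le)
  have h4 := (card_ge h).trans (card_le_of_le hAN)
  rw [← h3] at h4
  rcases hq with rfl | rfl
  · rw [norm7 ho] at h4; omega
  · rw [norm11 ho] at h4; omega

end Cfsg.Agent.SP.NegS.McL
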