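import Cfsg.Agent.SP.NegS.McLD
import Cfsg.Agent.SP.NegS.McLF

/-! # S5755, the row of `McL`: index two and order divisible by seven -/

set_option autoImplicit false
set_option linter.style.haveILetI false

namespace Cfsg.Agent.SP.NegS.McL

open Subgroup Cfsg.Agent.SP Cfsg.Agent.SP.NegS Cfsg.Agent.SP.NegS.Eng
open Cfsg.Agent.H359.CT.McL Cfsg.Agent.H41.McLTwo.Ords
open Cfsg.Agent.SporadicA.PermTab (lk)

theorem RI {P : ℕ} (h : P ∈ [dg, dy, dcu, dcv, z0, z1, z5, z4, hxa, hya, hxb, hyb, x7, m7, z7, s7a, s7b]) :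
    MA.Rep P (mk P) := R (List.all_eq_true.1 cIn P h)

theorem rx7 : MA.Rep x7 (mk x7) := RI (by simp only [List.mem_cons, true_or, or_true])
theorem rm7 : MA.Rep m7 (mk m7) := RI (by simp only [List.mem_cons, true_or, or_true])
theorem rz7 : MA.Rep z7 (mk z7) := RI (by simp only [List.mem_cons, true_or, or_true])
theorem rsa : MA.Rep s7a (mk s7a) := RI (by simp only [List.mem_cons, true_or, or_true])
theorem rsb : MA.Rep s7b (mk s7b) := RI (by simp only [List.mem_cons, true_or, or_true])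

theorem ord_x7 : orderOf (mk x7) = 7 := by
  have h := cS
  simp only [Bool.and_eq_true, Bool.not_eq_true'] at h
  haveI : Fact (Nat.Prime 7) := ⟨by norm_num⟩
  exact orderOf_eq_prime (pow_of_pwB base rx7.ag h.1) (ne_of_eqB base rx7.ag NA.ag_nil h.2.1)

theorem cle (y : T) {p q : ℕ → Bool} (h : ∀ i, i < 275 → p i = true → q (MA.act y i) = true) :
    cnt p 275 ≤ cnt q 275 := cnt_le (M := MA) y h

variable {A B : Subgroup T}

/-- The search. -/
theorem seven_search (h : IsPair A B) (h2 : B.relIndex A = 2) (hx : mk x7 ∈ B) (hm : mk m7 ∈ B)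
    (hz : mk z7 ∈ A) (hzB : mk z7 ∉ B) (hdis : ∀ β ∈ B, MA.act β 99 ≠ 163) : False := by
  have hS := cS
  simp only [Bool.and_eq_true, Bool.not_eq_true', Nat.beq_eq] at hS
  obtain ⟨-, -, -, -, -, -, -, s1, s2, -⟩ := hS
  have l99 : 99 < MA.n := by norm_num
  obtain ⟨p, hp, -⟩ := exists_orbit (M := MA) B l99
  have hinv : ∀ g ∈ B, ∀ i, i < 275 → p (MA.act g i) = p i := fun g hg =>
    orbit_inv (M := MA) l99 hp hg
  have rz7 := rz7
  generalize mk z7 = z at rz7 hz hzB
  have z99 : MA.act z 99 = 163 := (rz7 99 l99).symm.trans s1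
  have out : ∀ y ∈ A, y ∉ B → ∀ i, i < 275 → p (MA.act y i) = p (MA.act z i) := by
    intro y hy hyB i hi
    have := hinv _ (mul_mem_of_two h2 hy (A.inv_mem hz) hyB fun e => hzB (by simpa using e)) _
      (MA.lt z i hi)
    rwa [← MA.mul _ _ _ hi, inv_mul_cancel_right] at this
  have nb2 : ∀ i, i < 275 → p i = false ∨ p (MA.act z i) = false := by
    intro i hi
    by_contra hn
    rw [not_or, Bool.not_eq_false, Bool.not_eq_false] at hn
    obtain ⟨b1, hb1, e1⟩ := (hp _).1 hn.1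
    obtain ⟨b2, hb2, e2⟩ := (hp _).1 hn.2
    refine hdis _ (B.mul_mem (B.inv_mem (h.conj_mem hz hb1)) hb2) ?_
    have l163 : 163 < MA.n := by norm_num
    have e3 : MA.act (z * b1 * z⁻¹) 163 = MA.act z i := by
      rw [MA.mul _ _ _ l163, ← z99, NA.act_inv z l99, MA.mul _ _ _ l99, e1]
    rw [MA.mul _ _ _ l99, e2, ← e3, NA.act_inv _ l163]
  let γ : ℕ → Bool := fun c => p (lk r7 c)
  have hγ : ∀ i, i < 275 → lk c7 i < 23 ∧ γ (lk c7 i) = p i := by
    intro i hi
    have h1 := allB_iff.1 cO i hi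
    simp only [Bool.and_eq_true, Nat.blt_eq, List.any_eq_true, Nat.beq_eq] at h1
    obtain ⟨h3, h4, b, -, a, -, h5⟩ := h1
    obtain ⟨h6, h7⟩ := iter_inv (M := MA) rm7 (hinv _ hm) h4 b
    exact ⟨h3, (h5 ▸ ((iter_inv (M := MA) rx7 (hinv _ hx) h6 a).2.trans h7)).symm⟩
  have hP := cP
  simp only [Bool.and_eq_true, allB_iff, Nat.blt_eq, Nat.beq_eq] at hP
  have pz : ∀ c d, lk r7 c < 275 → lk c7 (lk z7 (lk r7 c)) = d → γ c = false ∨ γ d = false := by
    intro c d h1 h3
    have e : lk z7 (lk r7 c) = MA.act z (lk r7 c) := rz7 _ h1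
    rw [← h3, e, (hγ _ (MA.lt _ _ h1)).2]
    exact nb2 _ h1
  have g18 : γ 18 = true := by
    show p (lk r7 18) = true
    rw [s2]; exact (hp _).2 ⟨1, B.one_mem, MA.one _ l99⟩
  have g19 : ∀ c, 19 ≤ c → c < 23 → γ c = false := by
    intro c h1 h3
    rcases h1.eq_or_lt with rfl | h1
    · exact (pz 18 19 (hP.1 9 (by norm_num)).1 (hP.1 9 (by norm_num)).2).resolve_left (by simp [g18])
    · obtain ⟨k, rfl⟩ := Nat.exists_eq_add_of_le h1
      exact (pz _ _ (hP.2 k (by omega)).1 (hP.2 k (by omega)).2).elim id id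
  -- the six blocks
  have blkE : ∀ (k : ℕ) (g : T), k < 6 →
      MA.Ag ([[], [z7], [s7a], [s7a, z7], [s7b], [s7b, z7]].getD k []) g → ∀ i, i < 275 →
      F7 (9 * i + k) = lk c7 (MA.act g i) := by
    intro k g hk hg i hi
    rw [F7, show (9 * i + k) % 9 = k by omega, show (9 * i + k) / 9 = i by omega, Nat.blt_eq.mpr hk,
      cond_true]
    exact congrArg (lk c7) (hg i hi)
  have a0 := blkE 0 1 (by norm_num) NA.ag_nil
  have a1 := blkE 1 _ (by norm_num) rz7.ag
  have a2 := blkE 2 _ (by norm_num) rsa.ag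
  have a3 := blkE 3 _ (by norm_num) (rz7.ag2 rsa)
  have a4 := blkE 4 _ (by norm_num) rsb.ag
  have a5 := blkE 5 _ (by norm_num) (rz7.ag2 rsb)
  have hF : ∀ j, j < 9 * 275 → F7 j < 23 := by
    intro j hj
    have e : j = 9 * (j / 9) + j % 9 := (Nat.div_add_mod j 9).symm
    have hi : j / 9 < 275 := by omega
    by_cases h6 : j % 9 < 6
    · generalize j % 9 = k at e h6
      rw [e]
      interval_cases k
      exacts [a0 _ hi ▸ (hγ _ (MA.lt _ _ hi)).1, a1 _ hi ▸ (hγ _ (MA.lt _ _ hi)).1,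
        a2 _ hi ▸ (hγ _ (MA.lt _ _ hi)).1, a3 _ hi ▸ (hγ _ (MA.lt _ _ hi)).1,
        a4 _ hi ▸ (hγ _ (MA.lt _ _ hi)).1, a5 _ hi ▸ (hγ _ (MA.lt _ _ hi)).1]
    · rw [F7, Bool.eq_false_iff.2 fun e => h6 (Nat.blt_eq.mp e), cond_false]
      omega
  have hM : ∀ c, c < 19 → ms7.getD c 0 = V (fun i => Nat.beq (F7 i) c) (9 * 275) := fun c hc =>
    Nat.eq_of_beq_eq_true (allB_iff.1 cM c hc)
  have hl := dfs_spec (γ := γ) 9 _ (fun c hc => hM c (by omega))
    (fun k hk => pz _ _ (hP.1 k (by omega)).1 (hP.1 k (by omega)).2)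
    ((hM 18 (by norm_num)).trans (V_congr fun j hj => by
      have := hF j hj
      generalize F7 j = c at this
      rcases lt_trichotomy c 18 with e | rfl | e
      · rw [nb e.ne, decide_eq_false (by omega), Bool.and_false]
      · rw [g18]; rfl
      · rw [nb e.ne', g19 c e this, Bool.false_and])) cF
  have cn : ∀ {a b : ℕ} {g t : T}, a < 9 → b < 9 → (∀ i, i < 275 → F7 (9 * i + a) = lk c7 (MA.act g i)) →
      (∀ i, i < 275 → F7 (9 * i + b) = lk c7 (MA.act t i)) →
      blk one7 (V (fun i => γ (F7 i)) (9 * 275)) a b =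
        cnt (fun i => p (MA.act g i) && p (MA.act t i)) 275 := by
    intro a b g t ha hb h1 h3
    rw [cW, blk_V _ (by norm_num) ha hb]
    exact cnt_congr fun i hi => by
      rw [h1 i hi, h3 i hi, (hγ _ (MA.lt _ _ hi)).2, (hγ _ (MA.lt _ _ hi)).2]
  have zz : ∀ y ∈ A, y ∉ B → ∀ i, i < 275 → p (MA.act z (MA.act y i)) = p i := fun y hy hyB i hi => by
    rw [← MA.mul _ _ _ hi]; exact hinv _ (mul_mem_of_two h2 hz hy hzB hyB) i hi
  have eqs : ∀ s : T, cnt (fun i => p (MA.act 1 i) && p (MA.act s i)) 275 =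
      cnt (fun i => p (MA.act z i) && p (MA.act (z * s) i)) 275 ∧
      cnt (fun i => p (MA.act 1 i) && p (MA.act (z * s) i)) 275 =
      cnt (fun i => p (MA.act z i) && p (MA.act s i)) 275 := by
    intro s
    obtain ⟨y, hy, hys, hyB, hysB, -⟩ := h.exists_pElem Nat.prime_two (h2 ▸ dvd_rfl) s⁻¹
    have e : ∀ i, i < 275 → MA.act s (MA.act y i) = MA.act (s⁻¹⁻¹ * y * s⁻¹) (MA.act s i) := by
      intro i hi
      rw [← MA.mul _ _ _ hi, ← MA.mul _ _ _ hi]; congr 1; group
    have k1 : ∀ i, i < 275 → p (MA.act 1 (MA.act y i)) = p (MA.act z i) := fun i hi => by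
      rw [MA.one _ (MA.lt _ _ hi), out y hy hyB i hi]
    have k2 : ∀ i, i < 275 → p (MA.act z (MA.act y i)) = p (MA.act 1 i) := fun i hi => by
      rw [MA.one _ hi, zz y hy hyB i hi]
    have k3 : ∀ i, i < 275 → p (MA.act s (MA.act y i)) = p (MA.act (z * s) i) := fun i hi => by
      rw [e i hi, out _ hys hysB _ (MA.lt _ _ hi), MA.mul _ _ _ hi]
    have k4 : ∀ i, i < 275 → p (MA.act (z * s) (MA.act y i)) = p (MA.act s i) := fun i hi => by
      rw [MA.mul _ _ _ (MA.lt _ _ hi), e i hi, zz _ hys hysB _ (MA.lt _ _ hi)]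
    refine ⟨le_antisymm ?_ ?_, le_antisymm ?_ ?_⟩ <;> refine cle y fun i hi hf => ?_
    · rwa [k2 i hi, k4 i hi]
    · rwa [k1 i hi, k3 i hi]
    · rwa [k2 i hi, k3 i hi]
    · rwa [k1 i hi, k4 i hi]
  rw [leaf7, cn (by norm_num) (by norm_num) a0 a2, cn (by norm_num) (by norm_num) a1 a3,
    cn (by norm_num) (by norm_num) a0 a3, cn (by norm_num) (by norm_num) a1 a2,
    cn (by norm_num) (by norm_num) a0 a4, cn (by norm_num) (by norm_num) a1 a5,
    cn (by norm_num) (by norm_num) a0 a5, cn (by norm_num) (by norm_num) a1 a4,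
    (eqs _).1, (eqs _).2, (eqs _).1, (eqs _).2, Nat.beq_refl, Nat.beq_refl, Nat.beq_refl,
    Nat.beq_refl] at hl
  exact absurd hl (by decide)

theorem seven_swap (h : IsPair A B) (h2 : B.relIndex A = 2) (hx : mk x7 ∈ B)
    (hN : normalizer ((zpowers (mk x7) : Subgroup T) : Set T) ≤ A)
    (h21 : Nat.card (B ⊓ normalizer ((zpowers (mk x7) : Subgroup T) : Set T) : Subgroup T) = 21) :
    False := by
  have hS := cS
  simp only [Bool.and_eq_true, Bool.not_eq_true', Nat.beq_eq] at hS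
  obtain ⟨-, -, s1, s2, s3, s4, s5, -, -, s6⟩ := hS
  have hcz : Nat.card (zpowers (mk x7)) = 7 := by rw [Nat.card_zpowers, ord_x7]
  have fx : ∀ i, i < 275 → (MA.act (mk x7) i = i ↔ i = 99 ∨ i = 163) := fun i hi => by
    have := allB_iff.1 s6 i hi
    have e : lk x7 i = MA.act (mk x7) i := rx7 i hi
    rwa [beq_iff_eq, Bool.eq_iff_iff, Bool.or_eq_true, Nat.beq_eq, Nat.beq_eq, Nat.beq_eq, e] at this
  have e1 : mk m7 * mk x7 = mk x7 * mk x7 * mk m7 :=
    eq_of_eqB base (rm7.ag2 rx7) ((rx7.ag2 rx7).cons rm7) s1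
  have e2 := pow_of_pwB base rm7.ag s2
  have e3 := pow_of_pwB base rz7.ag s3
  have e4 := ne_of_eqB base rz7.ag NA.ag_nil s4
  have e5 : mk z7 * mk x7 = mk x7 * mk z7 := eq_of_eqB base (rz7.ag2 rx7) (rx7.ag2 rz7) s5
  set x := mk x7 with hxdef
  have nm : ∀ {u : T}, u * x * u⁻¹ ∈ zpowers x → u ∈ normalizer ((zpowers x : Subgroup T) : Set T) :=
    fun hu => mem_normalizer_fintype (by
      rintro _ ⟨n, rfl⟩
      simp only
      rw [← conj_zpow]
      exact zpow_mem hu n)
  have hm := nm (u := mk m7) (by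
    rw [e1, mul_inv_cancel_right]; exact mul_mem (mem_zpowers x) (mem_zpowers x))
  have hz := nm (u := mk z7) (by rw [e5, mul_inv_cancel_right]; exact mem_zpowers x)
  have l99 : 99 < MA.n := by norm_num
  have l163 : 163 < MA.n := by norm_num
  refine seven_search h h2 hx (mem_of_coprime h (hN hm) (by
    rw [h2]; exact Nat.Coprime.coprime_dvd_right (orderOf_dvd_of_pow_eq_one e2) (by norm_num))) (hN hz)
    (fun hb => ?_) fun β hβ e => ?_
  · have := orderOf_dvd_natCard (B ⊓ normalizer ((zpowers x : Subgroup T) : Set T)) ⟨hb, hz⟩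
    rw [ord2 ((pow_two _).symm.trans e3) e4, h21] at this
    norm_num at this
  have xa : MA.act x 99 = 99 := (fx 99 l99).2 (Or.inl rfl)
  have xb : MA.act x 163 = 163 := (fx 163 l163).2 (Or.inr rfl)
  have hle : (zpowers x).map (MulAut.conj β⁻¹).toMonoidHom ≤ B ⊓ MA.stab 99 l99 := by
    rintro _ ⟨y, hy, rfl⟩
    refine ⟨B.mul_mem (B.mul_mem (B.inv_mem hβ) (zpowers_le.2 hx hy)) (B.inv_mem (B.inv_mem hβ)), ?_⟩
    show MA.act (β⁻¹ * y * β⁻¹⁻¹) 99 = 99
    have e2 : MA.act y 163 = 163 := (zpowers_le (H := MA.stab 163 l163)).2 xb hy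
    rw [inv_inv, MA.mul _ _ _ l99, e, MA.mul _ _ _ l163, e2, ← e, NA.act_inv β l99]
  obtain ⟨s, hs, hs'⟩ := sylow_conj (S := B ⊓ MA.stab 99 l99) (P := zpowers x) (k := 1)
    (by norm_num : Nat.Prime 7) (zpowers_le.2 ⟨hx, xa⟩) hle (by rw [hcz, pow_one])
    (by rw [card_map_conj, hcz, pow_one]) (not_sq (by simp) _)
  have hn : s * β⁻¹ ∈ normalizer ((zpowers x : Subgroup T) : Set T) := mem_normalizer_fintype (by
    intro y hy
    have := (hs' _).1 (⟨y, hy, rfl⟩ : β⁻¹ * y * β⁻¹⁻¹ ∈ (zpowers x).map (MulAut.conj β⁻¹).toMonoidHom)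
    simpa [mul_assoc] using this)
  have n1 : MA.act (s * β⁻¹) 163 = 99 := by
    rw [MA.mul _ _ _ l163, ← e, NA.act_inv β l99]; exact hs.2
  have n21 : (s * β⁻¹) ^ 21 = 1 := orderOf_dvd_iff_pow_eq_one.1
    (h21 ▸ orderOf_dvd_natCard _ ⟨B.mul_mem hs.1 (B.inv_mem hβ), hn⟩)
  generalize s * β⁻¹ = n at hn n1 n21
  have n2 : MA.act n 99 = 163 := by
    have h3 : MA.act (n⁻¹ * x * n) 99 = 99 := (zpowers_le (H := MA.stab 99 l99)).2 xa
      ((mem_normalizer_iff''.1 hn x).1 (mem_zpowers x))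
    have h4 := (fix_conj (M := MA) (t := n) l99).2 h3
    rw [show n * (n⁻¹ * x * n) * n⁻¹ = x by group] at h4
    refine ((fx _ (MA.lt _ _ l99)).1 h4).resolve_left fun e => ?_
    exact absurd (NA.inj (M := MA) n l99 l163 (e.trans n1.symm)) (by norm_num)
  have n3 := act_pow_fix (M := MA) (g := n ^ 2) l163 (by rw [pow_two, MA.mul _ _ _ l163, n1, n2]) 11
  rw [← pow_mul, show 2 * 11 = 21 + 1 from rfl, pow_succ, n21, one_mul, n1] at n3
  norm_num at n3

theorem cong7 {P : Subgroup T} {y : T} (hy : orderOf y = 7) (hn : y ∈ normalizer (P : Set T))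
    (hc : (Nat.card P).Coprime 14) : Nat.card P ≡ 1 [MOD 7] := by
  have h3 := card_cent_modEq (N := P) (x := y) (k := 1) (by norm_num : Nat.Prime 7)
    (by rw [pow_one, ← hy, pow_orderOf_eq_one]) hn
  rwa [Nat.eq_one_of_dvd_coprimes hc (card_dvd_of_le inf_le_left)
    (cent7 hy ▸ card_dvd_of_le inf_le_right)] at h3

/-- A Sylow `3`-subgroup is not normalised by an element of order seven. -/
theorem no729 {P : Subgroup T} {y : T} (hy : orderOf y = 7) (hn : y ∈ normalizer (P : Set T))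
    (hP : Nat.card P = 3 ^ 6) : False := by
  have hd : Nat.card (P ⊓ centralizer (P : Set T) : Subgroup T) ∣ 3 ^ 6 := hP ▸ card_dvd_of_le inf_le_left
  have h1 := cong7 (P := P ⊓ centralizer (P : Set T)) hy (mem_normalizer_fintype fun z hz =>
    ⟨(mem_normalizer_iff.1 hn z).1 hz.1, mem_centralizer_iff.2 fun g hg => by
      have := mem_centralizer_iff.1 hz.2 _ ((mem_normalizer_iff''.1 hn g).1 hg)
      calc _ = y * (y⁻¹ * g * y * z) * y⁻¹ := by group
        _ = _ := by rw [this]; group⟩) (Nat.Coprime.coprime_dvd_left hd (by norm_num))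
  obtain ⟨n, hn1, hn2, hn3⟩ := exists_cent (D := P) (N := P) Nat.prime_three (IsPGroup.of_card hP)
    le_normalizer (by rw [hP]; norm_num)
  have h2 : Nat.card (P ⊓ centralizer (P : Set T) : Subgroup T) ≠ 1 := fun e => hn2 (mem_bot.1
    (card_eq_one.1 e ▸ (⟨hn1, mem_centralizer_iff.2 fun g hg =>
      mem_centralizer_singleton_iff.1 (hn3 hg)⟩ : n ∈ P ⊓ centralizer (P : Set T))))
  obtain ⟨k, hk, e⟩ := (Nat.dvd_prime_pow Nat.prime_three).1 hd
  have h3 : k = 6 := by
    rw [e] at h1 h2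
    interval_cases k <;> first | rfl | exact absurd rfl h2 | exact absurd h1 (by decide)
  have h4 := inf_eq_left.1 (eq_of_le_of_card_ge (inf_le_left : P ⊓ centralizer (P : Set T) ≤ P)
    (by rw [e, h3, hP]))
  obtain ⟨Q, hQ, hc⟩ := exists_sylow_mem (k := 6) Nat.prime_three (order_gs' 3) (by decide +kernel)
  obtain ⟨s, -, hs⟩ := sylow_conj (S := ⊤) Nat.prime_three le_top le_top hP hc
    (by rw [card_top, cardT]; norm_num)
  have h5 : P ≤ centralizer ({s * gs 3 * s⁻¹} : Set T) := fun g hg =>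
    mem_centralizer_singleton_iff.2 (mem_centralizer_iff.1 (h4 hg) _ ((hs _).1 hQ)).symm
  have h6 := card_centralizer_conj s⁻¹ (gs 3)
  have h7 := card_dvd_of_le h5
  rw [inv_inv] at h6
  rw [h6, hP, show gs 3 = xs 3 from rfl, classes.2] at h7
  exact absurd h7 (by decide)

/-- **Index two and order divisible by seven.** -/
theorem no7 (h : IsPair A B) (h2 : B.relIndex A = 2) : ¬ 7 ∣ Nat.card A := by
  intro hd
  obtain ⟨g, hg⟩ := exists_conj_mem (T := T) (by norm_num) (by rw [cardT]; norm_num) ord_x7 hd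
  have h' := h.conj g
  rw [← relIndex_conj A B g] at h2
  generalize A.map (MulAut.conj g).toMonoidHom = A at hg h' h2
  generalize B.map (MulAut.conj g).toMonoidHom = B at h' h2
  have hB : mk x7 ∈ B := mem_of_coprime h' hg (by rw [ord_x7, h2]; norm_num)
  have hc : Nat.card (zpowers (mk x7)) = 7 := by rw [Nat.card_zpowers, ord_x7]
  have h1 := frattini_card (k := 1) (by norm_num : Nat.Prime 7) (zpowers_le.2 hB) h'.le
    (le_normalizer_B h') (by rw [hc, pow_one]) (not_sq (by simp) B)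
  have h3 : 7 ∣ Nat.card (B ⊓ normalizer ((zpowers (mk x7) : Subgroup T) : Set T) : Subgroup T) :=
    hc ▸ card_dvd_of_le (le_inf (zpowers_le.2 hB) le_normalizer)
  have h4 : Nat.card (A ⊓ normalizer ((zpowers (mk x7) : Subgroup T) : Set T) : Subgroup T) ∣ 42 :=
    norm7 ord_x7 ▸ card_dvd_of_le inf_le_right
  obtain ⟨m, hm⟩ := h3
  rw [h2, hm] at h1
  have h5 : m ∣ 3 := Nat.dvd_of_mul_dvd_mul_left (by norm_num : 0 < 14)
    (by rw [← h1] at h4; convert h4 using 1; ring)
  rcases (Nat.dvd_prime Nat.prime_three).1 h5 with rfl | rfl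
  · obtain ⟨K, hKB, hK, hBK, hK7⟩ := exists_compl (T := T) (by norm_num) hB ord_x7 (not_sq (by simp) B) hm
    have h0 : Nat.card K ≠ 0 := Nat.card_pos.ne'
    have hi : 7 ∣ K.relIndex B := by
      have := card_mul_relIndex hKB
      rw [← hK] at this
      rw [Nat.eq_of_mul_eq_mul_left Nat.card_pos this]
    have key : ∀ {p : ℕ}, p.Prime → p ∣ Nat.card K → p = 2 := by
      intro p hp hd
      obtain ⟨P, hPK, hP, y, hy, hn⟩ := exists_inv_sylow hKB hBK (by norm_num) hp hi
      have h6 : p ^ (Nat.card K).factorization p ∣ 898128000 := (Nat.ordProj_dvd _ _).trans (card_dvd K)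
      have h7 := hp.factorization_pos_of_dvd h0 hd
      generalize (Nat.card K).factorization p = k at hP h6 h7
      rcases prime_cases hp (hd.trans (card_dvd K)) with rfl | rfl | rfl | rfl | rfl
      · rfl
      all_goals exfalso
      rotate_left 2
      · exact hK7 hd
      all_goals
        have h8 := cong7 hy hn (by rw [hP]; exact Nat.Coprime.pow_left _ (by norm_num))
        have h9 : k ≤ 6 := by
          by_contra hlt
          exact absurd ((pow_dvd_pow _ (by omega : 7 ≤ k)).trans h6) (by norm_num)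
        rw [hP] at h8
        interval_cases k <;>
          first | exact no729 hy hn hP | exact absurd h8 (by decide) | exact absurd h6 (by norm_num)
    have e := Nat.eq_prime_pow_of_unique_prime_dvd h0 key
    generalize (Nat.card K).primeFactorsList.length = k at e
    have h6 : k ≤ 7 := by
      by_contra hlt
      exact absurd ((pow_dvd_pow 2 (by omega : 8 ≤ k)).trans (e ▸ card_dvd K)) (by norm_num)
    have h7 : Nat.card K ≤ 2 ^ 7 := e ▸ Nat.pow_le_pow_right (by norm_num) h6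
    have := two_count' h' h2 hB (a := 140) (b := 896) (by norm_num) ord_x7 (by omega)
      (by rw [cent7 ord_x7]; norm_num)
    omega
  · exact seven_swap h' h2 hB (inf_eq_right.1 (eq_of_le_of_card_ge inf_le_right
      (by rw [norm7 ord_x7, ← h1]))) hm

end Cfsg.Agent.SP.NegS.McL
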