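import Cfsg.Agent.SP.Iface
import Cfsg.Agent.SP.NegS.J1
import Cfsg.Agent.SP.NegS.M22
import Cfsg.Agent.OrdDiv.Table

/-! # S5755: the negative rows of `J1` and `M22` -/

set_option autoImplicit false

namespace Cfsg.Agent.SP.NegS

theorem base (hC : CFSG.{0}) : H940.Eng.Base := ⟨OrdDiv.table, fun S _ _ _ => hC S⟩

theorem negJ1 (hC : CFSG.{0}) : ¬ Pair Spor.J1 := J1.main (base hC)

theorem negM22 (hC : CFSG.{0}) : ¬ Pair Spor.M22 := M22.main (base hC)

end Cfsg.Agent.SP.NegS
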