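import Cfsg.Agent.SP.NegS.RowsA
import Cfsg.Agent.SP.NegS.McL

/-! # S5755: the negative row of `McL` -/

set_option autoImplicit false

namespace Cfsg.Agent.SP.NegS

theorem negMcL (hC : CFSG.{0}) : ¬ Pair Spor.McL := McL.main (base hC)

end Cfsg.Agent.SP.NegS
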